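import Mathlib

/-!
A presentation of an amalgam, recording the images of the generators.
-/

set_option autoImplicit false

namespace CfsgLib.SUPres

/-- Joining two presentations along relations between the subgroups. -/
theorem exists_amalg {m k : ℕ} {A B H : Type*} [Group A] [Group B] [Group H]
    (RA : Finset (FreeGroup (Fin m))) (eA : PresentedGroup (↑RA : Set (FreeGroup (Fin m))) ≃* A)
    (RB : Finset (FreeGroup (Fin k))) (eB : PresentedGroup (↑RB : Set (FreeGroup (Fin k))) ≃* B)
    (E : List (Monoid.Coprod A B)) (f : A →* H) (g : B →* H)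
    (hE : ∀ w ∈ E, Monoid.Coprod.lift f g w = 1) (hgen : f.range ⊔ g.range = ⊤)
    (huniv : ∀ {G : Type} [Group G] (f' : A →* G) (g' : B →* G),
      (∀ w ∈ E, Monoid.Coprod.lift f' g' w = 1) → ∃ Φ : H →* G, Φ.comp f = f' ∧ Φ.comp g = g') :
    ∃ R : Finset (FreeGroup (Fin (m + k))), R.card ≤ RA.card + RB.card + E.length ∧
      ∃ e : PresentedGroup (↑R : Set (FreeGroup (Fin (m + k)))) ≃* H,
        (∀ i, e (PresentedGroup.of (Fin.castAdd k i)) = f (eA (PresentedGroup.of i))) ∧
        ∀ i, e (PresentedGroup.of (Fin.natAdd m i)) = g (eB (PresentedGroup.of i)) := by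
  classical
  let ua : FreeGroup (Fin m) →* FreeGroup (Fin (m + k)) := FreeGroup.map (Fin.castAdd k)
  let ub : FreeGroup (Fin k) →* FreeGroup (Fin (m + k)) := FreeGroup.map (Fin.natAdd m)
  let W : FreeGroup (Fin (m + k)) →* Monoid.Coprod A B :=
    FreeGroup.lift (Fin.append (fun i => Monoid.Coprod.inl (eA (PresentedGroup.of i)))
      (fun i => Monoid.Coprod.inr (eB (PresentedGroup.of i))))
  have hWa : ∀ r, W (ua r) = Monoid.Coprod.inl (eA (PresentedGroup.mk _ r)) := fun r =>
    DFunLike.congr_fun (FreeGroup.ext_hom (W.comp ua)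
      ((Monoid.Coprod.inl.comp eA.toMonoidHom).comp (PresentedGroup.mk _))
      fun i => by simp [W, ua, PresentedGroup.of]) r
  have hWb : ∀ r, W (ub r) = Monoid.Coprod.inr (eB (PresentedGroup.mk _ r)) := fun r =>
    DFunLike.congr_fun (FreeGroup.ext_hom (W.comp ub)
      ((Monoid.Coprod.inr.comp eB.toMonoidHom).comp (PresentedGroup.mk _))
      fun i => by simp [W, ub, PresentedGroup.of]) r
  have hWsurj : Function.Surjective W := by
    intro w
    induction w using Monoid.Coprod.induction_on with
    | inl a =>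
      obtain ⟨r, hr⟩ := PresentedGroup.mk_surjective _ (eA.symm a)
      exact ⟨ua r, by rw [hWa, hr, MulEquiv.apply_symm_apply]⟩
    | inr b =>
      obtain ⟨r, hr⟩ := PresentedGroup.mk_surjective _ (eB.symm b)
      exact ⟨ub r, by rw [hWb, hr, MulEquiv.apply_symm_apply]⟩
    | mul x y hx hy =>
      obtain ⟨r, rfl⟩ := hx
      obtain ⟨s, rfl⟩ := hy
      exact ⟨r * s, map_mul W r s⟩
  choose word hword using hWsurj
  set R := RA.image ua ∪ RB.image ub ∪ (E.map word).toFinset with hR
  refine ⟨R, ?_, ?_⟩
  · calc R.card ≤ (RA.image ua).card + (RB.image ub).card + (E.map word).toFinset.card :=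
        (Finset.card_union_le _ _).trans (Nat.add_le_add_right (Finset.card_union_le _ _) _)
      _ ≤ RA.card + RB.card + E.length := by
        gcongr
        · exact Finset.card_image_le
        · exact Finset.card_image_le
        · exact (List.toFinset_card_le _).trans (by simp)
  set P := PresentedGroup (↑R : Set (FreeGroup (Fin (m + k))))
  have hone : ∀ r ∈ R, PresentedGroup.mk (↑R : Set (FreeGroup (Fin (m + k)))) r = 1 := fun r hr =>
    PresentedGroup.one_of_mem (Finset.mem_coe.2 hr)
  let fa : A →* P := (PresentedGroup.toGroup (f := fun i => PresentedGroup.mk _ (ua (FreeGroup.of i)))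
    (fun r hr => by
      have h : FreeGroup.lift (fun i => PresentedGroup.mk (↑R : Set (FreeGroup (Fin (m + k))))
          (ua (FreeGroup.of i))) = (PresentedGroup.mk _).comp ua :=
        FreeGroup.ext_hom _ _ fun i => by simp
      rw [h, MonoidHom.comp_apply]
      exact hone _ (by simp [hR, Finset.mem_coe.1 hr] ; exact Or.inl ⟨r, hr, rfl⟩))).comp
    eA.symm.toMonoidHom
  let fb : B →* P := (PresentedGroup.toGroup (f := fun i => PresentedGroup.mk _ (ub (FreeGroup.of i)))
    (fun r hr => by
      have h : FreeGroup.lift (fun i => PresentedGroup.mk (↑R : Set (FreeGroup (Fin (m + k))))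
          (ub (FreeGroup.of i))) = (PresentedGroup.mk _).comp ub :=
        FreeGroup.ext_hom _ _ fun i => by simp
      rw [h, MonoidHom.comp_apply]
      exact hone _ (by simp [hR] ; exact Or.inr (Or.inl ⟨r, hr, rfl⟩)))).comp
    eB.symm.toMonoidHom
  have hlift : ∀ r, Monoid.Coprod.lift fa fb (W r) =
      PresentedGroup.mk (↑R : Set (FreeGroup (Fin (m + k)))) r := fun r =>
    DFunLike.congr_fun (FreeGroup.ext_hom ((Monoid.Coprod.lift fa fb).comp W)
      (PresentedGroup.mk _) fun i => by
        induction i using Fin.addCases with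
        | left i => simp [W, fa, ua, PresentedGroup.toGroup.of]
        | right i => simp [W, fb, ub, PresentedGroup.toGroup.of]) r
  obtain ⟨Φ, hΦf, hΦg⟩ := huniv fa fb fun w hw => by
    rw [← hword w, hlift]
    exact hone _ (by simp [hR]; exact Or.inr (Or.inr ⟨w, hw, rfl⟩))
  let ψ : P →* H := PresentedGroup.toGroup
    (f := fun i => Monoid.Coprod.lift f g (W (FreeGroup.of i))) (fun r hr => by
      have h : FreeGroup.lift (fun i => Monoid.Coprod.lift f g (W (FreeGroup.of i))) =
          (Monoid.Coprod.lift f g).comp W := FreeGroup.ext_hom _ _ fun i => by simp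
      rw [h, MonoidHom.comp_apply]
      simp only [hR, Finset.mem_coe, Finset.mem_union, Finset.mem_image, List.mem_toFinset,
        List.mem_map] at hr
      rcases hr with (⟨s, hs, rfl⟩ | ⟨s, hs, rfl⟩) | ⟨w, hw, rfl⟩
      · rw [hWa, PresentedGroup.one_of_mem (Finset.mem_coe.2 hs), map_one, map_one, map_one]
      · rw [hWb, PresentedGroup.one_of_mem (Finset.mem_coe.2 hs), map_one, map_one, map_one]
      · rw [hword]; exact hE w hw)
  have hΦ : Φ.comp (Monoid.Coprod.lift f g) = Monoid.Coprod.lift fa fb :=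
    Monoid.Coprod.hom_ext (by ext a; simp [← hΦf]) (by ext b; simp [← hΦg])
  refine ⟨MonoidHom.toMulEquiv ψ Φ (PresentedGroup.ext fun i => ?_) ?_,
    fun i => (by simp [MonoidHom.toMulEquiv_apply, ψ, PresentedGroup.toGroup.of, W]),
    fun i => (by simp [MonoidHom.toMulEquiv_apply, ψ, PresentedGroup.toGroup.of, W])⟩
  · simp only [MonoidHom.comp_apply, MonoidHom.id_apply, ψ, PresentedGroup.toGroup.of]
    rw [← MonoidHom.comp_apply, hΦ, hlift]
    rfl
  · refine MonoidHom.eq_of_eqOn_top fun x _ => ?_
    have hsurj : x ∈ (Monoid.Coprod.lift f g).range := by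
      rw [Monoid.Coprod.range_lift, hgen]; trivial
    obtain ⟨w, rfl⟩ := hsurj
    obtain ⟨r, rfl⟩ : ∃ r, W r = w := ⟨word w, hword w⟩
    simp only [MonoidHom.comp_apply, MonoidHom.id_apply]
    rw [show Φ (Monoid.Coprod.lift f g (W r)) = PresentedGroup.mk _ r from
      (DFunLike.congr_fun hΦ (W r)).trans (hlift r)]
    exact DFunLike.congr_fun (FreeGroup.ext_hom (ψ.comp (PresentedGroup.mk _))
      ((Monoid.Coprod.lift f g).comp W) fun i => by
        simp only [MonoidHom.comp_apply]
        exact PresentedGroup.toGroup.of (rels := (↑R : Set (FreeGroup (Fin (m + k))))) _) r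

end CfsgLib.SUPres
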