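import Mathlib
import Cfsg.Agent.Classical.Unitary.Field

/-!
A field with an involution together with a parametrisation of its fixed field, and compatible
generators of the multiplicative groups.
-/

set_option autoImplicit false

namespace CfsgLib.SUPres

universe u v

/-- A field with an involution and a parametrised fixed field. -/
structure HermPair (F : Type u) (K : Type v) [Field F] [Field K] where
  /-- The involution. -/
  σ : F →+* F
  /-- The fixed field. -/
  ι : K →+* F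
  /-- The norm. -/
  nrm : F → K
  /-- The trace. -/
  tr : F → K
  σσ : ∀ s, σ (σ s) = s
  σι : ∀ a, σ (ι a) = ι a
  fixed : ∀ s, σ s = s → ∃ a, ι a = s
  ι_nrm : ∀ s, ι (nrm s) = s * σ s
  ι_tr : ∀ s, ι (tr s) = s + σ s

namespace HermPair

variable {F : Type u} {K : Type v} [Field F] [Field K] (H : HermPair F K)

theorem nrm_zero : H.nrm 0 = 0 := H.ι.injective (by simp [H.ι_nrm])

theorem nrm_one : H.nrm 1 = 1 := H.ι.injective (by simp [H.ι_nrm])

theorem nrm_neg (s : F) : H.nrm (-s) = H.nrm s := H.ι.injective (by simp [H.ι_nrm])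

theorem nrm_mul (s t : F) : H.nrm (s * t) = H.nrm s * H.nrm t :=
  H.ι.injective (by simp [H.ι_nrm]; ring)

theorem nrm_add (s t : F) : H.nrm (s + t) = H.nrm s + H.nrm t + H.tr (s * H.σ t) :=
  H.ι.injective (by simp [H.ι_nrm, H.ι_tr, H.σσ]; ring)

theorem tr_zero : H.tr 0 = 0 := H.ι.injective (by simp [H.ι_tr])

end HermPair

/-- Compatible generators. -/
structure HermGen {F : Type u} {K : Type v} [Field F] [Field K] (H : HermPair F K) (ζ : Fˣ)
    (η : Kˣ) (k : ℕ) : Prop where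
  genF : ∀ u : Fˣ, u ∈ Subgroup.zpowers ζ
  genK : ∀ u : Kˣ, u ∈ Subgroup.zpowers η
  ι_η : H.ι (η : K) = (ζ : F) * H.σ (ζ : F)
  pow_k : (ζ : F) ^ k = H.ι (η : K)
  sq_ne : (ζ : F) ^ 2 ≠ H.σ (ζ : F) ^ 2

namespace HermGen

variable {F : Type u} {K : Type v} [Field F] [Field K] {H : HermPair F K} {ζ : Fˣ} {η : Kˣ} {k : ℕ}

theorem sigma_pow_k (E : HermGen H ζ η k) : H.σ (ζ : F) ^ k = H.ι (η : K) := by
  rw [← map_pow, E.pow_k, H.σι]

theorem eta_pow_k (E : HermGen H ζ η k) : (η : K) ^ k = (η : K) ^ 2 := by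
  refine H.ι.injective ?_
  rw [map_pow, map_pow]
  nth_rewrite 1 [E.ι_η]
  rw [mul_pow, E.sigma_pow_k, E.pow_k, pow_two]

end HermGen

open CfsgLib.Unitary in
/-- The setting over a field with `q ^ 2` elements. -/
theorem exists_hermPair {F : Type u} [Field F] [Fintype F] {q : ℕ}
    (hF : Fintype.card F = q ^ 2) :
    ∃ (K : Type u) (_ : Field K) (_ : Fintype K) (H : HermPair F K) (ζ : Fˣ) (η : Kˣ),
      Fintype.card K = q ∧ (∀ s, H.σ s = s ^ q) ∧ HermGen H ζ η (q + 1) := by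
  classical
  let F₀ : Subfield F := (conjHom hF).eqLocusField (RingHom.id F)
  have hmem : ∀ x : F, x ∈ F₀ ↔ x ^ q = x := fun x => Iff.rfl
  letI : Fintype F₀ := Fintype.ofFinite F₀
  have hcard : Fintype.card F₀ = q := by
    rw [← Nat.card_eq_fintype_card, Nat.card_congr (Equiv.subtypeEquivRight hmem), card_fixed hF]
  let H : HermPair F F₀ :=
    { σ := conjHom hF
      ι := F₀.subtype
      nrm := fun s => ⟨s * s ^ q, (hmem _).2 (by rw [mul_pow, pow_q_q hF, mul_comm])⟩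
      tr := fun s => ⟨s + s ^ q, (hmem _).2 (trace_pow_q hF s)⟩
      σσ := fun s => pow_q_q hF s
      σι := fun a => (hmem _).1 a.2
      fixed := fun s hs => ⟨⟨s, (hmem _).2 hs⟩, rfl⟩
      ι_nrm := fun s => rfl
      ι_tr := fun s => rfl }
  obtain ⟨ζ, hζ⟩ := IsCyclic.exists_generator (α := Fˣ)
  have hne : H.nrm (ζ : F) ≠ 0 := fun h => by
    have := congrArg H.ι h
    rw [H.ι_nrm, map_zero, mul_eq_zero] at this
    rcases this with h | h
    · exact ζ.ne_zero h
    · exact ζ.ne_zero (pow_eq_zero_iff (by have := two_le_q hF; omega) |>.1 h)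
  refine ⟨F₀, inferInstance, inferInstance, H, ζ, Units.mk0 _ hne, hcard, fun s => rfl,
    hζ, fun u => ?_, rfl, ?_, ?_⟩
  · obtain ⟨a, ha⟩ := exists_norm_eq hF (a := ((u : F₀) : F)) ((hmem _).1 (u : F₀).2)
    have ha0 : a ≠ 0 := fun h => u.ne_zero (Subtype.ext (by
      show ((u : F₀) : F) = 0
      rw [← ha, h, zero_pow (by omega)]))
    obtain ⟨i, hi⟩ := (mem_powers_iff_mem_zpowers).2 (hζ (Units.mk0 a ha0))
    refine mem_powers_iff_mem_zpowers.1 ⟨i, Units.ext (Subtype.ext ?_)⟩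
    show (((Units.mk0 _ hne ^ i : F₀ˣ) : F₀) : F) = _
    rw [Units.val_pow_eq_pow_val, Units.val_mk0, SubmonoidClass.coe_pow]
    show ((ζ : F) * (ζ : F) ^ q) ^ i = _
    rw [← ha, ← pow_succ', pow_right_comm, ← Units.val_pow_eq_pow_val ζ i,
      show ζ ^ i = Units.mk0 a ha0 from hi, Units.val_mk0]
  · show (ζ : F) ^ (q + 1) = (ζ : F) * (ζ : F) ^ q
    rw [pow_succ']
  · show (ζ : F) ^ 2 ≠ ((ζ : F) ^ q) ^ 2
    intro h
    have hq := two_le_q hF
    have hord : orderOf (ζ : F) = (q - 1) * (q + 1) := by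
      rw [orderOf_units, orderOf_eq_card_of_forall_mem_zpowers hζ, card_units_eq hF]
    rw [← pow_mul, show q * 2 = 2 + 2 * (q - 1) by omega, pow_add] at h
    have h1 : (ζ : F) ^ (2 * (q - 1)) = 1 :=
      (mul_right_eq_self₀.1 h.symm).resolve_right (pow_ne_zero _ ζ.ne_zero)
    have h2 := Nat.le_of_dvd (by omega) (hord ▸ orderOf_dvd_of_pow_eq_one h1)
    have h3 : (q - 1) * 3 ≤ (q - 1) * (q + 1) := Nat.mul_le_mul_left _ (by omega)
    omega

end CfsgLib.SUPres
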