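import Mathlib
import Cfsg.Agent.SLThreePres.Bound
import Cfsg.Agent.SUPres.Pair

/-!
A bound `|G| ≤ |SU₄|` for a group generated by an `SL₂(F)`-datum `x` on the short root and an
`SL₂(K)`-datum `y` on the long root, `K` the fixed field of the involution of `F`, tied together by
relations of type `C₂`.
-/

set_option autoImplicit false
set_option linter.style.haveILetI false
set_option maxHeartbeats 4000000

namespace CfsgLib.SUPres

open CfsgLib.SLTwoPres
open CfsgLib.SLThreePres (all_mem_of_mul_closed)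
open CfsgLib.SLThreePres.SL3Data (conj_scal)

variable {F K : Type*} [Field F] [Field K]

/-- The relations tying the two `SL₂`-data together. -/
structure SU4Data (H : HermPair F K) (ζ : Fˣ) (η : Kˣ) (k : ℕ) {P : Type*} [Group P] (x : F → P)
    (h w : P) (y : K → P) (h' w' : P) : Prop where
  sl : SLData ζ x h w
  sl' : SLData η y h' w'
  conj_hy : ∀ t, h * y t * h⁻¹ = y ((η : K)⁻¹ * t)
  rel_hh : h * h' = h' * h
  rel_hx : h' * x 1 * h'⁻¹ = x (H.ι (η : K))⁻¹
  rel_wh : w * h' * w⁻¹ = h ^ k * h'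
  rel_wh' : w' * h * w'⁻¹ = h * h'
  rel_wr : w * (w' * x (-1) * w'⁻¹) * w⁻¹ = w' * x 1 * w'⁻¹
  rel_wz : w' * (w * y 1 * w⁻¹) * w'⁻¹ = w * y 1 * w⁻¹
  rel_braid : w' * w * w' * w = w * w' * w * w'
  rel_yz : y 1 * (w * y 1 * w⁻¹) = w * y 1 * w⁻¹ * y 1
  rel_xz : x 1 * (w * y 1 * w⁻¹) = w * y 1 * w⁻¹ * x 1
  rel_xy : x 1 * y 1 * (x 1)⁻¹ = w' * x (-1) * w'⁻¹ * (w * y 1 * w⁻¹) * y 1
  rel_xy' : ¬ IsSquare (ζ : F) → x (ζ : F) * y 1 * (x (ζ : F))⁻¹ =
    w' * x (-(ζ : F)) * w'⁻¹ * (w * y (η : K) * w⁻¹) * y 1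

namespace SU4Data

variable [Fintype F] [Fintype K] {H : HermPair F K} {ζ : Fˣ} {η : Kˣ} {k : ℕ} {P : Type*}
  [Group P] {x : F → P} {h w : P} {y : K → P} {h' w' : P}
variable (E : SU4Data H ζ η k x h w y h' w') (G : HermGen H ζ η k)
include E G

/-- The main bound. -/
theorem finite_and_card_le
    (hgen : Subgroup.closure ({x 1, h, w, y 1, h', w'} : Set P) = ⊤) :
    Finite P ∧ Nat.card P ≤
      (1 + (Nat.card K + (Nat.card F * Nat.card K + Nat.card K * (Nat.card F * Nat.card K)))) *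
        ((Nat.card K * (Nat.card F * Nat.card K)) *
          (Nat.card (Matrix.SpecialLinearGroup (Fin 2) F) * (Nat.card K - 1))) := by
  classical
  have D := E.sl
  have D' := E.sl'
  have hζ := G.genF
  have hη := G.genK
  set σ := H.σ with hσdef
  set ι := H.ι with hιdef
  set e : K := (η : K) with hedef
  set θ : F := (ζ : F) * (σ (ζ : F))⁻¹ with hθdef
  obtain ⟨z, hz⟩ : ∃ z : K → P, ∀ t, z t = w * y t * w⁻¹ := ⟨_, fun _ => rfl⟩
  obtain ⟨r, hr⟩ : ∃ r : F → P, ∀ t, r t = w' * x (-t) * w'⁻¹ := ⟨_, fun _ => rfl⟩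
  have hH : Commute h h' := E.rel_hh
  obtain ⟨m, hm⟩ := D.w_sq hζ
  obtain ⟨m', hm'⟩ := D'.w_sq hη
  have hζ0 : (ζ : F) ≠ 0 := ζ.ne_zero
  have he0 : e ≠ 0 := η.ne_zero
  have hσζ0 : σ (ζ : F) ≠ 0 := (map_ne_zero σ).2 hζ0
  have hιe : ι e = (ζ : F) * σ (ζ : F) := G.ι_η
  have hιe0 : ι e ≠ 0 := (map_ne_zero ι).2 he0
  have hθ0 : θ ≠ 0 := mul_ne_zero hζ0 (inv_ne_zero hσζ0)
  have hek : e ^ k = e ^ 2 := G.eta_pow_k
  have hζk : (ζ : F) ^ k = ι e := G.pow_k
  have hθk : θ ^ k = 1 := by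
    rw [hθdef, mul_pow, inv_pow, hζk, hσdef, G.sigma_pow_k, mul_inv_cancel₀ hιe0]
  have hpw : ∀ t : F, t ≠ 0 → ∃ n : ℕ, (ζ : F) ^ n = t := fun t ht => by
    obtain ⟨n, hn⟩ := (mem_powers_iff_mem_zpowers).2 (hζ (Units.mk0 t ht))
    exact ⟨n, by rw [← Units.val_pow_eq_pow_val, show ζ ^ n = _ from hn, Units.val_mk0]⟩
  have hpwK : ∀ t : K, t ≠ 0 → ∃ n : ℕ, e ^ n = t := fun t ht => by
    obtain ⟨n, hn⟩ := (mem_powers_iff_mem_zpowers).2 (hη (Units.mk0 t ht))
    exact ⟨n, by rw [hedef, ← Units.val_pow_eq_pow_val, show η ^ n = _ from hn, Units.val_mk0]⟩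
  have hwh : w⁻¹ * h * w = h⁻¹ := by
    calc w⁻¹ * h * w = w⁻¹ * (h * w) := by group
      _ = w⁻¹ * (w * h⁻¹) := by rw [D.h_w]
      _ = h⁻¹ := by group
  have hwh2 : w'⁻¹ * h' * w' = h'⁻¹ := by
    calc w'⁻¹ * h' * w' = w'⁻¹ * (h' * w') := by group
      _ = w'⁻¹ * (w' * h'⁻¹) := by rw [D'.h_w]
      _ = h'⁻¹ := by group
  have hwh' : w⁻¹ * h' * w = h ^ k * h' := by
    calc w⁻¹ * h' * w = (w⁻¹ * h * w)⁻¹ ^ k * (w⁻¹ * (h ^ k * h') * w) := by
          rw [inv_pow, show (w⁻¹ * h * w) ^ k = w⁻¹ * h ^ k * w by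
            simpa using conj_pow (a := w⁻¹) (b := h) (i := k)]
          group
      _ = h ^ k * h' := by
        rw [hwh, inv_inv, show w⁻¹ * (h ^ k * h') * w = h' by rw [← E.rel_wh]; group]
  have hw'h : w'⁻¹ * h * w' = h * h' := by
    calc w'⁻¹ * h * w' = (w'⁻¹ * (h * h') * w') * (w'⁻¹ * h' * w')⁻¹ := by group
      _ = h * h' := by
        rw [hwh2, show w'⁻¹ * (h * h') * w' = h by rw [← E.rel_wh']; group, inv_inv]
  -- scalar actions
  have hy1 : ∀ t, h * y t * h⁻¹ = y (e⁻¹ * t) := E.conj_hy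
  have hy2 : ∀ t, h' * y t * h'⁻¹ = y (e ^ 2 * t) := D'.conj_x
  have hy1' : ∀ t, h⁻¹ * y t * h = y (e * t) := fun t => by
    have := hy1 (e * t)
    rw [← mul_assoc, inv_mul_cancel₀ he0, one_mul] at this
    rw [← this]; group
  have hx1 : ∀ t, h' * x t * h'⁻¹ = x ((ι e)⁻¹ * t) := by
    let A : AddSubgroup F :=
      { carrier := {t | h' * x t * h'⁻¹ = x ((ι e)⁻¹ * t)}
        add_mem' := fun {s t} hs ht => by
          simp only [Set.mem_ofPred_eq] at hs ht ⊢
          rw [D.add, mul_add, D.add, ← hs, ← ht]; group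
        zero_mem' := by simp [D.x_zero]
        neg_mem' := fun {t} ht => by
          simp only [Set.mem_ofPred_eq] at ht ⊢
          rw [D.x_neg, mul_neg, D.x_neg, ← ht]; group }
    refine fun t => all_mem_of_mul_closed hζ 2 (Or.inl rfl) A (fun s hs => ?_) ?_ t
    · show h' * x ((ζ : F) ^ 2 * s) * h'⁻¹ = x ((ι e)⁻¹ * ((ζ : F) ^ 2 * s))
      rw [mul_left_comm, ← D.conj_x, ← D.conj_x, ← show h' * x s * h'⁻¹ = _ from hs]
      calc h' * (h * x s * h⁻¹) * h'⁻¹ = (h' * h) * x s * (h' * h)⁻¹ := by group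
        _ = (h * h') * x s * (h * h')⁻¹ := by rw [hH.eq]
        _ = _ := by group
    · show h' * x 1 * h'⁻¹ = x ((ι e)⁻¹ * 1)
      rw [mul_one]
      exact E.rel_hx
  have hx1' : ∀ t, h'⁻¹ * x t * h' = x (ι e * t) := fun t => by
    have := hx1 (ι e * t)
    rw [← mul_assoc, inv_mul_cancel₀ hιe0, one_mul] at this
    rw [← this]; group
  have hz1 : ∀ t, h * z t * h⁻¹ = z (e * t) := fun t => by
    simp only [hz]
    calc h * (w * y t * w⁻¹) * h⁻¹ = w * ((w⁻¹ * h * w) * y t * (w⁻¹ * h * w)⁻¹) * w⁻¹ := by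
          group
      _ = w * (h⁻¹ * y t * h) * w⁻¹ := by rw [hwh]; group
      _ = _ := by rw [hy1']
  have hz2 : ∀ t, h' * z t * h'⁻¹ = z t := fun t => by
    simp only [hz]
    calc h' * (w * y t * w⁻¹) * h'⁻¹ = w * ((w⁻¹ * h' * w) * y t * (w⁻¹ * h' * w)⁻¹) * w⁻¹ := by
          group
      _ = w * ((h ^ k * (h' * y t * h'⁻¹)) * (h ^ k)⁻¹) * w⁻¹ := by rw [hwh']; group
      _ = _ := by
        rw [D'.conj_x, conj_scal hy1, mul_inv_cancel_right, inv_pow, hek, ← mul_assoc,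
          inv_mul_cancel₀ (pow_ne_zero 2 he0), one_mul]
  have hr1 : ∀ t, h * r t * h⁻¹ = r (θ * t) := fun t => by
    simp only [hr]
    calc h * (w' * x (-t) * w'⁻¹) * h⁻¹ =
        w' * ((w'⁻¹ * h * w') * x (-t) * (w'⁻¹ * h * w')⁻¹) * w'⁻¹ := by group
      _ = w' * (h * (h' * x (-t) * h'⁻¹) * h⁻¹) * w'⁻¹ := by rw [hw'h]; group
      _ = _ := by
        rw [hx1, D.conj_x, hθdef, hιe]
        congr 3
        field_simp
  have hr2 : ∀ t, h' * r t * h'⁻¹ = r (ι e * t) := fun t => by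
    simp only [hr]
    calc h' * (w' * x (-t) * w'⁻¹) * h'⁻¹ =
        w' * ((w'⁻¹ * h' * w') * x (-t) * (w'⁻¹ * h' * w')⁻¹) * w'⁻¹ := by group
      _ = w' * (h'⁻¹ * x (-t) * h') * w'⁻¹ := by rw [hwh2]; group
      _ = _ := by rw [hx1', mul_neg]
  have zadd : ∀ s t, z (s + t) = z s * z t := fun s t => by
    simp only [hz, D'.add]
    group
  have zzero : z 0 = 1 := by simp [hz, D'.x_zero]
  have zneg : ∀ t, z (-t) = (z t)⁻¹ := fun t => by
    simp only [hz, D'.x_neg]
    group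
  have radd : ∀ s t, r (s + t) = r s * r t := fun s t => by
    simp only [hr, neg_add, D.add]
    group
  have rzero : r 0 = 1 := by simp [hr, D.x_zero]
  have rneg : ∀ t, r (-t) = (r t)⁻¹ := fun t => by
    simp only [hr]
    rw [D.x_neg (-t)]
    group
  -- torus conjugation of a root family
  have torF : ∀ (f : F → P) (a b : F), (∀ t, h * f t * h⁻¹ = f (a * t)) →
      (∀ t, h' * f t * h'⁻¹ = f (b * t)) → ∀ (i j : ℕ) t,
      h ^ i * h' ^ j * f t = f (a ^ i * (b ^ j * t)) * (h ^ i * h' ^ j) := by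
    intro f a b ha hb i j t
    rw [mul_assoc, conj_scal hb, ← mul_assoc, conj_scal ha, mul_assoc]
  have torK : ∀ (f : K → P) (a b : K), (∀ t, h * f t * h⁻¹ = f (a * t)) →
      (∀ t, h' * f t * h'⁻¹ = f (b * t)) → ∀ (i j : ℕ) t,
      h ^ i * h' ^ j * f t = f (a ^ i * (b ^ j * t)) * (h ^ i * h' ^ j) := by
    intro f a b ha hb i j t
    rw [mul_assoc, conj_scal hb, ← mul_assoc, conj_scal ha, mul_assoc]
  have hz2' : ∀ t, h' * z t * h'⁻¹ = z (1 * t) := fun t => by rw [one_mul]; exact hz2 t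
  -- the stabiliser of the short root parameter
  set g2 : P := h ^ k * h' ^ 2 with hg2
  have g2x : ∀ t, g2 * x t * g2⁻¹ = x t := fun t => by
    rw [hg2, torF x _ _ D.conj_x hx1, mul_inv_cancel_right, ← pow_mul, mul_comm 2 k, pow_mul, hζk,
      inv_pow, ← mul_assoc, mul_inv_cancel₀ (pow_ne_zero 2 hιe0), one_mul]
  have g2y : ∀ t, g2 * y t * g2⁻¹ = y (e ^ 2 * t) := fun t => by
    rw [hg2, torK y _ _ hy1 hy2, mul_inv_cancel_right, inv_pow, hek, ← mul_assoc]
    congr 2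
    field_simp
  have g2z : ∀ t, g2 * z t * g2⁻¹ = z (e ^ 2 * t) := fun t => by
    rw [hg2, torK z _ _ hz1 hz2', mul_inv_cancel_right, hek, one_pow, one_mul]
  have g2r : ∀ t, g2 * r t * g2⁻¹ = r (ι (e ^ 2) * t) := fun t => by
    rw [hg2, torF r _ _ hr1 hr2, mul_inv_cancel_right, hθk, one_mul, map_pow]
  -- Weyl conjugations
  have hw'z : ∀ t, w' * z t = z t * w' := by
    have h1 : ∀ n : ℕ, w' * z (e ^ n) = z (e ^ n) * w' := by
      intro n
      induction n with
      | zero =>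
        rw [pow_zero]
        have e1 := E.rel_wz
        rw [← hz] at e1
        calc w' * z 1 = w' * z 1 * w'⁻¹ * w' := by group
          _ = _ := by rw [e1]
      | succ n ih =>
        have e1 : w' * h = h * h' * w' := by rw [← E.rel_wh']; group
        rw [pow_succ', ← hz1]
        calc w' * (h * z (e ^ n) * h⁻¹) = (w' * h) * z (e ^ n) * h⁻¹ := by group
          _ = h * h' * (w' * z (e ^ n)) * h⁻¹ := by rw [e1]; group
          _ = h * (h' * z (e ^ n) * h'⁻¹) * (h' * w' * h⁻¹) := by rw [ih]; group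
          _ = h * z (e ^ n) * h⁻¹ * ((h * h' * w') * h⁻¹) := by rw [hz2]; group
          _ = _ := by rw [← e1]; group
    intro t
    rcases eq_or_ne t 0 with rfl | ht
    · simp [zzero]
    obtain ⟨n, rfl⟩ := hpwK t ht
    exact h1 n
  have hxz : ∀ s t, Commute (x s) (z t) := by
    have h1 : ∀ t, Commute (x 1) (z t) := by
      let A : AddSubgroup K :=
        { carrier := {t | Commute (x 1) (z t)}
          add_mem' := fun {a b} ha hb => by
            simp only [Set.mem_ofPred_eq] at ha hb ⊢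
            rw [zadd]; exact ha.mul_right hb
          zero_mem' := by simp [zzero]
          neg_mem' := fun {a} ha => by
            simp only [Set.mem_ofPred_eq] at ha ⊢
            rw [zneg]; exact ha.inv_right }
      refine fun t => all_mem_of_mul_closed hη 2 (Or.inl rfl) A (fun a ha => ?_) ?_ t
      · show Commute (x 1) (z (e ^ 2 * a))
        rw [← g2z a, ← g2x 1]
        exact (Commute.conj_iff _).2 ha
      · show Commute (x 1) (z 1)
        rw [hz]; exact E.rel_xz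
    intro s
    let A : AddSubgroup F :=
      { carrier := {s | ∀ t, Commute (x s) (z t)}
        add_mem' := fun {a b} ha hb t => by rw [D.add]; exact (ha t).mul_left (hb t)
        zero_mem' := fun t => by rw [D.x_zero]; exact Commute.one_left _
        neg_mem' := fun {a} ha t => by rw [D.x_neg]; exact (ha t).inv_left }
    refine all_mem_of_mul_closed hζ 2 (Or.inl rfl) A (fun a ha t => ?_) h1 s
    rw [← D.conj_x a, show z t = h * z (e⁻¹ * t) * h⁻¹ by
      rw [hz1, ← mul_assoc, mul_inv_cancel₀ he0, one_mul]]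
    exact (Commute.conj_iff _).2 (ha _)
  have hzr : ∀ s t, Commute (z s) (r t) := fun s t => by
    have h1 := (Commute.conj_iff w').2 (hxz (-t) s)
    rw [← hr, show w' * z s * w'⁻¹ = z s by rw [hw'z]; group] at h1
    exact h1.symm
  obtain ⟨ε, hε0, hwz⟩ : ∃ ε : K, ε ≠ 0 ∧ ∀ t, w * z t = y (ε * t) * w := by
    refine ⟨(e⁻¹) ^ m, pow_ne_zero _ (inv_ne_zero he0), fun t => ?_⟩
    calc w * z t = (w * w) * y t * w⁻¹ := by rw [hz t]; group
      _ = y ((e⁻¹) ^ m * t) * (h ^ m * w⁻¹) := by rw [hm, conj_scal hy1]; group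
      _ = _ := by rw [← hm]; group
  have hwy : ∀ t, w * y t = z t * w := fun t => by rw [hz t]; group
  obtain ⟨δ, hδ0, hw'r⟩ : ∃ δ : F, δ ≠ 0 ∧ ∀ t, w' * r t = x (δ * t) * w' := by
    refine ⟨-(((ι e)⁻¹) ^ m'), neg_ne_zero.2 (pow_ne_zero _ (inv_ne_zero hιe0)), fun t => ?_⟩
    calc w' * r t = (w' * w') * x (-t) * w'⁻¹ := by rw [hr t]; group
      _ = x (((ι e)⁻¹) ^ m' * -t) * (h' ^ m' * w'⁻¹) := by rw [hm', conj_scal hx1]; group
      _ = _ := by rw [← hm', mul_neg, neg_mul]; group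
  have hw'x : ∀ t, w' * x t = r (-t) * w' := fun t => by rw [hr, neg_neg]; group
  have hwr : ∀ t, w * r t = r (-σ t) * w := by
    let A : AddSubgroup F :=
      { carrier := {t | w * r t = r (-σ t) * w}
        add_mem' := fun {a b} ha hb => by
          simp only [Set.mem_ofPred_eq] at ha hb ⊢
          rw [radd, map_add, neg_add, radd, ← mul_assoc, ha, mul_assoc, hb, mul_assoc]
        zero_mem' := by simp [rzero]
        neg_mem' := fun {a} ha => by
          simp only [Set.mem_ofPred_eq] at ha ⊢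
          rw [rneg, map_neg, neg_neg]
          calc w * (r a)⁻¹ = (r (-σ a))⁻¹ * ((r (-σ a) * w) * (r a)⁻¹) := by group
            _ = _ := by rw [← ha, ← rneg, neg_neg]; group }
    have e1 : w * h' = h ^ k * h' * w := by rw [← E.rel_wh]; group
    have hA1 : (1 : F) ∈ A := by
      show w * r 1 = r (-σ 1) * w
      rw [map_one, hr, hr, neg_neg, ← E.rel_wr]; group
    have hAe : ∀ t ∈ A, ι e * t ∈ A := fun t ht => by
      show w * r (ι e * t) = r (-σ (ι e * t)) * w
      rw [← hr2]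
      calc w * (h' * r t * h'⁻¹) = (w * h') * r t * h'⁻¹ := by group
        _ = h ^ k * h' ^ 1 * (w * r t) * h'⁻¹ := by rw [e1, pow_one]; group
        _ = (h ^ k * h' ^ 1 * r (-σ t)) * w * h'⁻¹ := by rw [show w * r t = _ from ht]; group
        _ = r (θ ^ k * ((ι e) ^ 1 * -σ t)) * (h ^ k * h' * w) * h'⁻¹ := by
          rw [torF r _ _ hr1 hr2, pow_one]; group
        _ = r (-σ (ι e * t)) * (w * h') * h'⁻¹ := by
          rw [e1, hθk, one_mul, pow_one, map_mul, hιdef, hσdef, H.σι, mul_neg]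
        _ = _ := by group
    have hAθ : ∀ t ∈ A, θ * t ∈ A := fun t ht => by
      show w * r (θ * t) = r (-σ (θ * t)) * w
      have e2 : w * h = h⁻¹ * w := by rw [← D.conj_h]; group
      have e3 : ∀ s, h⁻¹ * r s = r (θ⁻¹ * s) * h⁻¹ := fun s => by
        have := hr1 (θ⁻¹ * s)
        rw [← mul_assoc, mul_inv_cancel₀ hθ0, one_mul] at this
        rw [← this]; group
      rw [← hr1]
      calc w * (h * r t * h⁻¹) = (w * h) * r t * h⁻¹ := by group
        _ = h⁻¹ * (w * r t) * h⁻¹ := by rw [e2]; group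
        _ = (h⁻¹ * r (-σ t)) * w * h⁻¹ := by rw [show w * r t = _ from ht]; group
        _ = r (θ⁻¹ * -σ t) * (h⁻¹ * w) * h⁻¹ := by rw [e3]; group
        _ = r (θ⁻¹ * -σ t) * (w * h) * h⁻¹ := by rw [e2]
        _ = _ := by
          rw [← mul_assoc (r _) w h, mul_inv_cancel_right, mul_neg, map_mul, hθdef, map_mul, map_inv₀, hσdef, H.σσ]
          congr 3
          field_simp
    have hK : ∀ a : K, ι a ∈ A ∧ θ * ι a ∈ A := by
      have h1 : ∀ a : K, ι a ∈ A := by
        let B : AddSubgroup K := A.comap ι.toAddMonoidHom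
        intro a
        refine all_mem_of_mul_closed hη 2 (Or.inl rfl) B (fun b hb => ?_) ?_ a
        · show ι (e ^ 2 * b) ∈ A
          rw [map_mul, map_pow, pow_two, mul_assoc]
          exact hAe _ (hAe _ hb)
        · show ι 1 ∈ A
          rw [map_one]; exact hA1
      exact fun a => ⟨h1 a, hAθ _ (h1 a)⟩
    intro t
    have hne : θ - σ θ ≠ 0 := fun hh => by
      apply G.sq_ne
      rw [sub_eq_zero, hθdef, map_mul, map_inv₀, hσdef, H.σσ, ← hσdef] at hh
      field_simp at hh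
      linear_combination hh
    obtain ⟨b, hb⟩ := H.fixed ((t - σ t) * (θ - σ θ)⁻¹) (by
      rw [map_mul, map_inv₀, map_sub, map_sub, hσdef, H.σσ, H.σσ, ← neg_sub t (H.σ t),
        ← neg_sub θ (H.σ θ), inv_neg, neg_mul_neg])
    obtain ⟨a, ha⟩ := H.fixed (t - θ * ι b) (by
      have hb' : ι b * (θ - σ θ) = t - σ t := by
        rw [hιdef, hb, inv_mul_cancel_right₀ hne]
      simp only [hσdef, hιdef, map_sub, map_mul, H.σι] at hb' ⊢
      linear_combination hb')
    have := A.add_mem (hK a).1 (hK b).2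
    rwa [hιdef, ha, ← hιdef, sub_add_cancel] at this
  have hwz' : ∀ t, w⁻¹ * z t * w = y t := fun t => by rw [hz]; group
  have hyr : ∀ s t, Commute (y s) (r t) := fun s t => by
    have h1 := (Commute.conj_iff w⁻¹).2 (hzr s (-σ t))
    rw [inv_inv, hwz'] at h1
    rwa [show w⁻¹ * r (-σ t) * w = r t by rw [mul_assoc, ← hwr]; group] at h1
  have hyz : ∀ s t, Commute (y s) (z t) := by
    have h1 : ∀ s, Commute (y s) (z 1) := by
      let A : AddSubgroup K :=
        { carrier := {s | Commute (y s) (z 1)}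
          add_mem' := fun {s t} hs ht => by
            simp only [Set.mem_ofPred_eq] at hs ht ⊢
            rw [D'.add]; exact hs.mul_left ht
          zero_mem' := by simp [D'.x_zero]
          neg_mem' := fun {t} ht => by
            simp only [Set.mem_ofPred_eq] at ht ⊢
            rw [D'.x_neg]; exact ht.inv_left }
      refine fun s => all_mem_of_mul_closed hη 2 (Or.inl rfl) A (fun t ht => ?_) ?_ s
      · show Commute (y (e ^ 2 * t)) (z 1)
        rw [hedef, ← D'.conj_x t, ← hz2 1]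
        exact (Commute.conj_iff _).2 ht
      · show Commute (y 1) (z 1)
        rw [hz]; exact E.rel_yz
    intro s t
    rcases eq_or_ne t 0 with rfl | ht
    · rw [zzero]; exact Commute.one_right _
    obtain ⟨n, rfl⟩ := hpwK t ht
    have e1 := conj_scal hz1 n 1
    rw [mul_one] at e1
    have e2 := conj_scal hy1 n (e ^ n * s)
    rw [inv_pow, inv_mul_cancel_left₀ (pow_ne_zero n he0)] at e2
    rw [show y s = h ^ n * y (e ^ n * s) * (h ^ n)⁻¹ by rw [e2]; group,
      show z (e ^ n) = h ^ n * z 1 * (h ^ n)⁻¹ by rw [e1]; group]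
    exact (Commute.conj_iff _).2 (h1 _)
  have hxy : ∀ s t, x s * y t * (x s)⁻¹ = r (ι t * s) * z (t * H.nrm s) * y t := by
    have base : ∀ s0 : F, (s0 = 1 ∨ ¬ IsSquare (ζ : F) ∧ s0 = (ζ : F)) →
        x s0 * y 1 * (x s0)⁻¹ = r (ι 1 * s0) * z (1 * H.nrm s0) * y 1 := by
      rintro s0 (rfl | ⟨hns, rfl⟩)
      · rw [map_one, one_mul, H.nrm_one, one_mul, hr, hz]; exact E.rel_xy
      · rw [map_one, one_mul, one_mul, hr, hz, show H.nrm (ζ : F) = e from
          H.ι.injective (by rw [H.ι_nrm]; exact hιe.symm)]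
        exact E.rel_xy' hns
    intro s
    rcases eq_or_ne s 0 with rfl | hs
    · intro t; simp [D.x_zero, rzero, zzero, H.nrm_zero]
    obtain ⟨n, hn⟩ := hpw s hs
    obtain ⟨i, s0, hs0, hsi⟩ : ∃ (i : ℕ) (s0 : F),
        (s0 = 1 ∨ ¬ IsSquare (ζ : F) ∧ s0 = (ζ : F)) ∧ ((ζ : F) ^ 2) ^ i * s0 = s := by
      by_cases hsq : IsSquare (ζ : F)
      · obtain ⟨c, hc⟩ := hsq
        obtain ⟨l, hl⟩ := hpw c (fun h0 => hζ0 (by rw [hc, h0, mul_zero]))
        refine ⟨l * n, 1, Or.inl rfl, ?_⟩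
        rw [mul_one, pow_mul, ← pow_mul _ 2 l, mul_comm 2 l, pow_mul, hl, pow_two, ← hc, hn]
      · rcases Nat.even_or_odd' n with ⟨i, rfl | rfl⟩
        · exact ⟨i, 1, Or.inl rfl, by rw [mul_one, ← pow_mul, hn]⟩
        · exact ⟨i, _, Or.inr ⟨hsq, rfl⟩, by rw [← pow_mul, ← pow_succ, hn]⟩
    set d : K := (e⁻¹) ^ i with hd
    have hd0 : d ≠ 0 := pow_ne_zero _ (inv_ne_zero he0)
    have hιd : ι d * s = θ ^ i * s0 := by
      rw [← hsi, hd, map_pow, map_inv₀, hθdef, hιe, ← mul_assoc, ← mul_pow]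
      congr 2
      field_simp
    have hnd : d * H.nrm s = e ^ i * H.nrm s0 := by
      apply H.ι.injective
      rw [← hsi, hd]
      simp only [map_mul, map_pow, map_inv₀, H.ι_nrm]
      rw [← hιdef, hιe, ← hσdef]
      have k1 : ∀ a : F, a ≠ 0 → a ^ (i * 2) * a⁻¹ ^ i = a ^ i := fun a ha => by
        rw [pow_mul, pow_two, mul_assoc, ← mul_pow, mul_inv_cancel₀ ha, one_pow, mul_one]
      ring_nf
      linear_combination (σ (ζ : F) ^ (i * 2) * (σ (ζ : F))⁻¹ ^ i * s0 * σ s0) * k1 _ hζ0 +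
        ((ζ : F) ^ i * s0 * σ s0) * k1 _ hσζ0
    have e0 : x s * y d * (x s)⁻¹ = r (ι d * s) * z (d * H.nrm s) * y d := by
      have b := base s0 hs0
      rw [one_mul, map_one, one_mul] at b
      have ex : h ^ i * x s0 * (h ^ i)⁻¹ = x s := by rw [conj_scal D.conj_x, hsi]; group
      have ey : h ^ i * y 1 * (h ^ i)⁻¹ = y d := by rw [conj_scal hy1, mul_one, hd]; group
      have er : h ^ i * r s0 * (h ^ i)⁻¹ = r (ι d * s) := by rw [conj_scal hr1, hιd]; group
      have ez : h ^ i * z (H.nrm s0) * (h ^ i)⁻¹ = z (d * H.nrm s) := by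
        rw [conj_scal hz1, hnd]; group
      rw [← er, ← ez, ← ex, ← ey]
      calc _ = h ^ i * (x s0 * y 1 * (x s0)⁻¹) * (h ^ i)⁻¹ := by group
        _ = _ := by rw [b]; group
    let A : AddSubgroup K :=
      { carrier := {u | x s * y (u * d) * (x s)⁻¹ =
          r (ι (u * d) * s) * z (u * d * H.nrm s) * y (u * d)}
        add_mem' := fun {a b} ha hb => by
          simp only [Set.mem_ofPred_eq] at ha hb ⊢
          rw [add_mul, map_add, add_mul, add_mul, D'.add, radd, zadd]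
          generalize a * d = a' at ha ⊢
          generalize b * d = b' at hb ⊢
          calc x s * (y a' * y b') * (x s)⁻¹ =
              (x s * y a' * (x s)⁻¹) * (x s * y b' * (x s)⁻¹) := by group
            _ = r (ι a' * s) * (z (a' * H.nrm s) * (y a' * r (ι b' * s))) * z (b' * H.nrm s) *
                y b' := by rw [ha, hb]; group
            _ = r (ι a' * s) * (z (a' * H.nrm s) * r (ι b' * s)) *
                (y a' * z (b' * H.nrm s)) * y b' := by rw [(hyr a' _).eq]; group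
            _ = _ := by rw [(hzr _ _).eq, (hyz a' _).eq]; group
        zero_mem' := by simp [D'.x_zero, rzero, zzero]
        neg_mem' := fun {a} ha => by
          simp only [Set.mem_ofPred_eq] at ha ⊢
          rw [neg_mul, map_neg, neg_mul, neg_mul, D'.x_neg, rneg, zneg]
          generalize a * d = a' at ha ⊢
          calc x s * (y a')⁻¹ * (x s)⁻¹ = (x s * y a' * (x s)⁻¹)⁻¹ := by group
            _ = (y a')⁻¹ * ((z (a' * H.nrm s))⁻¹ * (r (ι a' * s))⁻¹) := by rw [ha]; group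
            _ = (y a')⁻¹ * ((r (ι a' * s))⁻¹ * (z (a' * H.nrm s))⁻¹) := by
              rw [(hzr _ _).inv_inv.eq]
            _ = (r (ι a' * s))⁻¹ * ((y a')⁻¹ * (z (a' * H.nrm s))⁻¹) := by
              rw [← mul_assoc, (hyr _ _).inv_inv.eq, mul_assoc]
            _ = _ := by rw [(hyz _ _).inv_inv.eq, mul_assoc] }
    intro t
    have hall := all_mem_of_mul_closed hη 2 (Or.inl rfl) A (fun a ha => ?_) ?_ (t / d)
    · have h2 : x s * y (t / d * d) * (x s)⁻¹ = _ := hall
      rwa [div_mul_cancel₀ _ hd0] at h2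
    · show x s * y (e ^ 2 * a * d) * (x s)⁻¹ = _
      rw [mul_assoc (e ^ 2), map_mul ι (e ^ 2), mul_assoc (ι (e ^ 2)), mul_assoc (e ^ 2) (a * d),
        ← g2y, ← g2z, ← g2r, ← g2x s]
      calc _ = g2 * (x s * y (a * d) * (x s)⁻¹) * g2⁻¹ := by group
        _ = _ := by
          rw [show x s * y (a * d) * (x s)⁻¹ = _ from ha]
          group
    · show x s * y (1 * d) * (x s)⁻¹ = _
      rw [one_mul]; exact e0
  have hxr : ∀ s b, x s * r b * (x s)⁻¹ = z (H.tr (s * σ b)) * r b := by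
    intro s b
    have e1 : x b * y 1 * (x b)⁻¹ = r b * z (H.nrm b) * y 1 := by
      simpa using hxy b 1
    have e2 : x s * y 1 * (x s)⁻¹ = r s * z (H.nrm s) * y 1 := by
      simpa using hxy s 1
    have e3 : x (s + b) * y 1 * (x (s + b))⁻¹ =
        r (s + b) * z (H.nrm (s + b)) * y 1 := by
      simpa using hxy (s + b) 1
    have e4 : x (s + b) * y 1 * (x (s + b))⁻¹ =
        (x s * r b * (x s)⁻¹) * (z (H.nrm b) * (r s * z (H.nrm s))) * y 1 := by
      calc _ = x s * (x b * y 1 * (x b)⁻¹) * (x s)⁻¹ := by rw [D.add]; group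
        _ = (x s * r b * (x s)⁻¹) * (x s * z (H.nrm b)) * (y 1 * (x s)⁻¹) := by rw [e1]; group
        _ = (x s * r b * (x s)⁻¹) * z (H.nrm b) * (x s * y 1 * (x s)⁻¹) := by
          rw [(hxz s _).eq]; group
        _ = _ := by rw [e2]; group
    rw [e3] at e4
    have e5 := mul_right_cancel e4
    rw [H.nrm_add, zadd, zadd, radd, ← hσdef] at e5
    have e6 : x s * r b * (x s)⁻¹ = r s * r b * (z (H.nrm s) * z (H.nrm b) *
        z (H.tr (s * σ b))) * ((z (H.nrm s))⁻¹ * (r s)⁻¹ * (z (H.nrm b))⁻¹) := by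
      rw [e5]; group
    rw [e6]
    have c1 : z (H.nrm s) * z (H.nrm b) * z (H.tr (s * σ b)) * (z (H.nrm s))⁻¹ =
        z (H.nrm b + H.tr (s * σ b)) := by
      rw [← zneg, ← zadd, ← zadd, ← zadd]; congr 1; ring
    calc r s * r b * (z (H.nrm s) * z (H.nrm b) * z (H.tr (s * σ b))) *
        ((z (H.nrm s))⁻¹ * (r s)⁻¹ * (z (H.nrm b))⁻¹) =
          r s * r b * (z (H.nrm s) * z (H.nrm b) * z (H.tr (s * σ b)) * (z (H.nrm s))⁻¹) *
            ((r s)⁻¹ * (z (H.nrm b))⁻¹) := by group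
      _ = r s * r b * (z (H.nrm b + H.tr (s * σ b)) * (r s)⁻¹) * (z (H.nrm b))⁻¹ := by
        rw [c1]; group
      _ = r s * r b * (r s)⁻¹ * (z (H.nrm b + H.tr (s * σ b)) * (z (H.nrm b))⁻¹) := by
        rw [(hzr _ _).inv_right.eq]; group
      _ = r b * z (H.tr (s * σ b)) := by
        rw [← rneg, ← radd, ← radd, ← zneg, ← zadd]; congr 2 <;> ring
      _ = _ := (hzr _ _).eq.symm
  have tw : ∀ i j : ℕ, ∃ i' j' : ℕ, h ^ i * h' ^ j * w = w * (h ^ i' * h' ^ j') := by
    intro i j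
    obtain ⟨n, hn⟩ := D.inv_pow_eq i
    have e1 : w⁻¹ * h ^ i * w = h ^ n := by
      have e := (conj_pow (a := w⁻¹) (b := h) (i := i)).symm
      rw [inv_inv, hwh, inv_pow, hn] at e
      exact e
    have e2 : w⁻¹ * h' ^ j * w = h ^ (k * j) * h' ^ j := by
      have e := (conj_pow (a := w⁻¹) (b := h') (i := j)).symm
      rw [inv_inv, hwh', (hH.pow_left k).mul_pow, ← pow_mul] at e
      exact e
    refine ⟨n + k * j, j, ?_⟩
    calc h ^ i * h' ^ j * w = w * ((w⁻¹ * h ^ i * w) * (w⁻¹ * h' ^ j * w)) := by group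
      _ = _ := by rw [e1, e2, pow_add]; group
  have tw' : ∀ i j : ℕ, ∃ i' j' : ℕ, h ^ i * h' ^ j * w' = w' * (h ^ i' * h' ^ j') := by
    intro i j
    obtain ⟨n, hn⟩ := D'.inv_pow_eq j
    have e1 : w'⁻¹ * h ^ i * w' = h ^ i * h' ^ i := by
      have e := (conj_pow (a := w'⁻¹) (b := h) (i := i)).symm
      rw [inv_inv, hw'h, hH.mul_pow] at e
      exact e
    have e2 : w'⁻¹ * h' ^ j * w' = h' ^ n := by
      have e := (conj_pow (a := w'⁻¹) (b := h') (i := j)).symm
      rw [inv_inv, hwh2, inv_pow, hn] at e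
      exact e
    refine ⟨i, i + n, ?_⟩
    calc h ^ i * h' ^ j * w' = w' * ((w'⁻¹ * h ^ i * w') * (w'⁻¹ * h' ^ j * w')) := by group
      _ = _ := by rw [e1, e2, pow_add]; group
  have passy : ∀ t, y t * w = w * z (ε⁻¹ * t) := fun t => by
    rw [hwz, ← mul_assoc, mul_inv_cancel₀ hε0, one_mul]
  have passr : ∀ t, r t * w = w * r (-σ t) := fun t => by
    rw [hwr, map_neg, neg_neg, hσdef, H.σσ]
  have passr' : ∀ t, r t * w' = w' * x (-t) := fun t => by rw [hw'x, neg_neg]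
  have passx' : ∀ t, x t * w' = w' * r (δ⁻¹ * t) := fun t => by
    rw [hw'r, ← mul_assoc, mul_inv_cancel₀ hδ0, one_mul]
  -- the subgroup generated by `x 1, h, w`
  set S : Subgroup P := Subgroup.closure ({x 1, h, w} : Set P) with hS
  have hxS1 : x 1 ∈ S := Subgroup.subset_closure (by simp)
  have hhS : h ∈ S := Subgroup.subset_closure (by simp)
  have hwS : w ∈ S := Subgroup.subset_closure (by simp)
  have hxS : ∀ t, x t ∈ S := by
    let A : AddSubgroup F :=
      { carrier := {t | x t ∈ S}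
        add_mem' := fun {s t} hs ht => by
          simp only [Set.mem_ofPred_eq] at hs ht ⊢
          rw [D.add]; exact S.mul_mem hs ht
        zero_mem' := by simp [D.x_zero, S.one_mem]
        neg_mem' := fun {t} ht => by
          simp only [Set.mem_ofPred_eq] at ht ⊢
          rw [D.x_neg]; exact S.inv_mem ht }
    refine fun t => all_mem_of_mul_closed hζ 2 (Or.inl rfl) A (fun s hs => ?_) hxS1 t
    show x ((ζ : F) ^ 2 * s) ∈ S
    rw [← D.conj_x]
    exact S.mul_mem (S.mul_mem hhS hs) (S.inv_mem hhS)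
  obtain ⟨hSfin, hScard⟩ : Finite S ∧
      Nat.card S ≤ Nat.card (Matrix.SpecialLinearGroup (Fin 2) F) := by
    have DS : SLData ζ (fun t => (⟨x t, hxS t⟩ : S)) ⟨h, hhS⟩ ⟨w, hwS⟩ :=
      { add := fun s t => Subtype.ext (D.add s t)
        conj_x := fun t => Subtype.ext (D.conj_x t)
        conj_h := Subtype.ext D.conj_h
        rel_one := Subtype.ext D.rel_one
        rel_zeta := Subtype.ext D.rel_zeta }
    refine DS.finite_and_card_le hζ (eq_top_iff.2 fun g _ => ?_)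
    obtain ⟨g, hg⟩ := g
    refine Subgroup.closure_induction (p := fun a ha => (⟨a, ha⟩ : S) ∈ Subgroup.closure _)
      (fun a ha => ?_) (Subgroup.one_mem _) (fun a b _ _ ha hb => Subgroup.mul_mem _ ha hb)
      (fun a _ ha => Subgroup.inv_mem _ ha) hg
    simp only [Set.mem_insert_iff, Set.mem_singleton_iff] at ha
    rcases ha with rfl | rfl | rfl <;> exact Subgroup.subset_closure (by simp)
  have hS' : ∀ s ∈ S, h' * s * h'⁻¹ ∈ S := by
    intro s hs
    refine Subgroup.closure_induction (p := fun a _ => h' * a * h'⁻¹ ∈ S) (fun a ha => ?_)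
      (by simp [S.one_mem])
      (fun a b _ _ ha hb => by
        rw [show h' * (a * b) * h'⁻¹ = (h' * a * h'⁻¹) * (h' * b * h'⁻¹) by group]
        exact S.mul_mem ha hb)
      (fun a _ ha => by
        rw [show h' * a⁻¹ * h'⁻¹ = (h' * a * h'⁻¹)⁻¹ by group]
        exact S.inv_mem ha) hs
    simp only [Set.mem_insert_iff, Set.mem_singleton_iff] at ha
    rcases ha with rfl | rfl | rfl
    · rw [hx1]; exact hxS _
    · rw [← hH.eq, mul_inv_cancel_right]; exact hhS
    · have : h' * a * h'⁻¹ = a * h ^ k := by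
        calc h' * a * h'⁻¹ = a * (a⁻¹ * h' * a) * h'⁻¹ := by group
          _ = a * h ^ k := by rw [hwh']; group
      rw [this]
      exact S.mul_mem hwS (S.pow_mem hhS k)
  -- the parabolic and the cells
  set N := Fintype.card K - 1 with hN
  have hN0 : 0 < N := by have := Fintype.one_lt_card (α := K); omega
  set P0 : Set P := {g | ∃ a b c, ∃ s ∈ S, ∃ n : ℕ, g = y a * r b * z c * s * h' ^ n} with hP0
  set C1 : Set P := {g | ∃ t, ∃ p ∈ P0, g = y t * w' * p} with hC1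
  set C2 : Set P := {g | ∃ s t, ∃ p ∈ P0, g = x s * z t * w * w' * p} with hC2
  set C3 : Set P := {g | ∃ a b c, ∃ p ∈ P0, g = y a * r b * z c * w' * w * w' * p} with hC3
  -- left multiplication of a triple
  have tz : ∀ v a b c, z v * (y a * r b * z c) = y a * r b * z (v + c) := fun v a b c => by
    calc z v * (y a * r b * z c) = (z v * y a) * r b * z c := by group
      _ = y a * (z v * r b) * z c := by rw [← (hyz a v).eq]; group
      _ = y a * r b * (z v * z c) := by rw [(hzr v b).eq]; group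
      _ = _ := by rw [← zadd]
  have tr : ∀ v a b c, r v * (y a * r b * z c) = y a * r (v + b) * z c := fun v a b c => by
    calc r v * (y a * r b * z c) = (r v * y a) * r b * z c := by group
      _ = y a * (r v * r b) * z c := by rw [← (hyr a v).eq]; group
      _ = _ := by rw [← radd]
  have ty : ∀ v a b c, y v * (y a * r b * z c) = y (v + a) * r b * z c := fun v a b c => by
    rw [D'.add]; group
  have tx : ∀ u a b c, x u * (y a * r b * z c) =
      y a * r (b + ι a * u) * z (c + (H.tr (u * σ b) + a * H.nrm u)) * x u := fun u a b c => by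
    calc x u * (y a * r b * z c) =
        (x u * y a * (x u)⁻¹) * (x u * r b * (x u)⁻¹) * (x u * z c) := by group
      _ = (r (ι a * u) * z (a * H.nrm u) * y a) * (z (H.tr (u * σ b)) * r b) * (z c * x u) := by
        rw [hxy, hxr, (hxz u c).eq]
      _ = (r (ι a * u) * (z (a * H.nrm u) * (y a * r b * (z (H.tr (u * σ b)) * z c)))) * x u := by
        rw [(hzr (H.tr (u * σ b)) b).eq]; group
      _ = _ := by
        rw [← zadd, tz, tr, add_comm (ι a * u) b]
        congr 3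
        ring
  have Px : ∀ u, ∀ g ∈ P0, x u * g ∈ P0 := by
    rintro u _ ⟨a, b, c, s, hs, n, rfl⟩
    refine ⟨a, b + ι a * u, c + (H.tr (u * σ b) + a * H.nrm u), x u * s,
      S.mul_mem (hxS u) hs, n, ?_⟩
    rw [← mul_assoc (x u), ← mul_assoc (x u), tx]
    group
  have Py : ∀ v, ∀ g ∈ P0, y v * g ∈ P0 := by
    rintro v _ ⟨a, b, c, s, hs, n, rfl⟩
    exact ⟨_, _, _, s, hs, n, by rw [← mul_assoc (y v), ← mul_assoc (y v), ty]⟩
  have Pr : ∀ v, ∀ g ∈ P0, r v * g ∈ P0 := by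
    rintro v _ ⟨a, b, c, s, hs, n, rfl⟩
    exact ⟨_, _, _, s, hs, n, by rw [← mul_assoc (r v), ← mul_assoc (r v), tr]⟩
  have Pz : ∀ v, ∀ g ∈ P0, z v * g ∈ P0 := by
    rintro v _ ⟨a, b, c, s, hs, n, rfl⟩
    exact ⟨_, _, _, s, hs, n, by rw [← mul_assoc (z v), ← mul_assoc (z v), tz]⟩
  have Pw : ∀ g ∈ P0, w * g ∈ P0 := by
    rintro _ ⟨a, b, c, s, hs, n, rfl⟩
    refine ⟨ε * c, -σ b, a, w * s, S.mul_mem hwS hs, n, ?_⟩
    calc w * (y a * r b * z c * s * h' ^ n) = (w * y a) * r b * z c * s * h' ^ n := by group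
      _ = z a * (w * r b) * z c * s * h' ^ n := by rw [hwy]; group
      _ = z a * r (-σ b) * (w * z c) * s * h' ^ n := by rw [hwr]; group
      _ = (z a * r (-σ b)) * y (ε * c) * w * s * h' ^ n := by rw [hwz]; group
      _ = r (-σ b) * (z a * y (ε * c)) * w * s * h' ^ n := by rw [(hzr _ _).eq]; group
      _ = (r (-σ b) * y (ε * c)) * z a * w * s * h' ^ n := by rw [← (hyz _ _).eq]; group
      _ = _ := by rw [← (hyr _ _).eq]; group
  have Ph'1 : ∀ j : ℕ, ∀ s ∈ S, h' ^ j * s * (h' ^ j)⁻¹ ∈ S := by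
    intro j
    induction j with
    | zero => intro s hs; simpa using hs
    | succ j ih =>
      intro s hs
      have := ih _ (hS' s hs)
      convert this using 1
      rw [pow_succ]; group
  have PT : ∀ i j : ℕ, ∀ g ∈ P0, h ^ i * h' ^ j * g ∈ P0 := by
    rintro i j _ ⟨a, b, c, s, hs, n, rfl⟩
    refine ⟨((e⁻¹) ^ i * ((e ^ 2) ^ j * a)), (θ ^ i * ((ι e) ^ j * b)),
      (e ^ i * ((1 : K) ^ j * c)), h ^ i * (h' ^ j * s * (h' ^ j)⁻¹),
      S.mul_mem (S.pow_mem hhS i) (Ph'1 j s hs), j + n, ?_⟩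
    calc h ^ i * h' ^ j * (y a * r b * z c * s * h' ^ n) =
        (h ^ i * h' ^ j * y a) * r b * z c * s * h' ^ n := by group
      _ = y ((e⁻¹) ^ i * ((e ^ 2) ^ j * a)) *
          (h ^ i * h' ^ j * r b) * z c * s * h' ^ n := by
        rw [torK y _ _ hy1 hy2]; group
      _ = y ((e⁻¹) ^ i * ((e ^ 2) ^ j * a)) *
          r (θ ^ i * ((ι e) ^ j * b)) * (h ^ i * h' ^ j * z c) * s * h' ^ n := by
        rw [torF r _ _ hr1 hr2]; group
      _ = y ((e⁻¹) ^ i * ((e ^ 2) ^ j * a)) *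
          r (θ ^ i * ((ι e) ^ j * b)) * z (e ^ i * ((1 : K) ^ j * c)) *
          (h ^ i * h' ^ j) * s * h' ^ n := by
        rw [torK z _ _ hz1 hz2']; group
      _ = _ := by rw [pow_add]; group
  have P1 : (1 : P) ∈ P0 := ⟨0, 0, 0, 1, S.one_mem, 0, by simp [D'.x_zero, rzero, zzero]⟩
  -- first cell
  have X1 : ∀ u, ∀ g ∈ C1, x u * g ∈ C1 := by
    rintro u _ ⟨t, p, hp, rfl⟩
    refine ⟨t, x (-(ι t * u)) * (z (t * H.nrm u) * (r (δ⁻¹ * u) * p)),
      Px _ _ (Pz _ _ (Pr _ p hp)), ?_⟩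
    have e := tx u t 0 0
    simp only [rzero, zzero, mul_one, map_zero, mul_zero, H.tr_zero, zero_add] at e
    calc x u * (y t * w' * p) = (x u * y t) * w' * p := by group
      _ = y t * r (ι t * u) * z (t * H.nrm u) * (x u * w') * p := by rw [e]; group
      _ = y t * r (ι t * u) * (z (t * H.nrm u) * w') * r (δ⁻¹ * u) * p := by rw [passx']; group
      _ = y t * (r (ι t * u) * w') * z (t * H.nrm u) * r (δ⁻¹ * u) * p := by rw [← hw'z]; group
      _ = _ := by rw [passr']; group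
  have Y1 : ∀ v, ∀ g ∈ C1, y v * g ∈ C1 := by
    rintro v _ ⟨t, p, hp, rfl⟩
    exact ⟨v + t, p, hp, by rw [D'.add]; group⟩
  have T1 : ∀ i j : ℕ, ∀ g ∈ C1, h ^ i * h' ^ j * g ∈ C1 := by
    rintro i j _ ⟨t, p, hp, rfl⟩
    obtain ⟨i', j', e1⟩ := tw' i j
    refine ⟨(e⁻¹) ^ i * ((e ^ 2) ^ j * t), h ^ i' * h' ^ j' * p, PT i' j' p hp, ?_⟩
    calc h ^ i * h' ^ j * (y t * w' * p) = (h ^ i * h' ^ j * y t) * w' * p := by group
      _ = y ((e⁻¹) ^ i * ((e ^ 2) ^ j * t)) * (h ^ i * h' ^ j * w') * p := by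
        rw [torK y _ _ hy1 hy2]; group
      _ = _ := by rw [e1]; group
  have W1 : ∀ g ∈ C1, w * g ∈ C2 := by
    rintro _ ⟨t, p, hp, rfl⟩
    exact ⟨0, t, p, hp, by rw [D.x_zero, one_mul, ← mul_assoc, ← mul_assoc, hwy]⟩
  -- second cell
  have X2 : ∀ u, ∀ g ∈ C2, x u * g ∈ C2 := by
    rintro u _ ⟨s, t, p, hp, rfl⟩
    exact ⟨u + s, t, p, hp, by rw [D.add]; group⟩
  have Z2 : ∀ v, ∀ g ∈ C2, z v * g ∈ C2 := by
    rintro v _ ⟨s, t, p, hp, rfl⟩
    refine ⟨s, v + t, p, hp, ?_⟩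
    calc z v * (x s * z t * w * w' * p) = (z v * x s) * z t * w * w' * p := by group
      _ = x s * (z v * z t) * w * w' * p := by rw [← (hxz s v).eq]; group
      _ = _ := by rw [← zadd]
  have R2 : ∀ v, ∀ g ∈ C2, r v * g ∈ C2 := by
    rintro v _ ⟨s, t, p, hp, rfl⟩
    have e1 := hxr (-s) v
    refine ⟨s, H.tr (-s * σ v) + t, x (σ v) * p, Px _ p hp, ?_⟩
    calc r v * (x s * z t * w * w' * p) =
        x s * ((x s)⁻¹ * r v * ((x s)⁻¹)⁻¹) * z t * w * w' * p := by group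
      _ = x s * z (H.tr (-s * σ v)) * (r v * z t) * w * w' * p := by rw [← D.x_neg, e1]; group
      _ = x s * (z (H.tr (-s * σ v)) * z t) * (r v * w) * w' * p := by
        rw [← (hzr t v).eq]; group
      _ = x s * z (H.tr (-s * σ v) + t) * w * (r (-σ v) * w') * p := by rw [← zadd, passr]; group
      _ = _ := by rw [passr', neg_neg]; group
  have Y2 : ∀ v, ∀ g ∈ C2, y v * g ∈ C2 := by
    rintro v _ ⟨s, t, p, hp, rfl⟩
    have e1 := hxy (-s) v
    refine ⟨s, v * H.nrm (-s) + t, x (σ (ι v * -s)) * (z (ε⁻¹ * v) * p),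
      Px _ _ (Pz _ p hp), ?_⟩
    calc y v * (x s * z t * w * w' * p) =
        x s * ((x s)⁻¹ * y v * ((x s)⁻¹)⁻¹) * z t * w * w' * p := by group
      _ = x s * r (ι v * -s) * z (v * H.nrm (-s)) * (y v * z t) * w * w' * p := by
        rw [← D.x_neg, e1]; group
      _ = x s * r (ι v * -s) * (z (v * H.nrm (-s)) * z t) * (y v * w) * w' * p := by
        rw [(hyz v t).eq]; group
      _ = x s * (r (ι v * -s) * z (v * H.nrm (-s) + t)) * w * (z (ε⁻¹ * v) * w') * p := by
        rw [← zadd, passy]; group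
      _ = x s * z (v * H.nrm (-s) + t) * (r (ι v * -s) * w) * w' * z (ε⁻¹ * v) * p := by
        rw [← (hzr _ _).eq, ← hw'z]; group
      _ = x s * z (v * H.nrm (-s) + t) * w * (r (-σ (ι v * -s)) * w') * z (ε⁻¹ * v) * p := by
        rw [passr]; group
      _ = _ := by rw [passr', neg_neg]; group
  have T2 : ∀ i j : ℕ, ∀ g ∈ C2, h ^ i * h' ^ j * g ∈ C2 := by
    rintro i j _ ⟨s, t, p, hp, rfl⟩
    obtain ⟨i', j', e1⟩ := tw i j
    obtain ⟨i'', j'', e2⟩ := tw' i' j'
    refine ⟨((ζ : F) ^ 2) ^ i * (((ι e)⁻¹) ^ j * s), e ^ i * ((1 : K) ^ j * t),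
      h ^ i'' * h' ^ j'' * p, PT i'' j'' p hp, ?_⟩
    calc h ^ i * h' ^ j * (x s * z t * w * w' * p) =
        (h ^ i * h' ^ j * x s) * z t * w * w' * p := by group
      _ = x (((ζ : F) ^ 2) ^ i * (((ι e)⁻¹) ^ j * s)) * (h ^ i * h' ^ j * z t) * w * w' * p := by
        rw [torF x _ _ D.conj_x hx1]; group
      _ = x (((ζ : F) ^ 2) ^ i * (((ι e)⁻¹) ^ j * s)) *
          z (e ^ i * ((1 : K) ^ j * t)) * (h ^ i * h' ^ j * w) * w' * p := by
        rw [torK z _ _ hz1 hz2']; group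
      _ = x (((ζ : F) ^ 2) ^ i * (((ι e)⁻¹) ^ j * s)) *
          z (e ^ i * ((1 : K) ^ j * t)) * w * (h ^ i' * h' ^ j' * w') * p := by
        rw [e1]; group
      _ = _ := by rw [e2]; group
  have W2' : ∀ g ∈ C2, w' * g ∈ C3 := by
    rintro _ ⟨s, t, p, hp, rfl⟩
    refine ⟨0, -s, t, p, hp, ?_⟩
    calc w' * (x s * z t * w * w' * p) = (w' * x s) * z t * w * w' * p := by group
      _ = r (-s) * (w' * z t) * w * w' * p := by rw [hw'x]; group
      _ = _ := by rw [hw'z, D'.x_zero]; group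
  -- third cell
  have Y3 : ∀ v, ∀ g ∈ C3, y v * g ∈ C3 := by
    rintro v _ ⟨a, b, c, p, hp, rfl⟩
    exact ⟨v + a, b, c, p, hp, by rw [D'.add]; group⟩
  have X3 : ∀ u, ∀ g ∈ C3, x u * g ∈ C3 := by
    rintro u _ ⟨a, b, c, p, hp, rfl⟩
    refine ⟨a, b + ι a * u, c + (H.tr (u * σ b) + a * H.nrm u), x (σ (δ⁻¹ * u)) * p,
      Px _ p hp, ?_⟩
    calc x u * (y a * r b * z c * w' * w * w' * p) =
        (x u * (y a * r b * z c)) * w' * w * w' * p := by group
      _ = y a * r (b + ι a * u) * z (c + (H.tr (u * σ b) + a * H.nrm u)) *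
          (x u * w') * w * w' * p := by rw [tx]; group
      _ = y a * r (b + ι a * u) * z (c + (H.tr (u * σ b) + a * H.nrm u)) * w' *
          (r (δ⁻¹ * u) * w) * w' * p := by rw [passx']; group
      _ = y a * r (b + ι a * u) * z (c + (H.tr (u * σ b) + a * H.nrm u)) * w' * w *
          (r (-σ (δ⁻¹ * u)) * w') * p := by rw [passr]; group
      _ = _ := by rw [passr', neg_neg]; group
  have T3 : ∀ i j : ℕ, ∀ g ∈ C3, h ^ i * h' ^ j * g ∈ C3 := by
    rintro i j _ ⟨a, b, c, p, hp, rfl⟩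
    obtain ⟨i1, j1, e1⟩ := tw' i j
    obtain ⟨i2, j2, e2⟩ := tw i1 j1
    obtain ⟨i3, j3, e3⟩ := tw' i2 j2
    refine ⟨((e⁻¹) ^ i * ((e ^ 2) ^ j * a)), (θ ^ i * ((ι e) ^ j * b)),
      (e ^ i * ((1 : K) ^ j * c)), h ^ i3 * h' ^ j3 * p, PT i3 j3 p hp, ?_⟩
    calc h ^ i * h' ^ j * (y a * r b * z c * w' * w * w' * p) =
        (h ^ i * h' ^ j * y a) * r b * z c * w' * w * w' * p := by group
      _ = y ((e⁻¹) ^ i * ((e ^ 2) ^ j * a)) *
          (h ^ i * h' ^ j * r b) * z c * w' * w * w' * p := by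
        rw [torK y _ _ hy1 hy2]; group
      _ = y ((e⁻¹) ^ i * ((e ^ 2) ^ j * a)) *
          r (θ ^ i * ((ι e) ^ j * b)) * (h ^ i * h' ^ j * z c) * w' * w * w' * p := by
        rw [torF r _ _ hr1 hr2]; group
      _ = y ((e⁻¹) ^ i * ((e ^ 2) ^ j * a)) *
          r (θ ^ i * ((ι e) ^ j * b)) * z (e ^ i * ((1 : K) ^ j * c)) *
          (h ^ i * h' ^ j * w') * w * w' * p := by
        rw [torK z _ _ hz1 hz2']; group
      _ = y ((e⁻¹) ^ i * ((e ^ 2) ^ j * a)) *
          r (θ ^ i * ((ι e) ^ j * b)) * z (e ^ i * ((1 : K) ^ j * c)) * w' *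
          (h ^ i1 * h' ^ j1 * w) * w' * p := by rw [e1]; group
      _ = y ((e⁻¹) ^ i * ((e ^ 2) ^ j * a)) *
          r (θ ^ i * ((ι e) ^ j * b)) * z (e ^ i * ((1 : K) ^ j * c)) * w' *
          w * (h ^ i2 * h' ^ j2 * w') * p := by rw [e2]; group
      _ = _ := by rw [e3]; group
  set M : Set P := {g | g ∈ P0 ∨ g ∈ C1 ∨ g ∈ C2 ∨ g ∈ C3} with hM
  have M0 : ∀ g ∈ P0, g ∈ M := fun g hg => Or.inl hg
  have M1 : ∀ g ∈ C1, g ∈ M := fun g hg => Or.inr (Or.inl hg)
  have M2 : ∀ g ∈ C2, g ∈ M := fun g hg => Or.inr (Or.inr (Or.inl hg))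
  have M3 : ∀ g ∈ C3, g ∈ M := fun g hg => Or.inr (Or.inr (Or.inr hg))
  have LT : ∀ i j : ℕ, ∀ g ∈ M, h ^ i * h' ^ j * g ∈ M := by
    rintro i j g (hg | hg | hg | hg)
    · exact M0 _ (PT i j g hg)
    · exact M1 _ (T1 i j g hg)
    · exact M2 _ (T2 i j g hg)
    · exact M3 _ (T3 i j g hg)
  have Lx : ∀ u, ∀ g ∈ M, x u * g ∈ M := by
    rintro u g (hg | hg | hg | hg)
    · exact M0 _ (Px u g hg)
    · exact M1 _ (X1 u g hg)
    · exact M2 _ (X2 u g hg)
    · exact M3 _ (X3 u g hg)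
  have Ly : ∀ v, ∀ g ∈ M, y v * g ∈ M := by
    rintro v g (hg | hg | hg | hg)
    · exact M0 _ (Py v g hg)
    · exact M1 _ (Y1 v g hg)
    · exact M2 _ (Y2 v g hg)
    · exact M3 _ (Y3 v g hg)
  have hbr : w * w' * w * w' = w' * w * w' * w := E.rel_braid.symm
  have Lw : ∀ g ∈ M, w * g ∈ M := by
    rintro g (hg | hg | hg | hg)
    · exact M0 _ (Pw g hg)
    · exact M2 _ (W1 g hg)
    · obtain ⟨s, t, p, hp, rfl⟩ := hg
      have hC : ∀ v, y v * (h ^ m * h' ^ 0 * (y 0 * w' * p)) ∈ C1 := fun v =>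
        Y1 v _ (T1 m 0 _ ⟨0, p, hp, rfl⟩)
      by_cases hs : s = 0
      · subst hs
        have e1 : w * (x 0 * z t * w * w' * p) = y (ε * t) * (h ^ m * h' ^ 0 * (y 0 * w' * p)) := by
          rw [D.x_zero, D'.x_zero, one_mul, one_mul, pow_zero, mul_one]
          calc w * (z t * w * w' * p) = (w * z t) * w * w' * p := by group
            _ = y (ε * t) * (w * w) * w' * p := by rw [hwz]; group
            _ = _ := by rw [hm]; group
        rw [e1]
        exact M1 _ (hC _)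
      · obtain ⟨l, hl⟩ := D.weyl_mem hζ (inv_ne_zero hs)
        have h1 : w * x s = x (-s⁻¹) * (h ^ l * w) * x (-s⁻¹) * w := by
          rw [← hl, D.x_neg, weylWord, inv_inv]
          group
        have e1 : w * (x s * z t * w * w' * p) = x (-s⁻¹) * (h ^ l * h' ^ 0 *
            (w * (x (-s⁻¹) * (y (ε * t) * (h ^ m * h' ^ 0 * (y 0 * w' * p)))))) := by
          rw [D'.x_zero, one_mul, pow_zero, mul_one, mul_one]
          calc w * (x s * z t * w * w' * p) = (w * x s) * z t * w * w' * p := by group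
            _ = x (-s⁻¹) * h ^ l * w * x (-s⁻¹) * (w * z t) * w * w' * p := by rw [h1]; group
            _ = x (-s⁻¹) * h ^ l * w * x (-s⁻¹) * y (ε * t) * (w * w) * w' * p := by
              rw [hwz]; group
            _ = _ := by rw [hm]; group
        rw [e1]
        exact M2 _ (X2 _ _ (T2 l 0 _ (W1 _ (X1 _ _ (hC _)))))
    · obtain ⟨a, b, c, p, hp, rfl⟩ := hg
      refine M3 _ ⟨ε * c, -σ b, a, w * p, Pw p hp, ?_⟩
      calc w * (y a * r b * z c * w' * w * w' * p) = (w * y a) * r b * z c * w' * w * w' * p := by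
            group
        _ = z a * (w * r b) * z c * w' * w * w' * p := by rw [hwy]; group
        _ = z a * r (-σ b) * (w * z c) * w' * w * w' * p := by rw [hwr]; group
        _ = (z a * r (-σ b)) * y (ε * c) * (w * w' * w * w') * p := by rw [hwz]; group
        _ = r (-σ b) * (z a * y (ε * c)) * (w' * w * w' * w) * p := by
          rw [(hzr _ _).eq, hbr]; group
        _ = (r (-σ b) * y (ε * c)) * z a * (w' * w * w' * w) * p := by
          rw [← (hyz _ _).eq]; group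
        _ = _ := by rw [← (hyr _ _).eq]; group
  have Lw' : ∀ g ∈ M, w' * g ∈ M := by
    rintro g (hg | hg | hg | hg)
    · exact M1 _ ⟨0, g, hg, by rw [D'.x_zero, one_mul]⟩
    · obtain ⟨t, p, hp, rfl⟩ := hg
      by_cases ht : t = 0
      · subst ht
        have e1 : w' * (y 0 * w' * p) = h ^ 0 * h' ^ m' * p := by
          rw [D'.x_zero, one_mul, ← mul_assoc, hm', pow_zero, one_mul]
        rw [e1]
        exact M0 _ (PT 0 m' p hp)
      · obtain ⟨l, hl⟩ := D'.weyl_mem hη (inv_ne_zero ht)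
        have h1 : w' * y t = y (-t⁻¹) * (h' ^ l * w') * y (-t⁻¹) * w' := by
          rw [← hl, D'.x_neg, weylWord, inv_inv]
          group
        have e1 : w' * (y t * w' * p) = y (-t⁻¹) * (h ^ 0 * h' ^ l *
            (y 0 * w' * (y (-t⁻¹) * (h ^ 0 * h' ^ m' * p)))) := by
          rw [D'.x_zero, one_mul, pow_zero, one_mul, one_mul]
          calc w' * (y t * w' * p) = (w' * y t) * w' * p := by group
            _ = y (-t⁻¹) * h' ^ l * w' * y (-t⁻¹) * (w' * w') * p := by rw [h1]; group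
            _ = _ := by rw [hm']; group
        rw [e1]
        exact M1 _ (Y1 _ _ (T1 0 l _ ⟨0, _, Py _ _ (PT 0 m' p hp), rfl⟩))
    · exact M3 _ (W2' g hg)
    · obtain ⟨a, b, c, p, hp, rfl⟩ := hg
      have hC : x (δ * b) * (z c * (h ^ 0 * h' ^ m' * (x 0 * z 0 * w * w' * p))) ∈ C2 :=
        X2 _ _ (Z2 _ _ (T2 0 m' _ ⟨0, 0, p, hp, rfl⟩))
      have e0 : w' * (r b * z c * w' * w * w' * p) =
          x (δ * b) * (z c * (h ^ 0 * h' ^ m' * (x 0 * z 0 * w * w' * p))) := by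
        rw [D.x_zero, zzero, one_mul, one_mul, pow_zero, one_mul]
        calc w' * (r b * z c * w' * w * w' * p) = (w' * r b) * z c * w' * w * w' * p := by group
          _ = x (δ * b) * (w' * z c) * w' * w * w' * p := by rw [hw'r]; group
          _ = x (δ * b) * z c * (w' * w') * w * w' * p := by rw [hw'z]; group
          _ = _ := by rw [hm']; group
      by_cases ha : a = 0
      · subst ha
        rw [D'.x_zero, one_mul, e0]
        exact M2 _ hC
      · obtain ⟨l, hl⟩ := D'.weyl_mem hη (inv_ne_zero ha)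
        have h1 : w' * y a = y (-a⁻¹) * (h' ^ l * w') * y (-a⁻¹) * w' := by
          rw [← hl, D'.x_neg, weylWord, inv_inv]
          group
        have e1 : w' * (y a * r b * z c * w' * w * w' * p) = y (-a⁻¹) * (h ^ 0 * h' ^ l *
            (w' * (y (-a⁻¹) * (w' * (r b * z c * w' * w * w' * p))))) := by
          rw [pow_zero, one_mul]
          calc w' * (y a * r b * z c * w' * w * w' * p) =
              (w' * y a) * r b * z c * w' * w * w' * p := by group
            _ = _ := by rw [h1]; group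
        rw [e1, e0]
        exact M3 _ (Y3 _ _ (T3 0 l _ (W2' _ (Y2 _ _ hC))))
  obtain ⟨mi, hmi⟩ := D.inv_pow_eq m
  obtain ⟨mi', hmi'⟩ := D'.inv_pow_eq m'
  have hall : ∀ g : P, g ∈ M := by
    intro g
    have hg : g ∈ Subgroup.closure ({x 1, h, w, y 1, h', w'} : Set P) := hgen ▸ Subgroup.mem_top g
    induction hg using Subgroup.closure_induction_left with
    | one => exact M0 1 P1
    | mul_left a ha b _ ih =>
      simp only [Set.mem_insert_iff, Set.mem_singleton_iff] at ha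
      rcases ha with ha | ha | ha | ha | ha | ha <;> rw [ha]
      · exact Lx 1 _ ih
      · simpa using LT 1 0 _ ih
      · exact Lw _ ih
      · exact Ly 1 _ ih
      · simpa using LT 0 1 _ ih
      · exact Lw' _ ih
    | inv_mul_cancel a ha b _ ih =>
      simp only [Set.mem_insert_iff, Set.mem_singleton_iff] at ha
      rcases ha with ha | ha | ha | ha | ha | ha <;> rw [ha]
      · rw [← D.x_neg]; exact Lx (-1) _ ih
      · obtain ⟨j, hj⟩ := D.inv_pow_eq 1
        rw [pow_one] at hj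
        rw [hj]; simpa using LT j 0 _ ih
      · rw [show w⁻¹ * b = (h ^ m)⁻¹ * (w * b) by rw [← hm]; group, hmi]
        simpa using LT mi 0 _ (Lw _ ih)
      · rw [← D'.x_neg]; exact Ly (-1) _ ih
      · obtain ⟨j, hj⟩ := D'.inv_pow_eq 1
        rw [pow_one] at hj
        rw [hj]; simpa using LT 0 j _ ih
      · rw [show w'⁻¹ * b = (h' ^ m')⁻¹ * (w' * b) by rw [← hm']; group, hmi']
        simpa using LT 0 mi' _ (Lw' _ ih)
  -- counting
  let Φp : (K × F × K) × S × Fin N → P :=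
    fun a => y a.1.1 * r a.1.2.1 * z a.1.2.2 * (a.2.1 : P) * h' ^ (a.2.2 : ℕ)
  have hΦp : ∀ p ∈ P0, ∃ a, Φp a = p := by
    rintro _ ⟨a, b, c, s, hs, n, rfl⟩
    exact ⟨((a, b, c), ⟨s, hs⟩, ⟨n % N, Nat.mod_lt _ hN0⟩), by
      simp only [Φp, hN]; rw [← pow_eq_pow_mod n D'.pow_card]⟩
  let Φ : (Unit ⊕ K ⊕ (F × K) ⊕ (K × F × K)) × ((K × F × K) × S × Fin N) → P := fun a =>
    Sum.elim (fun _ => (1 : P)) (Sum.elim (fun t => y t * w')
      (Sum.elim (fun st => x st.1 * z st.2 * w * w')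
        (fun v => y v.1 * r v.2.1 * z v.2.2 * w' * w * w'))) a.1 * Φp a.2
  have hΦ : Function.Surjective Φ := by
    intro g
    rcases hall g with hg | ⟨t, p, hp, rfl⟩ | ⟨s, t, p, hp, rfl⟩ | ⟨a, b, c, p, hp, rfl⟩
    · obtain ⟨a, ha⟩ := hΦp g hg
      exact ⟨(Sum.inl (), a), by simp [Φ, ha]⟩
    · obtain ⟨a, ha⟩ := hΦp p hp
      exact ⟨(Sum.inr (Sum.inl t), a), by simp [Φ, ha]⟩
    · obtain ⟨a, ha⟩ := hΦp p hp
      exact ⟨(Sum.inr (Sum.inr (Sum.inl (s, t))), a), by simp [Φ, ha]⟩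
    · obtain ⟨v, hv⟩ := hΦp p hp
      exact ⟨(Sum.inr (Sum.inr (Sum.inr (a, b, c))), v), by simp [Φ, hv]⟩
  refine ⟨Finite.of_surjective Φ hΦ, (Nat.card_le_card_of_surjective Φ hΦ).trans ?_⟩
  simp only [Nat.card_prod, Nat.card_sum, Nat.card_fin, Nat.card_unique (α := Unit), hN,
    ← Nat.card_eq_fintype_card (α := K)]
  gcongr

end SU4Data

end CfsgLib.SUPres
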