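import Mathlib
import Cfsg.Agent.SUPres77.Glue
import Cfsg.Agent.SLPres77.Alt
import Cfsg.Agent.S2284

/-!
Even permutations for the gluing: prescribing images of few points, extensions from a window, and two
elements generating the alternating group on all points but the first two.
-/

set_option autoImplicit false

namespace CfsgLib.SUPres

open Equiv CfsgLib.AltPres54
open CfsgLib.SLPres77 (exists_perm_map pt upper mem_upper mem_altOn_upper)
open CfsgLib.SUPres77 (extAlt extAlt_apply extAlt_other)

variable {n k : ℕ}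

/-- An even permutation with prescribed images of `k ≤ n - 2` points. -/
theorem exists_alt_inj (hk : k + 2 ≤ n) (f g : Fin k ↪ Fin n) :
    ∃ τ : alternatingGroup (Fin n), ∀ i, τ.1 (f i) = g i := by
  classical
  obtain ⟨σ, hσ⟩ := exists_perm_map f g f.injective g.injective
  rcases Int.units_eq_one_or (Perm.sign σ) with hs | hs
  · exact ⟨⟨σ, hs⟩, hσ⟩
  obtain ⟨a, ha, b, hb, hab⟩ : ∃ a ∈ (Finset.univ.map f)ᶜ, ∃ b ∈ (Finset.univ.map f)ᶜ, a ≠ b := by
    rw [← Finset.one_lt_card, Finset.card_compl, Finset.card_map, Finset.card_univ, Fintype.card_fin,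
      Fintype.card_fin]
    omega
  simp only [Finset.mem_compl, Finset.mem_map, Finset.mem_univ, true_and, not_exists] at ha hb
  refine ⟨⟨σ * swap a b, ?_⟩, fun i => ?_⟩
  · rw [Perm.mem_alternatingGroup, map_mul, hs, Perm.sign_swap hab]; rfl
  · show σ (swap a b (f i)) = g i
    rw [swap_apply_of_ne_of_ne (ha i) (hb i), hσ]

/-- An even permutation fixing everything outside a window comes from the window. -/
theorem exists_extAlt_eq (g : Fin k ↪ Fin n) (σ : alternatingGroup (Fin n))
    (h : ∀ x, (∀ i, g i ≠ x) → σ.1 x = x) : ∃ a : alternatingGroup (Fin k), extAlt g a = σ := by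
  classical
  have hin : ∀ i, ∃ j, g j = σ.1 (g i) := fun i => by
    by_contra hne
    push Not at hne
    exact hne i (σ.1.injective (h _ hne)).symm
  choose f hf using hin
  have hf' : Function.Bijective f := Finite.injective_iff_bijective.1 fun i j hij =>
    g.injective (σ.1.injective (by rw [← hf i, ← hf j, hij]))
  set P : Perm (Fin k) := Equiv.ofBijective f hf' with hP
  have hval : Perm.viaEmbedding P g = σ.1 := by
    refine Equiv.ext fun x => ?_
    by_cases hx : ∃ i, g i = x
    · obtain ⟨i, rfl⟩ := hx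
      rw [Perm.viaEmbedding_apply, hP, Equiv.ofBijective_apply, hf]
    · push Not at hx
      rw [Perm.viaEmbedding_apply_of_notMem _ _ _ (fun ⟨i, hi⟩ => hx i hi), h x hx]
  have hPs : Perm.sign P = 1 := by
    have hs := congrArg Perm.sign hval
    rw [show Perm.sign σ.1 = 1 from σ.2] at hs
    simpa [Perm.viaEmbedding] using hs
  exact ⟨⟨P, hPs⟩, Subtype.ext hval⟩

/-- The alternating group on all points but the first two, from two cycles: `n` even. -/
theorem upper_gen_even {H : Subgroup (Perm (Fin n))} (ρ : Perm (Fin n)) (p : ℕ → Fin n)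
    (hp : ∀ i, i < n → (p i).val = i) (hn : 5 ≤ n) (h2 : ρ (p 2) = p 2)
    (hstep : ∀ i, 3 ≤ i → i + 1 < n → ρ (p i) = p (i + 1))
    (hρ : ρ ∈ H) (hT : tri (p 2) (p 3) (p 4) ∈ H) : altOn (upper n) ≤ H := by
  have hne : ∀ i j, i < n → j < n → i ≠ j → p i ≠ p j := fun i j hi hj hij e => hij (by
    rw [← hp i hi, ← hp j hj, e])
  have hc : ∀ i, 3 ≤ i → i + 1 < n → tri (p 2) (p i) (p (i + 1)) ∈ H := by
    intro i hi
    induction i, hi using Nat.le_induction with
    | base => exact fun _ => hT
    | succ i hi ih =>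
      intro hin
      have e := conj_tri ρ (p 2) (p i) (p (i + 1))
      rw [h2, hstep i hi (by omega), hstep (i + 1) (by omega) hin] at e
      rw [← e]
      exact H.mul_mem (H.mul_mem hρ (ih (by omega))) (H.inv_mem hρ)
  have h23 : ∀ i, 4 ≤ i → i < n → tri (p 2) (p 3) (p i) ∈ H := by
    intro i hi
    induction i, hi using Nat.le_induction with
    | base => exact fun _ => hT
    | succ i hi ih =>
      intro hin
      have d23 := hne 2 3 (by omega) (by omega) (by omega)
      have d2i := hne 2 i (by omega) (by omega) (by omega)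
      have d3i := hne 3 i (by omega) (by omega) (by omega)
      have e := conj_tri (tri (p 2) (p 3) (p i)) (p 2) (p i) (p (i + 1))
      rw [tri_a d23 d2i, tri_i, tri_other (hne _ _ hin (by omega) (by omega))
        (hne _ _ hin (by omega) (by omega)) (hne _ _ hin (by omega) (by omega))] at e
      have hm := H.mul_mem (H.mul_mem (ih (by omega)) (hc i (by omega) hin))
        (H.inv_mem (ih (by omega)))
      rw [e] at hm
      have hinv := H.inv_mem hm
      rwa [tri_inv d23.symm (hne 2 (i + 1) (by omega) hin (by omega))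
        (hne 3 (i + 1) (by omega) hin (by omega))] at hinv
  refine (altOn_le_closure (a := p 2) (b := p 3) (mem_upper.2 (by rw [hp 2 (by omega)]))
    (mem_upper.2 (by rw [hp 3 (by omega)]; omega)) (hne 2 3 (by omega) (by omega) (by omega))).trans
    ((Subgroup.closure_le H).2 ?_)
  rintro _ ⟨i, hi, hi2, hi3, rfl⟩
  rw [mem_upper] at hi
  have hv : p i.val = i := Fin.ext (hp _ i.isLt)
  have h4 : 4 ≤ i.val := by
    by_contra hlt
    rcases (show i.val = 2 ∨ i.val = 3 by omega) with e | e
    · exact hi2 (by rw [← hv, e])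
    · exact hi3 (by rw [← hv, e])
  exact hv ▸ h23 i.val h4 i.isLt

/-- The alternating group on all points but the first two, from two cycles: `n` odd. -/
theorem upper_gen_odd {H : Subgroup (Perm (Fin n))} (g : Perm (Fin n)) (p : ℕ → Fin n)
    (hp : ∀ i, i < n → (p i).val = i) (hn : 5 ≤ n) (h2 : g (p 2) = p 4) (h3 : g (p 3) = p 2)
    (hstep : ∀ i, 4 ≤ i → i + 1 < n → g (p i) = p (i + 1))
    (hg : g ∈ H) (hT : tri (p 2) (p 3) (p 4) ∈ H) : altOn (upper n) ≤ H := by
  have hne : ∀ i j, i < n → j < n → i ≠ j → p i ≠ p j := fun i j hi hj hij e => hij (by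
    rw [← hp i hi, ← hp j hj, e])
  have hconj : ∀ {a b i : Fin n}, tri a b i ∈ H → tri (g a) (g b) (g i) ∈ H := fun {a b i} h => by
    rw [← conj_tri]; exact H.mul_mem (H.mul_mem hg h) (H.inv_mem hg)
  have hfirst : 5 < n → tri (p 2) (p 4) (p 5) ∈ H := fun h5 => by
    have h := hconj hT
    rw [h2, h3, hstep 4 le_rfl h5] at h
    have hinv := H.inv_mem h
    rwa [tri_inv (hne 4 2 (by omega) (by omega) (by omega)) (hne 2 5 (by omega) (by omega) (by omega))
      (hne 4 5 (by omega) (by omega) (by omega))] at hinv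
  have hc : ∀ i, 4 ≤ i → i + 2 < n → tri (p i) (p (i + 1)) (p (i + 2)) ∈ H := by
    intro i hi
    induction i, hi using Nat.le_induction with
    | base =>
      intro hin
      have h := hconj (hfirst (by omega))
      rwa [h2, hstep 4 le_rfl (by omega), hstep 5 (by omega) hin] at h
    | succ i hi ih =>
      intro hin
      have h := hconj (ih (by omega))
      rwa [hstep i hi (by omega), hstep (i + 1) (by omega) (by omega),
        hstep (i + 2) (by omega) (by omega)] at h
  have h23 : ∀ i, 4 ≤ i → i < n → tri (p 2) (p 3) (p i) ∈ H := by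
    intro i hi
    induction i, hi using Nat.le_induction with
    | base => exact fun _ => hT
    | succ i hi ih =>
      intro hin
      have d23 := hne 2 3 (by omega) (by omega) (by omega)
      rcases Nat.eq_or_lt_of_le hi with rfl | hi5
      · have e := conj_tri (tri (p 2) (p 3) (p 4)) (p 2) (p 4) (p 5)
        rw [tri_a d23 (hne 2 4 (by omega) (by omega) (by omega)), tri_i,
          tri_other (hne 5 2 (by omega) (by omega) (by omega)) (hne 5 3 (by omega) (by omega) (by omega))
            (hne 5 4 (by omega) (by omega) (by omega))] at e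
        have hm := H.mul_mem (H.mul_mem hT (hfirst hin)) (H.inv_mem hT)
        rw [e] at hm
        have hinv := H.inv_mem hm
        rwa [tri_inv d23.symm (hne 2 5 (by omega) (by omega) (by omega))
          (hne 3 5 (by omega) (by omega) (by omega))] at hinv
      · have hcc := hc (i - 1) (by omega) (by omega)
        rw [show i - 1 + 1 = i by omega, show i - 1 + 2 = i + 1 by omega] at hcc
        have dd : ∀ j, j < 4 → ∀ l, i - 1 ≤ l → l ≤ i + 1 → p j ≠ p l := fun j hj l hl hl' =>
          hne j l (by omega) (by omega) (by omega)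
        have e := conj_tri (tri (p (i - 1)) (p i) (p (i + 1))) (p 2) (p 3) (p i)
        rw [tri_other (dd 2 (by omega) _ le_rfl (by omega)) (dd 2 (by omega) _ (by omega) (by omega))
            (dd 2 (by omega) _ (by omega) le_rfl),
          tri_other (dd 3 (by omega) _ le_rfl (by omega)) (dd 3 (by omega) _ (by omega) (by omega))
            (dd 3 (by omega) _ (by omega) le_rfl),
          tri_b (hne i (i + 1) (by omega) (by omega) (by omega))
            (hne (i - 1) (i + 1) (by omega) (by omega) (by omega))] at e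
        rw [← e]
        exact H.mul_mem (H.mul_mem hcc (ih (by omega))) (H.inv_mem hcc)
  refine (altOn_le_closure (a := p 2) (b := p 3) (mem_upper.2 (by rw [hp 2 (by omega)]))
    (mem_upper.2 (by rw [hp 3 (by omega)]; omega)) (hne 2 3 (by omega) (by omega) (by omega))).trans
    ((Subgroup.closure_le H).2 ?_)
  rintro _ ⟨i, hi, hi2, hi3, rfl⟩
  rw [mem_upper] at hi
  have hv : p i.val = i := Fin.ext (hp _ i.isLt)
  have h4 : 4 ≤ i.val := by
    by_contra hlt
    rcases (show i.val = 2 ∨ i.val = 3 by omega) with e | e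
    · exact hi2 (by rw [← hv, e])
    · exact hi3 (by rw [← hv, e])
  exact hv ▸ h23 i.val h4 i.isLt

/-- A cycle on the points from the fourth one on. -/
noncomputable def longCycle (hn : 3 ≤ n) : Perm (Fin n) :=
  Perm.viaEmbedding (finRotate (n - 3)) (CfsgLib.Phan.win (m := n) (k := n - 3) 3 (by omega))

theorem longCycle_low (hn : 3 ≤ n) {x : Fin n} (hx : x.val < 3) : longCycle hn x = x :=
  Perm.viaEmbedding_apply_of_notMem _ _ _ (by rintro ⟨i, hi⟩; rw [← hi] at hx; simp at hx)

theorem longCycle_step (hn : 3 ≤ n) {x y : Fin n} (hx : 3 ≤ x.val) (hy : y.val = x.val + 1) :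
    longCycle hn x = y := by
  obtain ⟨m, hm⟩ : ∃ m, n - 3 = m + 1 := ⟨n - 4, by omega⟩
  set i : Fin (n - 3) := ⟨x.val - 3, by omega⟩ with hi
  set g := CfsgLib.Phan.win (m := n) (k := n - 3) 3 (by omega) with hg
  rw [show x = g i from Fin.ext (by simp [hg, hi]; omega), longCycle, Perm.viaEmbedding_apply]
  apply Fin.ext
  have hval : ∀ (l : ℕ) (_ : l = m + 1) (j : Fin l), j.val + 1 < l → (finRotate l j).val = j.val + 1 := by
    rintro l rfl j hj
    rw [finRotate_succ_apply, Fin.val_add_one]
    split_ifs with h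
    · rw [h, Fin.val_last] at hj; omega
    · rfl
  rw [CfsgLib.Phan.win_apply_val, hval _ hm i (by simp [hi]; omega), hy]
  simp [hi]; omega

theorem sign_longCycle (hn : 4 ≤ n) :
    Perm.sign (longCycle (show 3 ≤ n by omega)) = (-1) ^ (n - 4) := by
  obtain ⟨m, hm⟩ : ∃ m, n - 3 = m + 1 := ⟨n - 4, by omega⟩
  have h : ∀ (l : ℕ) (_ : l = m + 1), Perm.sign (finRotate l) = (-1) ^ m := by
    rintro l rfl; simpa using sign_finRotate (m + 1)
  rw [show n - 4 = m by omega]
  simpa [longCycle, Perm.viaEmbedding] using h _ hm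

/-- An element fixing the first two points, or exchanging them, whose commutation with their window
forces the commutation of everything fixing both. -/
theorem exists_cent_elt (hn : 5 ≤ n) :
    ∃ (z : alternatingGroup (Fin n)) (π : Perm (Fin 2)),
      (∀ i : Fin 2, z.1 (CfsgLib.Phan.win 0 (show 0 + 2 ≤ n by omega) i) =
        CfsgLib.Phan.win 0 (show 0 + 2 ≤ n by omega) (π i)) ∧
      ∀ (e : alternatingGroup (Fin n)) (K : Subgroup (alternatingGroup (Fin n))),
        e.1 = swap (pt (show 4 ≤ n by omega) 0) (pt (show 4 ≤ n by omega) 1) *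
          swap (pt (show 4 ≤ n by omega) 2) (pt (show 4 ≤ n by omega) 3) →
        (π = 1 → z ∈ K ∧ e * z * e ∈ K) → (π ≠ 1 → e * z ∈ K ∧ z * e ∈ K) →
        ∀ x : alternatingGroup (Fin n), x.1 (pt (show 4 ≤ n by omega) 0) = pt (show 4 ≤ n by omega) 0 →
          x.1 (pt (show 4 ≤ n by omega) 1) = pt (show 4 ≤ n by omega) 1 → x ∈ K := by
  classical
  have h4 : 4 ≤ n := by omega
  let p : ℕ → Fin n := fun i => ⟨min i (n - 1), by omega⟩
  have hp : ∀ i, i < n → (p i).val = i := fun i hi => by simp [p]; omega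
  have hpt : ∀ i : Fin 4, pt h4 i = p i.val := fun i => Fin.ext (by
    rw [hp _ (by omega)]; rfl)
  have hne : ∀ {i j}, i < n → j < n → i ≠ j → p i ≠ p j := fun hi hj hij e => hij (by
    rw [← hp _ hi, ← hp _ hj, e])
  set ρ := longCycle (show 3 ≤ n by omega) with hρdef
  have hlow : ∀ i, i < 3 → ρ (p i) = p i := fun i hi => longCycle_low _ (by rw [hp _ (by omega)]; exact hi)
  have hstep : ∀ i, 3 ≤ i → i + 1 < n → ρ (p i) = p (i + 1) := fun i hi hin =>
    longCycle_step _ (by rw [hp _ (by omega)]; exact hi) (by rw [hp _ hin, hp _ (by omega)])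
  set a : Perm (Fin n) := swap (p 0) (p 1) with ha
  set s : Perm (Fin n) := swap (p 2) (p 3) with hsdef
  have hs23 : ∀ x, x ≠ p 2 → x ≠ p 3 → s x = x := fun x h h' => swap_apply_of_ne_of_ne h h'
  have hT : tri (p 2) (p 3) (p 4) = ρ * (s * ρ * s)⁻¹ := by
    have h2 : s * ρ * s * ρ⁻¹ = s * (ρ * s * ρ⁻¹) := by group
    have h3 : ρ * s * ρ⁻¹ = swap (p 2) (p 4) := by
      rw [hsdef, ← Equiv.swap_apply_apply, hlow 2 (by omega), hstep 3 le_rfl (by omega)]
    have h1 : ρ * (s * ρ * s)⁻¹ = (s * ρ * s * ρ⁻¹)⁻¹ := by group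
    rw [h1, h2, h3, mul_inv_rev, Equiv.swap_inv, hsdef, Equiv.swap_inv, tri]
    refine Equiv.ext fun x => ?_
    have d23 := hne (show 2 < n by omega) (show 3 < n by omega) (by omega)
    have d24 := hne (show 2 < n by omega) (show 4 < n by omega) (by omega)
    have d34 := hne (show 3 < n by omega) (show 4 < n by omega) (by omega)
    simp only [Perm.mul_apply]
    by_cases e2 : x = p 2
    · subst e2
      rw [swap_apply_left, swap_apply_of_ne_of_ne d23 d24, swap_apply_left,
        swap_apply_of_ne_of_ne d23.symm d34]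
    by_cases e3 : x = p 3
    · subst e3
      rw [swap_apply_right, swap_apply_left, swap_apply_left,
        swap_apply_of_ne_of_ne d24.symm d34.symm]
    by_cases e4 : x = p 4
    · subst e4
      rw [swap_apply_of_ne_of_ne d24.symm d34.symm, swap_apply_right, swap_apply_right,
        swap_apply_right]
    · rw [swap_apply_of_ne_of_ne e2 e3, swap_apply_of_ne_of_ne e2 e4,
        swap_apply_of_ne_of_ne e3 e4, swap_apply_of_ne_of_ne e2 e3]
  have hcomm_as : ∀ x, a (s x) = s (a x) := fun x => by
    have h := Equiv.swap_apply_apply a (p 2) (p 3)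
    rw [show a (p 2) = p 2 from swap_apply_of_ne_of_ne (hne (by omega) (by omega) (by omega))
        (hne (by omega) (by omega) (by omega)),
      show a (p 3) = p 3 from swap_apply_of_ne_of_ne (hne (by omega) (by omega) (by omega))
        (hne (by omega) (by omega) (by omega))] at h
    exact (DFunLike.congr_fun (eq_mul_inv_iff_mul_eq.1 h).symm x)
  have hca : Commute a s := Equiv.ext hcomm_as
  have hcr : Commute a ρ := by
    have h := Equiv.swap_apply_apply ρ (p 0) (p 1)
    rw [hlow 0 (by omega), hlow 1 (by omega)] at h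
    exact eq_mul_inv_iff_mul_eq.1 h
  have haa : a * a = 1 := Equiv.swap_mul_self _ _
  rcases Nat.even_or_odd n with hev | hodd
  · have hs : Perm.sign ρ = 1 := by
      rw [hρdef, sign_longCycle h4, Even.neg_one_pow]
      obtain ⟨r, hr⟩ := hev; exact ⟨r - 2, by omega⟩
    refine ⟨⟨ρ, hs⟩, 1, fun i => ?_, fun e K he h1 _ x x0 x1 => ?_⟩
    · rw [Perm.one_apply]
      exact longCycle_low (show 3 ≤ n by omega) (by simp; omega)
    obtain ⟨hz, hez⟩ := h1 rfl
    set H := K.map (alternatingGroup (Fin n)).subtype with hH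
    have hρH : ρ ∈ H := ⟨_, hz, rfl⟩
    have hσ : s * ρ * s ∈ H := by
      refine ⟨_, hez, ?_⟩
      show e.1 * ρ * e.1 = _
      rw [he, hpt, hpt, hpt, hpt, show ((0 : Fin 4) : ℕ) = 0 from rfl, show ((1 : Fin 4) : ℕ) = 1 from rfl,
        show ((2 : Fin 4) : ℕ) = 2 from rfl, show ((3 : Fin 4) : ℕ) = 3 from rfl, ← ha, ← hsdef]
      calc a * s * ρ * (a * s) = a * (s * ρ * a) * s := by group
        _ = a * a * (s * ρ) * s := by rw [← (hca.mul_right hcr).eq]; group
        _ = s * ρ * s := by rw [haa, one_mul]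
    have hall := upper_gen_even ρ p hp hn (hlow 2 (by omega)) hstep hρH
      (hT ▸ H.mul_mem hρH (H.inv_mem hσ))
    obtain ⟨w, hw, hwx⟩ := hall (mem_altOn_upper h4 x0 x1)
    exact Subtype.ext hwx ▸ hw
  · have hs : Perm.sign (a * ρ) = 1 := by
      rw [map_mul, hρdef, sign_longCycle h4, Odd.neg_one_pow, ha,
        Perm.sign_swap (hne (by omega) (by omega) (by omega))]
      · rfl
      · obtain ⟨r, hr⟩ := hodd; exact ⟨r - 2, by omega⟩
    refine ⟨⟨a * ρ, hs⟩, swap 0 1, fun i => ?_, fun e K he _ h2 x x0 x1 => ?_⟩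
    · show a (ρ _) = _
      rw [hρdef, longCycle_low _ (by simp; omega), ha]
      have hw : ∀ j : Fin 2, CfsgLib.Phan.win 0 (show 0 + 2 ≤ n by omega) j = p j.val := fun j =>
        Fin.ext (by rw [hp _ (by omega)]; simp)
      rw [hw, hw]
      fin_cases i <;> simp
    obtain ⟨hez, hze⟩ := h2 (by decide)
    set H := K.map (alternatingGroup (Fin n)).subtype with hH
    have he' : e.1 = a * s := by
      rw [he, hpt, hpt, hpt, hpt, show ((0 : Fin 4) : ℕ) = 0 from rfl, show ((1 : Fin 4) : ℕ) = 1 from rfl,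
        show ((2 : Fin 4) : ℕ) = 2 from rfl, show ((3 : Fin 4) : ℕ) = 3 from rfl]
    have hsρ : s * ρ ∈ H := by
      refine ⟨_, hez, ?_⟩
      show e.1 * (a * ρ) = _
      rw [he']
      calc a * s * (a * ρ) = a * (s * a) * ρ := by group
        _ = a * a * (s * ρ) := by rw [← hca.eq]; group
        _ = s * ρ := by rw [haa, one_mul]
    have hρs : ρ * s ∈ H := by
      refine ⟨_, hze, ?_⟩
      show a * ρ * e.1 = _
      rw [he']
      calc a * ρ * (a * s) = a * (ρ * a) * s := by group
        _ = a * a * (ρ * s) := by rw [← hcr.eq]; group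
        _ = ρ * s := by rw [haa, one_mul]
    have hss : s * s = 1 := Equiv.swap_mul_self _ _
    have hTH : tri (p 2) (p 3) (p 4) ∈ H := by
      rw [hT]
      have h := H.inv_mem (H.mul_mem hsρ (H.inv_mem hρs))
      rwa [show (s * ρ * (ρ * s)⁻¹)⁻¹ = ρ * (s * ρ * s)⁻¹ by
        have hsi : s⁻¹ = s := inv_eq_of_mul_eq_one_right hss
        calc (s * ρ * (ρ * s)⁻¹)⁻¹ = ρ * s * ρ⁻¹ * s⁻¹ := by group
          _ = ρ * s⁻¹ * ρ⁻¹ * s⁻¹ := by rw [hsi]
          _ = _ := by group] at h
    have hg2 : (ρ * s) (p 2) = p 4 := by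
      rw [Perm.mul_apply, hsdef, swap_apply_left, hstep 3 le_rfl (by omega)]
    have hg3 : (ρ * s) (p 3) = p 2 := by
      rw [Perm.mul_apply, hsdef, swap_apply_right, hlow 2 (by omega)]
    have hgs : ∀ i, 4 ≤ i → i + 1 < n → (ρ * s) (p i) = p (i + 1) := fun i hi hin => by
      rw [Perm.mul_apply, hs23 _ (hne (by omega) (by omega) (by omega))
        (hne (by omega) (by omega) (by omega)), hstep i (by omega) hin]
    have hall := upper_gen_odd (ρ * s) p hp hn hg2 hg3 hgs hρs hTH
    obtain ⟨w, hw, hwx⟩ := hall (mem_altOn_upper h4 x0 x1)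
    exact Subtype.ext hwx ▸ hw

theorem eq_one_two : ∀ x : alternatingGroup (Fin (5 - 3)), x = 1 := by decide

/-- Few elements generating the even permutations fixing the first three points. -/
theorem exists_stab_gens (hn : 5 ≤ n) :
    ∃ Z : List (alternatingGroup (Fin n)), Z.length ≤ (if n = 5 then 0 else if n = 6 then 1 else 2) ∧
      (∀ z ∈ Z, ∀ i : Fin n, i.val < 3 → z.1 i = i) ∧
      ∀ K : Subgroup (alternatingGroup (Fin n)), (∀ z ∈ Z, z ∈ K) →
        ∀ x : alternatingGroup (Fin n), (∀ i : Fin n, i.val < 3 → x.1 i = i) → x ∈ K := by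
  classical
  set g := CfsgLib.Phan.win (m := n) (k := n - 3) 3 (by omega) with hg
  obtain ⟨L, hL, hgen⟩ : ∃ L : List (alternatingGroup (Fin (n - 3))),
      L.length ≤ (if n = 5 then 0 else if n = 6 then 1 else 2) ∧
      ∀ K : Subgroup (alternatingGroup (Fin (n - 3))), (∀ z ∈ L, z ∈ K) → K = ⊤ := by
    by_cases h5 : n = 5
    · subst h5
      refine ⟨[], by simp, fun K _ => eq_top_iff.2 fun x _ => ?_⟩
      rw [eq_one_two x]; exact K.one_mem
    by_cases h6 : n = 6
    · subst h6
      refine ⟨[CfsgLib.SUPres77.cyc3], by simp, fun K hK => eq_top_iff.2 fun x _ => ?_⟩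
      obtain ⟨i, rfl⟩ := CfsgLib.SUPres77.eq_pow_cyc3 x
      exact K.pow_mem (hK _ (by simp)) _
    obtain ⟨y, hy⟩ : ∃ y : Fin 2 → alternatingGroup (Fin (n - 3)),
        Subgroup.closure (Set.range y) = ⊤ := by
      obtain ⟨R, -, ⟨e⟩⟩ := (Cfsg.Agent.S2284.result (n - 3)).2
      refine ⟨fun i => e (PresentedGroup.of i), ?_⟩
      have h := congrArg (Subgroup.map e.toMonoidHom)
        (PresentedGroup.closure_range_of (↑R : Set (FreeGroup (Fin 2))))
      rw [MonoidHom.map_closure, Subgroup.map_top_of_surjective _ e.surjective, ← Set.range_comp] at h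
      exact h
    refine ⟨[y 0, y 1], by simp [h5, h6], fun K hK => eq_top_iff.2 (hy ▸ (Subgroup.closure_le K).2 ?_)⟩
    rintro _ ⟨i, rfl⟩
    fin_cases i <;> exact hK _ (by simp)
  refine ⟨L.map (extAlt g), by simpa using hL, fun z hz i hi => ?_, fun K hK x hx => ?_⟩
  · obtain ⟨a, -, rfl⟩ := List.mem_map.1 hz
    exact extAlt_other g a fun j e => by rw [← e] at hi; simp [hg] at hi
  · obtain ⟨a, rfl⟩ := exists_extAlt_eq g x fun i hi => hx i (by
      by_contra h
      exact hi ⟨i.val - 3, by omega⟩ (Fin.ext (by simp [hg]; omega)))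
    have := hgen (K.comap (extAlt g)) fun z hz => hK _ (List.mem_map.2 ⟨z, hz, rfl⟩)
    exact (this ▸ Subgroup.mem_top a : a ∈ K.comap (extAlt g))

end CfsgLib.SUPres
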