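import Mathlib
import Cfsg.Agent.Phan.Auto

/-!
`SU₃(2)`: the two blocks, an extra element and its twist generate; the twist is a conjugation inside `SU₄`.
-/

set_option autoImplicit false

namespace CfsgLib.SUPres

open Cfsg CfsgLib.Unitary CfsgLib.Phan

variable {F : Type*} [Field F] [Fintype F] {q m : ℕ} (hF : Fintype.card F = q ^ 2)

/-- An embedding of two distinct points. -/
def two {α : Type*} (i j : α) (h : i ≠ j) : Fin 2 ↪ α :=
  ⟨![i, j], fun a b hab => by
    fin_cases a <;> fin_cases b <;> first | rfl | exact absurd hab h | exact absurd hab.symm h⟩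

theorem two_zero {α : Type*} (i j : α) (h : i ≠ j) : two i j h 0 = i := rfl

theorem two_one {α : Type*} (i j : α) (h : i ≠ j) : two i j h 1 = j := rfl

/-- The conjugate scalar. -/
def conjN (hF : Fintype.card F = q ^ 2) (a : {x : F // x ^ (q + 1) = 1}) : {x : F // x ^ (q + 1) = 1} :=
  ⟨a.1 ^ q, by
    have := hF
    rw [← pow_mul, mul_comm, pow_mul, a.2, one_pow]⟩

include hF

/-- Conjugation by a diagonal element is a twist. -/
theorem conj_eq_twist (D : ↥(SU m F q)) (d : Fin m → {x : F // x ^ (q + 1) = 1})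
    (hD : mat D = Matrix.diagonal fun i => (d i).1) (x : ↥(SU m F q)) :
    D * x * D⁻¹ = twist hF d (RingEquiv.refl F) x := by
  rw [mul_inv_eq_iff_eq_mul]
  refine mat_ext ?_
  rw [mat_mul, mat_mul, hD, mat_twist, Matrix.mul_assoc, Matrix.diagonal_mul_diagonal]
  rw [show (fun i => (d i).1 ^ q * (d i).1) = fun _ => 1 from funext fun i => by rw [← pow_succ, (d i).2],
    Matrix.diagonal_one, Matrix.mul_one]
  congr 1

/-- A diagonal element on two points. -/
theorem mat_emb_diag2 (f : Fin 2 ↪ Fin m) (a : {x : F // x ^ (q + 1) = 1}) :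
    mat (emb hF f (diag2 hF a)) = Matrix.diagonal fun i =>
      ((if i = f 0 then a else if i = f 1 then conjN hF a else oneN) : {x : F // x ^ (q + 1) = 1}).1 := by
  ext r i
  rw [← sv_single]
  by_cases hi : ∃ j, f j = i
  · obtain ⟨j, rfl⟩ := hi
    rw [← incl_mulVec_single (F := F) f j, sv_emb_incl]
    by_cases hr : ∃ k, f k = r
    · obtain ⟨k, rfl⟩ := hr
      rw [incl_mulVec_apply, sv_single, Matrix.diagonal_apply]
      fin_cases j <;> fin_cases k <;> simp [mat_diag2, conjN, f.injective.eq_iff]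
    · push Not at hr
      rw [incl_mulVec_apply_of_notMem f _ hr, Matrix.diagonal_apply, if_neg fun h => hr j h.symm]
  · push Not at hi
    rw [sv_emb_single_of_notMem hF f _ hi, Matrix.diagonal_apply, Pi.single_apply]
    by_cases h : r = i
    · subst h
      rw [if_pos rfl, if_pos rfl, if_neg (Ne.symm (hi 0)), if_neg (Ne.symm (hi 1))]
      rfl
    · rw [if_neg h, if_neg h]

/-- The twist of the third window inside `SU₄`. -/
theorem emb_twist_win (a : {x : F // x ^ (q + 1) = 1}) (g : ↥(SU 3 F q)) :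
    emb hF (win (m := 4) 0 (show 0 + 3 ≤ 4 by omega)) (twist hF ![a, oneN, oneN] (RingEquiv.refl F) g) =
      emb hF (two (0 : Fin 4) 3 (by decide)) (diag2 hF a) *
        emb hF (win (m := 4) 0 (show 0 + 3 ≤ 4 by omega)) g *
        (emb hF (two (0 : Fin 4) 3 (by decide)) (diag2 hF a))⁻¹ := by
  rw [conj_eq_twist hF _ _ (mat_emb_diag2 hF _ a), twist_emb]
  refine congrArg _ (congrArg (fun d => twist hF d (RingEquiv.refl F) g) (funext fun i => ?_))
  fin_cases i <;> rfl

/-- A diagonal element moves along a chain. -/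
theorem emb_diag2_chain {i j k : Fin m} (hij : i ≠ j) (hjk : j ≠ k) (hik : i ≠ k)
    (a : {x : F // x ^ (q + 1) = 1}) :
    emb hF (two i k hik) (diag2 hF a) = emb hF (two i j hij) (diag2 hF a) * emb hF (two j k hjk) (diag2 hF a) := by
  refine mat_ext ?_
  rw [mat_mul, mat_emb_diag2, mat_emb_diag2, mat_emb_diag2, Matrix.diagonal_mul_diagonal]
  refine congrArg Matrix.diagonal (funext fun x => ?_)
  simp only [two_zero, two_one]
  have h := a.2
  rw [pow_succ'] at h
  by_cases h1 : x = i
  · subst h1; simp [hij, hik, oneN]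
  by_cases h2 : x = j
  · subst h2
    simp [hij.symm, hjk, oneN, conjN]
    linear_combination -h
  by_cases h3 : x = k
  · subst h3; simp [hik.symm, hjk.symm, oneN, conjN]
  simp [h1, h2, h3, oneN]

/-- A diagonal element on the first two points normalises the next pair. -/
theorem conj_next (a : {x : F // x ^ (q + 1) = 1}) (u : ↥(SU 2 F q)) :
    ∃ v : ↥(SU 2 F q),
      emb hF (two (0 : Fin 4) 1 (by decide)) (diag2 hF a) * emb hF (two (1 : Fin 4) 2 (by decide)) u *
        (emb hF (two (0 : Fin 4) 1 (by decide)) (diag2 hF a))⁻¹ =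
        emb hF (two (1 : Fin 4) 2 (by decide)) v :=
  ⟨_, by rw [conj_eq_twist hF _ _ (mat_emb_diag2 hF _ a), twist_emb]⟩

/-- The two blocks, one more element and its twist generate `SU₃(2)`. -/
theorem exists_extra_two (hq : q = 2) :
    ∃ (ω : {x : F // x ^ (q + 1) = 1}) (g : ↥(SU 3 F q)), ∀ H : Subgroup ↥(SU 3 F q),
      (emb hF w01).range ≤ H → (emb hF w12).range ≤ H → g ∈ H →
        twist hF ![ω, oneN, oneN] (RingEquiv.refl F) g ∈ H → H = ⊤ := by
  classical
  obtain ⟨ω, hω, -⟩ := exists_gen hF (Or.inl hq)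
  have h2 : (1 : F) + 1 = 0 := by
    have := neg_one_pow_succ hF
    rw [hq] at this
    linear_combination -this
  set eL : Fin 3 → F := Pi.single 2 1 with heL
  obtain ⟨g, hg⟩ := exists_SU_map_orthonorm hF (f := ![eL]) (f' := ![fun _ => (1 : F)])
    (orthonorm_one (by rw [heL, herm_single_single hF, if_pos rfl]))
    (orthonorm_one (by
      simp [hermForm, Fin.sum_univ_three]
      linear_combination h2)) (by omega)
  have hgL : sv g eL = fun _ => (1 : F) := hg 0
  refine ⟨ω, g, fun H h01 h12 hgH hg1 => ?_⟩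
  have hhull : blockHull hF ≤ H := sup_le h01 h12
  let N := {x : F // x ^ (q + 1) = 1}
  let t : Bool → N := fun b => cond b ω oneN
  -- an element moving the last vector to a full vector
  have hfull : ∀ (b : Bool) (w1 w2 : N), ∃ h ∈ H,
      sv h eL = ![(w1.1 * w2.1) ^ q * (t b).1, w1.1, w2.1] := by
    intro b w1 w2
    obtain ⟨x, hx, hxe⟩ : ∃ x ∈ H, sv x eL = ![(t b).1, 1, 1] := by
      cases b
      · exact ⟨g, hgH, by rw [hgL]; funext i; fin_cases i <;> rfl⟩
      · refine ⟨_, hg1, funext fun i => ?_⟩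
        rw [heL, sv_single, mat_twist_apply, RingEquiv.refl_apply, ← sv_single, ← heL, hgL]
        fin_cases i <;> simp [t, oneN]
    refine ⟨emb hF w01 (diag2 hF (conjN hF (mulN w1 w2))) * emb hF w12 (diag2 hF (conjN hF w2)) * x,
      H.mul_mem (H.mul_mem (h01 ⟨_, rfl⟩) (h12 ⟨_, rfl⟩)) hx, ?_⟩
    rw [sv_mul, sv_mul, hxe, sv_w12, sv_w01]
    funext i
    fin_cases i <;> simp [mat_diag2, conjN, mulN, pow_q_q hF]
    have h := w2.2
    rw [pow_succ] at h
    linear_combination w1.1 * h
  choose mf hmfH hmf using hfull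
  let mm : Fin 3 × N → ↥(SU 3 F q) := fun p => (exists_hull_move hF p.1 p.2.1 p.2.2).choose
  have hmm : ∀ p, mm p ∈ blockHull hF ∧ sv (mm p) eL = Pi.single p.1 p.2.1 :=
    fun p => (exists_hull_move hF p.1 p.2.1 p.2.2).choose_spec
  let mv : (Fin 3 × N) ⊕ (Bool × N × N) → ↥(SU 3 F q) :=
    Sum.elim mm fun p => mf p.1 p.2.1 p.2.2
  have hmvH : ∀ s, mv s ∈ H := by
    rintro (p | p)
    · exact hhull (hmm p).1
    · exact hmfH _ _ _
  have hvne : ∀ (p : Fin 3 × N) (p' : Bool × N × N),
      Pi.single p.1 p.2.1 ≠ ![(p'.2.1.1 * p'.2.2.1) ^ q * (t p'.1).1, p'.2.1.1, p'.2.2.1] := by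
    intro p p' h
    have e1 := congrFun h 1
    have e2 := congrFun h 2
    by_cases h1 : p.1 = 1
    · rw [h1, Pi.single_eq_of_ne (by decide)] at e2
      exact norm_one_ne_zero hF p'.2.2 (by simpa using e2.symm)
    · rw [Pi.single_eq_of_ne (Ne.symm h1)] at e1
      exact norm_one_ne_zero hF p'.2.1 (by simpa using e1.symm)
  have hinjv : Function.Injective fun s => sv (mv s) eL := by
    rintro (p | p) (p' | p') h <;> simp only [mv, Sum.elim_inl, Sum.elim_inr, (hmm _).2, hmf] at h
    · have hj : p.1 = p'.1 := by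
        by_contra hj
        have := congrFun h p.1
        rw [Pi.single_eq_same, Pi.single_eq_of_ne hj] at this
        exact norm_one_ne_zero hF p.2 this
      rw [hj] at h
      exact congrArg Sum.inl (Prod.ext hj (Subtype.ext (Pi.single_injective _ h)))
    · exact absurd h (hvne p p')
    · exact absurd h.symm (hvne p' p)
    · have e1 : p.2.1 = p'.2.1 := Subtype.ext (by simpa using congrFun h 1)
      have e2 : p.2.2 = p'.2.2 := Subtype.ext (by simpa using congrFun h 2)
      have e0 : (p.2.1.1 * p.2.2.1) ^ q * (t p.1).1 = (p'.2.1.1 * p'.2.2.1) ^ q * (t p'.1).1 := by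
        simpa using congrFun h 0
      rw [e1, e2] at e0
      have e0' := mul_left_cancel₀ (pow_ne_zero q
        (mul_ne_zero (norm_one_ne_zero hF p'.2.1) (norm_one_ne_zero hF p'.2.2))) e0
      have hω1 : ω.1 ≠ 1 := fun h1 => hω (by rw [h1, one_pow])
      have : p.1 = p'.1 := by
        revert e0'
        cases p.1 <;> cases p'.1 <;> simp [t, oneN, hω1, Ne.symm hω1]
      exact congrArg Sum.inr (Prod.ext this (Prod.ext e1 e2))
  let Φ : ((Fin 3 × N) ⊕ (Bool × N × N)) × ↥(SU 2 F q) → H := fun p =>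
    ⟨mv p.1 * emb hF w01 p.2, H.mul_mem (hmvH _) (h01 ⟨_, rfl⟩)⟩
  have hΦ : Function.Injective Φ := by
    rintro ⟨s, u⟩ ⟨s', u'⟩ h
    have h0 := congrArg Subtype.val h
    have hfix : ∀ v : ↥(SU 2 F q), sv (emb hF w01 v) eL = eL := fun v => by
      have : emb hF w01 v ∈ stab (F := F) (q := q) eL := range_w01 hF ▸ ⟨v, rfl⟩
      exact this
    have h1 := congrArg (fun x => sv x eL) h0
    simp only [Φ, sv_mul, hfix] at h1
    obtain rfl := hinjv h1
    simp only [Φ, mul_left_cancel_iff] at h0
    rw [emb_injective hF w01 h0]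
  have h6 : Nat.card ↥(SU 2 F q) = 6 := by
    have h := card_SU hF 2 (by omega)
    subst hq
    norm_num [Finset.prod_range_succ, Nat.even_iff, -Nat.card_eq_fintype_card] at h
    omega
  have h216 : Nat.card ↥(SU 3 F q) = 216 := by
    have h := card_SU hF 3 (by omega)
    subst hq
    norm_num [Finset.prod_range_succ, Nat.even_iff, -Nat.card_eq_fintype_card] at h
    omega
  have hge := Nat.card_le_card_of_injective Φ hΦ
  rw [Nat.card_prod, Nat.card_sum, Nat.card_prod, Nat.card_prod, Nat.card_prod, h6,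
    Nat.card_fin, show Nat.card N = 3 by rw [card_norm_one hF]; omega, show Nat.card Bool = 2 by simp] at hge
  have hdvd := Subgroup.card_subgroup_dvd_card H
  rw [h216] at hdvd
  have heq : Nat.card H = 216 := by
    obtain ⟨c, hc⟩ := hdvd
    rcases Nat.lt_or_ge c 2 with hc2 | hc2
    · interval_cases c <;> omega
    · have : 162 * 2 ≤ Nat.card H * c := Nat.mul_le_mul hge hc2
      omega
  exact Subgroup.eq_top_of_card_eq H (heq.trans h216.symm)

end CfsgLib.SUPres
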