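import Mathlib
import Cfsg.Agent.SUPres.Perms
import Cfsg.Agent.SUPres.QTwo

/-!
An alternating group and `SU₄` glued along `A₄`: the windows of `SU_n`.

* `Base`: the identification on `A₄` and the centraliser of the first pair;
* `Ext`: what the windows need; `Ext.exists_lift`;
* `ext_large` (`q ≥ 3`) and `ext_two` (`q = 2`).
-/

set_option autoImplicit false
set_option maxHeartbeats 1000000

namespace CfsgLib.SUPres

open Cfsg CfsgLib.Unitary CfsgLib.Phan Equiv
open CfsgLib.SLPres77 (pt pt_inj pt_ne exists_alt_two exists_perm_map)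
open CfsgLib.SUPres77 (extAlt extAlt_apply extAlt_other altToSU altToSU_conj_emb emb_altToSU cyc3)

variable {n : ℕ}

/-- The first pair among four points. -/
def p01 : Fin 2 ↪ Fin 4 := win 0 (by omega)

/-- The first three among four points. -/
def t0 : Fin 3 ↪ Fin 4 := win 0 (by omega)

/-- The last three among four points. -/
def t1 : Fin 3 ↪ Fin 4 := win 1 (by omega)

/-- The first four points. -/
def e4 (hn : 5 ≤ n) : Fin 4 ↪ Fin n := win 0 (by omega)

/-- The transposition of a pair. -/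
def sw2 : Fin 2 ↪ Fin 2 := (swap (0 : Fin 2) 1).toEmbedding

theorem four_le (hn : 5 ≤ n) : 4 ≤ n := le_trans (Nat.le_succ 4) hn

/-- The double transposition of the first four points. -/
def flip4 : alternatingGroup (Fin 4) := ⟨swap 0 1 * swap 2 3, Perm.mem_alternatingGroup.2 (by decide)⟩

theorem e4_val (hn : 5 ≤ n) (i : Fin 4) : (e4 hn i).val = i.val := by simp [e4]

theorem pt_eq_e4 (hn : 5 ≤ n) (i : Fin 4) : pt (four_le hn) i = e4 hn i :=
  Fin.ext (by rw [e4_val]; rfl)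

theorem exists_alt_four : ∀ i j : Fin 4, i ≠ j →
    ∃ a : alternatingGroup (Fin 4), a.1 0 = i ∧ a.1 1 = j := by decide +kernel

theorem exists_shift (hn : 5 ≤ n) {k a : ℕ} (ha : a + k ≤ n) (hk : k + 2 ≤ n ∨ k = 4 ∨ k = 6) :
    ∃ τ : alternatingGroup (Fin n), ∀ i : Fin k, τ.1 (win 0 (show 0 + k ≤ n by omega) i) = win a ha i := by
  by_cases h2 : k + 2 ≤ n
  · exact exists_alt_inj h2 _ _
  by_cases h0 : a = 0
  · subst h0; exact ⟨1, fun i => rfl⟩
  obtain ⟨m, rfl⟩ : ∃ m, n = m + 1 := ⟨n - 1, by omega⟩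
  obtain rfl : a = 1 := by omega
  obtain rfl : k = m := by omega
  refine ⟨⟨finRotate (k + 1), ?_⟩, fun i => Fin.ext ?_⟩
  · rw [Perm.mem_alternatingGroup, sign_finRotate]
    refine Even.neg_one_pow ?_
    rcases hk with h | h | h
    · omega
    · exact ⟨2, by omega⟩
    · exact ⟨3, by omega⟩
  · show (finRotate (k + 1) _).val = _
    rw [finRotate_succ_apply, Fin.val_add_one]
    split_ifs with h
    · have := congrArg Fin.val h; simp at this; omega
    · simp; omega

variable {F : Type*} [Field F] [Fintype F] {q : ℕ} (hF : Fintype.card F = q ^ 2)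
include hF

theorem diag2_conjN (a : {x : F // x ^ (q + 1) = 1}) : diag2 hF (conjN hF a) = (diag2 hF a)⁻¹ := by
  refine eq_inv_of_mul_eq_one_left ?_
  rw [diag2_mul]
  have h := a.2
  rw [pow_succ] at h
  refine su_two_ext hF ?_ ?_ <;> simp [mulN, conjN, mat, diag2, h]

/-- The identification on `A₄` and the centraliser of the first pair. -/
structure Base (hn : 5 ≤ n) {G : Type*} [Group G] (rho : alternatingGroup (Fin n) →* G)
    (lam : ↥(SU 4 F q) →* G) : Prop where
  cyc : ∀ a, lam (altToSU 4 F q a) = rho (extAlt (e4 hn) a)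
  cent : ∀ z : alternatingGroup (Fin n), z.1 (e4 hn 0) = e4 hn 0 → z.1 (e4 hn 1) = e4 hn 1 →
    ∀ x, Commute (rho z) (lam (emb hF p01 x))

variable {hn : 5 ≤ n} {G : Type*} [Group G] {rho : alternatingGroup (Fin n) →* G}
  {lam : ↥(SU 4 F q) →* G}

/-- The flip on the first pair. -/
theorem flip_pair (cyc : ∀ a, lam (altToSU 4 F q a) = rho (extAlt (e4 hn) a)) (x : ↥(SU 2 F q)) :
    rho (extAlt (e4 hn) flip4) * lam (emb hF p01 x) * (rho (extAlt (e4 hn) flip4))⁻¹ =
      lam (emb hF p01 (emb hF sw2 x)) := by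
  rw [← cyc, ← map_mul, ← map_inv, ← map_mul, altToSU_conj_emb, emb_trans]
  exact congrArg (fun w => lam (emb hF w x)) (Function.Embedding.ext (by decide))

namespace Base

variable (B : Base hF hn rho lam)
include B

theorem conj_eq {σ τ : alternatingGroup (Fin n)} (h0 : σ.1 (e4 hn 0) = τ.1 (e4 hn 0))
    (h1 : σ.1 (e4 hn 1) = τ.1 (e4 hn 1)) (x : ↥(SU 2 F q)) :
    rho σ * lam (emb hF p01 x) * (rho σ)⁻¹ = rho τ * lam (emb hF p01 x) * (rho τ)⁻¹ := by
  have h := B.cent (τ⁻¹ * σ) (by simp [Perm.mul_apply, h0]) (by simp [Perm.mul_apply, h1]) x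
  rw [map_mul, map_inv] at h
  calc rho σ * lam (emb hF p01 x) * (rho σ)⁻¹
      = rho τ * ((rho τ)⁻¹ * rho σ * lam (emb hF p01 x)) * (rho σ)⁻¹ := by group
    _ = _ := by rw [h.eq]; group

/-- The pairs inside the first four points. -/
theorem blk (k : Fin 2 ↪ Fin 4) {μ : alternatingGroup (Fin n)} (h0 : μ.1 (e4 hn 0) = e4 hn (k 0))
    (h1 : μ.1 (e4 hn 1) = e4 hn (k 1)) (x : ↥(SU 2 F q)) :
    lam (emb hF k x) = rho μ * lam (emb hF p01 x) * (rho μ)⁻¹ := by
  obtain ⟨a, a0, a1⟩ := exists_alt_four (k 0) (k 1) (k.injective.ne (by decide))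
  have hk : k = p01.trans a.1.toEmbedding := Function.Embedding.ext fun i => by
    fin_cases i
    · exact a0.symm
    · exact a1.symm
  rw [hk, ← altToSU_conj_emb hF, map_mul, map_mul, map_inv, B.cyc]
  exact B.conj_eq hF (by rw [extAlt_apply, a0, h0]) (by rw [extAlt_apply, a1, h1]) x

/-- The pairs inside the first four points, moved. -/
theorem conj_blk (k : Fin 2 ↪ Fin 4) {σ μ : alternatingGroup (Fin n)}
    (h0 : μ.1 (e4 hn 0) = σ.1 (e4 hn (k 0))) (h1 : μ.1 (e4 hn 1) = σ.1 (e4 hn (k 1))) (x : ↥(SU 2 F q)) :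
    rho σ * lam (emb hF k x) * (rho σ)⁻¹ = rho μ * lam (emb hF p01 x) * (rho μ)⁻¹ := by
  rw [B.blk hF k (μ := σ⁻¹ * μ) (by simp [Perm.mul_apply, h0]) (by simp [Perm.mul_apply, h1]),
    map_mul, map_inv]
  group

/-- The hypotheses of the gluing over `SU₃`. -/
theorem glue : CfsgLib.SUPres77.Glue hF (four_le hn) rho (lam.comp (emb hF t0)) := by
  have hp : w01.trans t0 = p01 := Function.Embedding.ext (by decide)
  have hY : ∀ x, (lam.comp (emb hF t0)) (emb hF w01 x) = lam (emb hF p01 x) := fun x => by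
    rw [MonoidHom.comp_apply, emb_trans, hp]
  refine ⟨fun a => ?_, fun z z0 z1 x => ?_,
    ⟨extAlt (e4 hn) flip4, ?_, ?_, fun x => ?_⟩,
    ⟨extAlt (e4 hn) ⟨swap 0 2 * swap 1 3, Perm.mem_alternatingGroup.2 (by decide)⟩, ?_, ?_, fun x y => ?_⟩⟩
  · rw [MonoidHom.comp_apply, emb_altToSU, B.cyc]
    refine congrArg rho (Subtype.ext (Equiv.ext fun r => ?_))
    have he : ∀ i, CfsgLib.SUPres77.e3 (four_le hn) i = e4 hn (t0 i) := fun i =>
      Fin.ext (by rw [e4_val]; simp [t0, CfsgLib.SUPres77.e3, CfsgLib.SLPres77.pt3, pt])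
    by_cases hr : ∃ i, CfsgLib.SUPres77.e3 (four_le hn) i = r
    · obtain ⟨i, rfl⟩ := hr
      rw [extAlt_apply, he, extAlt_apply, extAlt_apply, he]
    · push Not at hr
      rw [extAlt_other _ a hr]
      by_cases hr' : ∃ j, e4 hn j = r
      · obtain ⟨j, rfl⟩ := hr'
        rw [extAlt_apply, extAlt_other]
        exact fun i hi => hr i (by rw [he, hi])
      · push Not at hr'
        exact extAlt_other _ _ hr'
  · rw [hY]
    exact B.cent z (by rw [← pt_eq_e4 hn]; exact z0) (by rw [← pt_eq_e4 hn]; exact z1) x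
  · rw [pt_eq_e4 hn, pt_eq_e4 hn, extAlt_apply]; rfl
  · rw [pt_eq_e4 hn, pt_eq_e4 hn, extAlt_apply]; rfl
  · rw [hY, hY]; exact flip_pair hF B.cyc x
  · rw [pt_eq_e4 hn, pt_eq_e4 hn, extAlt_apply]; rfl
  · rw [pt_eq_e4 hn, pt_eq_e4 hn, extAlt_apply]; rfl
  · rw [hY, hY, ← B.cyc, ← map_inv, ← map_mul, ← map_mul, altToSU_conj_emb]
    exact (emb_commute hF _ _ (by decide) x y).map lam

/-- Disjoint pairs commute. -/
theorem disjoint {α β : alternatingGroup (Fin n)}
    (h00 : β.1 (e4 hn 0) ≠ α.1 (e4 hn 0)) (h01 : β.1 (e4 hn 0) ≠ α.1 (e4 hn 1))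
    (h10 : β.1 (e4 hn 1) ≠ α.1 (e4 hn 0)) (h11 : β.1 (e4 hn 1) ≠ α.1 (e4 hn 1)) (x y : ↥(SU 2 F q)) :
    Commute (rho α * lam (emb hF p01 x) * (rho α)⁻¹) (rho β * lam (emb hF p01 y) * (rho β)⁻¹) := by
  have h := (B.glue hF).commute_disjoint hF (α := α) (β := β) (by rwa [pt_eq_e4 hn]) (by rwa [pt_eq_e4 hn, pt_eq_e4 hn])
    (by rwa [pt_eq_e4 hn, pt_eq_e4 hn]) (by rwa [pt_eq_e4 hn]) x y
  have hp : w01.trans t0 = p01 := Function.Embedding.ext (by decide)
  simpa only [MonoidHom.comp_apply, emb_trans, hp] using h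

end Base

/-- What the windows need. -/
structure Ext (hn : 5 ≤ n) (rho : alternatingGroup (Fin n) →* G) (lam : ↥(SU 4 F q) →* G) : Prop where
  fix3 : ∀ z : alternatingGroup (Fin n), (∀ i : Fin 3, z.1 (e4 hn (t0 i)) = e4 hn (t0 i)) →
    ∀ x, Commute (rho z) (lam (emb hF t0 x))
  shift : ∀ σ : alternatingGroup (Fin n), (∀ i : Fin 3, σ.1 (e4 hn (t0 i)) = e4 hn (t1 i)) →
    ∀ x, lam (emb hF t1 x) = rho σ * lam (emb hF t0 x) * (rho σ)⁻¹
  far : ∀ ν : alternatingGroup (Fin n), 3 ≤ (ν.1 (e4 hn 0)).val → 3 ≤ (ν.1 (e4 hn 1)).val →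
    ∀ x u, Commute (lam (emb hF t0 x)) (rho ν * lam (emb hF p01 u) * (rho ν)⁻¹)
  six : q = 2 → ∀ κ : alternatingGroup (Fin n), (∀ i : Fin 3, (κ.1 (e4 hn (t0 i))).val = 3 + i.val) →
    ∀ x y, Commute (lam (emb hF t0 x)) (rho κ * lam (emb hF t0 y) * (rho κ)⁻¹)

namespace Ext

variable (B : Base hF hn rho lam) (E : Ext hF hn rho lam)
include E

theorem conj_eq {σ τ : alternatingGroup (Fin n)}
    (h : ∀ i : Fin 3, σ.1 (e4 hn (t0 i)) = τ.1 (e4 hn (t0 i))) (x : ↥(SU 3 F q)) :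
    rho σ * lam (emb hF t0 x) * (rho σ)⁻¹ = rho τ * lam (emb hF t0 x) * (rho τ)⁻¹ := by
  have h := E.fix3 (τ⁻¹ * σ) (fun i => by simp [Perm.mul_apply, h i]) x
  rw [map_mul, map_inv] at h
  calc rho σ * lam (emb hF t0 x) * (rho σ)⁻¹
      = rho τ * ((rho τ)⁻¹ * rho σ * lam (emb hF t0 x)) * (rho σ)⁻¹ := by group
    _ = _ := by rw [h.eq]; group

include B

/-- The windows and the homomorphism. -/
theorem exists_lift : ∃ Φ : ↥(SU n F q) →* G,
    Φ.comp (altToSU n F q) = rho ∧ Φ.comp (emb hF (e4 hn)) = lam := by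
  classical
  have hτex : ∀ a, ∃ τ : alternatingGroup (Fin n), a + 3 ≤ n →
      ∀ i : Fin 3, (τ.1 (e4 hn (t0 i))).val = a + i.val := by
    intro a
    by_cases ha : a + 3 ≤ n
    · obtain ⟨τ, hτ⟩ := exists_shift hn ha (Or.inl (by omega))
      refine ⟨τ, fun _ i => ?_⟩
      rw [show e4 hn (t0 i) = win 0 (show 0 + 3 ≤ n by omega) i from
        Fin.ext (by rw [e4_val]; simp [t0]), hτ i]
      simp
    · exact ⟨1, fun h => absurd h ha⟩
  choose τ hτ using hτex
  let V : ℕ → ↥(SU 3 F q) →* G := fun a =>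
    (MulAut.conj (rho (τ a))).toMonoidHom.comp (lam.comp (emb hF t0))
  have hVap : ∀ a x, V a x = rho (τ a) * lam (emb hF t0 x) * (rho (τ a))⁻¹ := fun a x => rfl
  have hVeq : ∀ a, a + 3 ≤ n → ∀ σ : alternatingGroup (Fin n),
      (∀ i : Fin 3, (σ.1 (e4 hn (t0 i))).val = a + i.val) → ∀ x,
      rho σ * lam (emb hF t0 x) * (rho σ)⁻¹ = V a x := fun a ha σ hσ x => by
    rw [hVap]
    exact E.conj_eq hF (fun i => Fin.ext (by rw [hσ i, hτ a ha i])) x
  obtain ⟨s, hs⟩ : ∃ s : alternatingGroup (Fin n),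
      ∀ i : Fin 3, s.1 (e4 hn (t0 i)) = e4 hn (t1 i) :=
    exists_alt_inj (show 3 + 2 ≤ n by omega) (t0.trans (e4 hn)) (t1.trans (e4 hn))
  have hWex : ∀ a, a + 4 ≤ n → ∃ W : ↥(SU 4 F q) →* G,
      (∀ x, W (emb hF t0 x) = V a x) ∧ ∀ x, W (emb hF t1 x) = V (a + 1) x := by
    intro a ha
    obtain ⟨σ, hσ⟩ := exists_shift hn ha (Or.inr (Or.inl rfl))
    have hσ' : ∀ i : Fin 4, (σ.1 (e4 hn i)).val = a + i.val := fun i => by
      rw [show e4 hn i = win 0 (show 0 + 4 ≤ n by omega) i from Fin.ext (by rw [e4_val]; simp), hσ i]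
      simp
    refine ⟨(MulAut.conj (rho σ)).toMonoidHom.comp lam, fun x => ?_, fun x => ?_⟩
    · exact hVeq a (by omega) σ (fun i => by rw [hσ']; simp [t0]) x
    · show rho σ * lam (emb hF t1 x) * (rho σ)⁻¹ = _
      rw [E.shift s hs x, show rho σ * (rho s * lam (emb hF t0 x) * (rho s)⁻¹) * (rho σ)⁻¹ =
        rho (σ * s) * lam (emb hF t0 x) * (rho (σ * s))⁻¹ by rw [map_mul]; group]
      exact hVeq (a + 1) (by omega) _ (fun i => by
        rw [Subgroup.coe_mul, Perm.mul_apply, hs i, hσ']; simp [t1]; omega) x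
  let D : Windows hF n G :=
    { V := V
      hW := fun a ha => by
        obtain ⟨W, h0, h1⟩ := hWex a ha
        exact ⟨W, MonoidHom.ext h0, MonoidHom.ext h1⟩
      hU := fun a b hb hab x u => by
        obtain ⟨μ, hμ0, hμ1⟩ := exists_alt_two (four_le hn)
          (i := (τ b).1 (e4 hn (t0 1))) (j := (τ b).1 (e4 hn (t0 2)))
          ((τ b).1.injective.ne ((e4 hn).injective.ne (t0.injective.ne (by decide))))
        rw [pt_eq_e4 hn] at hμ0 hμ1
        have e1 : V b (emb hF (win 1 (show 1 + 2 ≤ 3 by omega)) u) =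
            rho μ * lam (emb hF p01 u) * (rho μ)⁻¹ := by
          rw [hVap, emb_trans]
          exact B.conj_blk hF _ (by rw [hμ0]; rfl) (by rw [hμ1]; rfl) u
        have hout : ∀ (i : Fin n), a + 3 ≤ i.val → 3 ≤ ((τ a)⁻¹.1 i).val := by
          intro i hi
          by_contra hlt
          set j : Fin 3 := ⟨((τ a)⁻¹.1 i).val, by omega⟩ with hj
          have e : e4 hn (t0 j) = (τ a)⁻¹.1 i := Fin.ext (by rw [e4_val]; simp [t0, hj])
          have h2 := hτ a (by omega) j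
          rw [e, Subgroup.coe_inv, Perm.inv_def, Equiv.apply_symm_apply] at h2
          have := j.isLt
          omega
        have h := E.far ((τ a)⁻¹ * μ)
          (by rw [Subgroup.coe_mul, Perm.mul_apply, hμ0]; exact hout _ (by
            rw [hτ b hb 1]; simp; omega))
          (by rw [Subgroup.coe_mul, Perm.mul_apply, hμ1]; exact hout _ (by
            rw [hτ b hb 2]; simp; omega)) x u
        rw [e1, hVap]
        have h' := h.map (MulAut.conj (rho (τ a))).toMonoidHom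
        simp only [MulEquiv.toMonoidHom_eq_coe, MonoidHom.coe_coe, MulAut.conj_apply, map_mul,
          map_inv] at h'
        convert h' using 1
        group
      h6 := fun hq2 a ha x y => by
        obtain ⟨σ, hσ⟩ := exists_shift hn ha (Or.inr (Or.inr rfl))
        obtain ⟨κ, hκ⟩ : ∃ κ : alternatingGroup (Fin n), ∀ i : Fin 3,
            κ.1 (e4 hn (t0 i)) = win 3 (show 3 + 3 ≤ n by omega) i :=
          exists_alt_inj (show 3 + 2 ≤ n by omega) (t0.trans (e4 hn)) (win 3 (show 3 + 3 ≤ n by omega))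
        have hσ6 : ∀ (i : Fin n), i.val < 6 → (σ.1 i).val = a + i.val := fun i hi => by
          rw [show i = win 0 (show 0 + 6 ≤ n by omega) ⟨i.val, hi⟩ from Fin.ext (by simp), hσ]
          simp
        rw [← hVeq a (by omega) σ (fun i => by
            rw [hσ6 _ (by rw [e4_val]; simp [t0]; omega), e4_val]; simp [t0]) x,
          ← hVeq (a + 3) (by omega) (σ * κ) (fun i => by
            rw [Subgroup.coe_mul, Perm.mul_apply, hκ i, hσ6 _ (by simp; omega)]; simp; omega) y]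
        have h := (E.six hq2 κ (fun i => by rw [hκ i]; simp) x y).map (MulAut.conj (rho σ)).toMonoidHom
        simp only [MulEquiv.toMonoidHom_eq_coe, MonoidHom.coe_coe, MulAut.conj_apply] at h
        convert h using 1
        rw [map_mul]; group }
  obtain ⟨Φ, hΦ⟩ := exists_hom hF D (by omega)
  have hlam : Φ.comp (emb hF (e4 hn)) = lam := by
    refine hom_ext_windows hF (by omega) fun b hb x => ?_
    rw [MonoidHom.comp_apply, emb_trans, e4, win_trans, hΦ _ (by omega)]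
    obtain rfl | rfl : b = 0 ∨ b = 1 := by omega
    · show V (0 + 0) x = _
      rw [← hVeq 0 (by omega) 1 (fun i => by rw [Subgroup.coe_one, Perm.one_apply, e4_val]; simp [t0]) x]
      simp [t0]
    · show V (0 + 1) x = _
      rw [← hVeq 1 (by omega) s (fun i => by rw [hs i, e4_val]; simp [t1]) x, ← E.shift s hs x]
      rfl
  refine ⟨Φ, ?_, hlam⟩
  let K : Subgroup (alternatingGroup (Fin n)) := (Φ.comp (altToSU n F q)).eqLocus rho
  have hcyc : ∀ b (hb : b + 3 ≤ n), extAlt (win b hb) cyc3 ∈ K := fun b hb => by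
    show Φ (altToSU n F q _) = rho _
    rw [← emb_altToSU hF, hΦ b hb]
    show V b _ = _
    rw [hVap, emb_altToSU, B.cyc, ← map_inv, ← map_mul, ← map_mul]
    refine congrArg rho (Subtype.ext (Equiv.ext fun r => ?_))
    simp only [Subgroup.coe_mul, Subgroup.coe_inv, Perm.mul_apply]
    have hwin : ∀ i : Fin 3, (τ b).1 (e4 hn (t0 i)) = win b hb i := fun i =>
      Fin.ext (by rw [hτ b hb i]; simp)
    by_cases hr : ∃ i, win b hb i = r
    · obtain ⟨i, rfl⟩ := hr
      rw [extAlt_apply, ← hwin i, Perm.inv_def, Equiv.symm_apply_apply, extAlt_apply, extAlt_apply, hwin]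
    · push Not at hr
      rw [extAlt_other _ cyc3 hr]
      have hr' : ∀ i, e4 hn (t0 i) ≠ (τ b).1⁻¹ r := fun i e => hr i (by
        rw [← hwin i, e, Perm.inv_def, Equiv.apply_symm_apply])
      by_cases hr2 : ∃ j, e4 hn j = (τ b).1⁻¹ r
      · obtain ⟨j, hj⟩ := hr2
        rw [← hj, extAlt_apply, extAlt_other _ cyc3 (fun i e => hr' i (by rw [e, hj])), hj,
          Perm.inv_def, Equiv.apply_symm_apply]
      · push Not at hr2
        rw [extAlt_other _ _ hr2, Perm.inv_def, Equiv.apply_symm_apply]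
  exact MonoidHom.ext fun z =>
    (CfsgLib.SUPres77.top_of_consecutive (show 3 ≤ n by omega) K hcyc ▸ Subgroup.mem_top z : z ∈ K)

end Ext

/-- The conclusions on elements of a set generating `SU₃` together with the blocks give `Ext`. -/
structure OnSet (hn : 5 ≤ n) (rho : alternatingGroup (Fin n) →* G) (lam : ↥(SU 4 F q) →* G)
    (X : Set ↥(SU 3 F q)) : Prop where
  gen : ∀ K : Subgroup ↥(SU 3 F q), (emb hF w01).range ≤ K → (emb hF w12).range ≤ K → X ⊆ K → K = ⊤
  fix3 : ∀ z : alternatingGroup (Fin n), (∀ i : Fin 3, z.1 (e4 hn (t0 i)) = e4 hn (t0 i)) →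
    ∀ x ∈ X, Commute (rho z) (lam (emb hF t0 x))
  shift : ∀ σ : alternatingGroup (Fin n), (∀ i : Fin 3, σ.1 (e4 hn (t0 i)) = e4 hn (t1 i)) →
    ∀ x ∈ X, lam (emb hF t1 x) = rho σ * lam (emb hF t0 x) * (rho σ)⁻¹
  far : ∀ ν : alternatingGroup (Fin n), 3 ≤ (ν.1 (e4 hn 0)).val → 3 ≤ (ν.1 (e4 hn 1)).val →
    ∀ x ∈ X, ∀ u, Commute (lam (emb hF t0 x)) (rho ν * lam (emb hF p01 u) * (rho ν)⁻¹)

namespace OnSet

variable {X : Set ↥(SU 3 F q)} (B : Base hF hn rho lam) (O : OnSet hF hn rho lam X)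
include B O

theorem fix3_all (z : alternatingGroup (Fin n)) (hz : ∀ i : Fin 3, z.1 (e4 hn (t0 i)) = e4 hn (t0 i))
    (x : ↥(SU 3 F q)) : Commute (rho z) (lam (emb hF t0 x)) := by
  have hb : ∀ (k : Fin 2 ↪ Fin 3) (u : ↥(SU 2 F q)), Commute (rho z) (lam (emb hF t0 (emb hF k u))) := by
    intro k u
    rw [emb_trans]
    obtain ⟨μ, m0, m1⟩ := exists_alt_two (four_le hn)
      ((e4 hn).injective.ne ((k.trans t0).injective.ne (show (0 : Fin 2) ≠ 1 by decide)))
    rw [pt_eq_e4 hn] at m0 m1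
    show rho z * _ = _ * rho z
    rw [← mul_inv_eq_iff_eq_mul, B.conj_blk hF (k.trans t0) (μ := μ) (by rw [m0]; exact (hz _).symm)
      (by rw [m1]; exact (hz _).symm) u, B.blk hF (k.trans t0) m0 m1 u]
  have h := O.gen ((Subgroup.centralizer {rho z}).comap (lam.comp (emb hF t0)))
    (by rintro _ ⟨u, rfl⟩; exact Subgroup.mem_centralizer_singleton_iff.2 (hb w01 u).symm.eq)
    (by rintro _ ⟨u, rfl⟩; exact Subgroup.mem_centralizer_singleton_iff.2 (hb w12 u).symm.eq)
    (fun x hx => Subgroup.mem_centralizer_singleton_iff.2 (O.fix3 z hz x hx).symm.eq)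
  have hx := Subgroup.mem_top x
  rw [← h] at hx
  exact (Subgroup.mem_centralizer_singleton_iff.1 hx :
    lam (emb hF t0 x) * rho z = rho z * lam (emb hF t0 x)).symm

theorem shift_all (σ : alternatingGroup (Fin n))
    (hσ : ∀ i : Fin 3, σ.1 (e4 hn (t0 i)) = e4 hn (t1 i)) (x : ↥(SU 3 F q)) :
    lam (emb hF t1 x) = rho σ * lam (emb hF t0 x) * (rho σ)⁻¹ := by
  let f : ↥(SU 3 F q) →* G := lam.comp (emb hF t1)
  let g : ↥(SU 3 F q) →* G := (MulAut.conj (rho σ)).toMonoidHom.comp (lam.comp (emb hF t0))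
  have hb : ∀ (k : Fin 2 ↪ Fin 3) (u : ↥(SU 2 F q)), f (emb hF k u) = g (emb hF k u) := by
    intro k u
    show lam (emb hF t1 (emb hF k u)) = rho σ * lam (emb hF t0 (emb hF k u)) * (rho σ)⁻¹
    rw [emb_trans, emb_trans]
    obtain ⟨μ, m0, m1⟩ := exists_alt_two (four_le hn)
      ((e4 hn).injective.ne ((k.trans t1).injective.ne (show (0 : Fin 2) ≠ 1 by decide)))
    rw [pt_eq_e4 hn] at m0 m1
    rw [B.blk hF _ m0 m1 u]
    exact (B.conj_blk hF (k.trans t0) (m0.trans (hσ (k 0)).symm) (m1.trans (hσ (k 1)).symm) u).symm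
  have h := O.gen (f.eqLocus g) (by rintro _ ⟨u, rfl⟩; exact hb w01 u)
    (by rintro _ ⟨u, rfl⟩; exact hb w12 u) (fun x hx => O.shift σ hσ x hx)
  exact (h ▸ Subgroup.mem_top x : x ∈ f.eqLocus g)

theorem far_all (ν : alternatingGroup (Fin n)) (h0 : 3 ≤ (ν.1 (e4 hn 0)).val)
    (h1 : 3 ≤ (ν.1 (e4 hn 1)).val) (x : ↥(SU 3 F q)) (u : ↥(SU 2 F q)) :
    Commute (lam (emb hF t0 x)) (rho ν * lam (emb hF p01 u) * (rho ν)⁻¹) := by
  have hb : ∀ (k : Fin 2 ↪ Fin 3) (v : ↥(SU 2 F q)),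
      Commute (lam (emb hF t0 (emb hF k v))) (rho ν * lam (emb hF p01 u) * (rho ν)⁻¹) := by
    intro k v
    rw [emb_trans]
    obtain ⟨μ, m0, m1⟩ := exists_alt_two (four_le hn)
      ((e4 hn).injective.ne ((k.trans t0).injective.ne (show (0 : Fin 2) ≠ 1 by decide)))
    rw [pt_eq_e4 hn] at m0 m1
    rw [B.blk hF _ m0 m1 v]
    have hlow : ∀ i : Fin 3, (e4 hn (t0 i)).val < 3 := fun i => by rw [e4_val]; simp [t0]
    refine B.disjoint hF ?_ ?_ ?_ ?_ v u <;> rw [ne_eq, Fin.ext_iff] <;>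
      first
        | (rw [m0]; have := hlow (k 0); simp only [Function.Embedding.trans_apply] at *; omega)
        | (rw [m1]; have := hlow (k 1); simp only [Function.Embedding.trans_apply] at *; omega)
  have h := O.gen ((Subgroup.centralizer {rho ν * lam (emb hF p01 u) * (rho ν)⁻¹}).comap
      (lam.comp (emb hF t0)))
    (by rintro _ ⟨v, rfl⟩; exact Subgroup.mem_centralizer_singleton_iff.2 (hb w01 v).eq)
    (by rintro _ ⟨v, rfl⟩; exact Subgroup.mem_centralizer_singleton_iff.2 (hb w12 v).eq)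
    (fun x hx => Subgroup.mem_centralizer_singleton_iff.2 (O.far ν h0 h1 x hx u).eq)
  have hx := Subgroup.mem_top x
  rw [← h] at hx
  exact Subgroup.mem_centralizer_singleton_iff.1 hx

theorem to_ext (six : q = 2 → ∀ κ : alternatingGroup (Fin n),
      (∀ i : Fin 3, (κ.1 (e4 hn (t0 i))).val = 3 + i.val) →
      ∀ x y, Commute (lam (emb hF t0 x)) (rho κ * lam (emb hF t0 y) * (rho κ)⁻¹)) :
    Ext hF hn rho lam :=
  ⟨O.fix3_all hF B, O.shift_all hF B, O.far_all hF B, six⟩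

end OnSet

/-- For `q ≥ 3` nothing more is needed. -/
theorem ext_large (hq : 3 ≤ q) (B : Base hF hn rho lam) : Ext hF hn rho lam :=
  OnSet.to_ext hF B (X := ∅) ⟨fun K h1 h2 _ => blocks_generate_three hF hq K h1 h2, by simp, by simp,
    by simp⟩ (fun h => by omega)

/-- For `q = 2`: one element, commuting as it should. -/
theorem ext_two (B : Base hF hn rho lam) (ω : {x : F // x ^ (q + 1) = 1}) (g : ↥(SU 3 F q))
    (hgen : ∀ H : Subgroup ↥(SU 3 F q), (emb hF w01).range ≤ H → (emb hF w12).range ≤ H → g ∈ H →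
      twist hF ![ω, oneN, oneN] (RingEquiv.refl F) g ∈ H → H = ⊤)
    (hstab : ∀ z : alternatingGroup (Fin n), (∀ i : Fin 3, z.1 (e4 hn (t0 i)) = e4 hn (t0 i)) →
      Commute (rho z) (lam (emb hF t0 g)))
    (hshift : ∃ σ : alternatingGroup (Fin n), (∀ i : Fin 3, σ.1 (e4 hn (t0 i)) = e4 hn (t1 i)) ∧
      lam (emb hF t1 g) = rho σ * lam (emb hF t0 g) * (rho σ)⁻¹)
    (hfar : ∃ ν : alternatingGroup (Fin n), (ν.1 (e4 hn 0)).val = 3 ∧ (ν.1 (e4 hn 1)).val = 4 ∧
      ∀ u, Commute (lam (emb hF t0 g)) (rho ν * lam (emb hF p01 u) * (rho ν)⁻¹))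
    (hsix : 6 ≤ n → ∃ κ : alternatingGroup (Fin n), (∀ i : Fin 3, (κ.1 (e4 hn (t0 i))).val = 3 + i.val) ∧
      ∀ x ∈ ({g, twist hF ![ω, oneN, oneN] (RingEquiv.refl F) g} : Set ↥(SU 3 F q)),
        Commute (lam (emb hF t0 x)) (rho κ * lam (emb hF t0 g) * (rho κ)⁻¹)) :
    Ext hF hn rho lam := by
  classical
  set g' := twist hF ![ω, oneN, oneN] (RingEquiv.refl F) g with hg'
  have hlow : ∀ i : Fin n, i.val < 3 → ∃ j : Fin 3, e4 hn (t0 j) = i := fun i hi =>
    ⟨⟨i.val, hi⟩, Fin.ext (by rw [e4_val]; simp [t0])⟩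
  have hhigh : ∀ {z : alternatingGroup (Fin n)}, (∀ i : Fin 3, z.1 (e4 hn (t0 i)) = e4 hn (t0 i)) →
      ∀ p : Fin n, 3 ≤ p.val → 3 ≤ (z.1 p).val := by
    intro z hz p hp
    by_contra h
    obtain ⟨j, hj⟩ := hlow (z.1 p) (by omega)
    rw [← hz j] at hj
    have := congrArg Fin.val (z.1.injective hj)
    simp [t0, e4_val] at this
    omega
  -- the extra element against every pair outside the first three points
  have farg : ∀ ν : alternatingGroup (Fin n), 3 ≤ (ν.1 (e4 hn 0)).val → 3 ≤ (ν.1 (e4 hn 1)).val →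
      ∀ u, Commute (lam (emb hF t0 g)) (rho ν * lam (emb hF p01 u) * (rho ν)⁻¹) := by
    intro ν h0 h1 u
    obtain ⟨ν', n0, n1, hν'⟩ := hfar
    have hne : ν.1 (e4 hn 0) ≠ ν.1 (e4 hn 1) := ν.1.injective.ne ((e4 hn).injective.ne (by decide))
    obtain ⟨σ, hσ⟩ := exists_perm_map (fun i : Fin 5 => Fin.castLE (show 5 ≤ n by omega) i)
      ![e4 hn 0, e4 hn 1, e4 hn 2, ν.1 (e4 hn 0), ν.1 (e4 hn 1)]
      (Fin.castLE_injective (show 5 ≤ n by omega)) (by
        intro i j h
        fin_cases i <;> fin_cases j <;>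
          first | rfl | (exfalso; simp [Fin.ext_iff, e4_val] at h hne <;> omega))
    have hσlow : ∀ i : Fin 3, σ (e4 hn (t0 i)) = e4 hn (t0 i) := fun i => by
      have h := hσ (Fin.castLE (by omega) i)
      rw [show Fin.castLE (show 5 ≤ n by omega) (Fin.castLE (show 3 ≤ 5 by omega) i) = e4 hn (t0 i) from
        Fin.ext (by rw [e4_val]; simp [t0])] at h
      rw [h]
      fin_cases i <;> rfl
    have e3 : ν'.1 (e4 hn 0) = Fin.castLE (show 5 ≤ n by omega) 3 := Fin.ext (by rw [n0]; rfl)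
    have e4' : ν'.1 (e4 hn 1) = Fin.castLE (show 5 ≤ n by omega) 4 := Fin.ext (by rw [n1]; rfl)
    have key : ∀ z : alternatingGroup (Fin n), (∀ i : Fin 3, z.1 (e4 hn (t0 i)) = e4 hn (t0 i)) →
        ∀ v, Commute (lam (emb hF t0 g)) (rho (z * ν') * lam (emb hF p01 v) * (rho (z * ν'))⁻¹) := by
      intro z hz v
      have h := (hν' v).map (MulAut.conj (rho z)).toMonoidHom
      simp only [MulEquiv.toMonoidHom_eq_coe, MonoidHom.coe_coe, MulAut.conj_apply,
        mul_inv_eq_iff_eq_mul.2 (hstab z hz).eq] at h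
      convert h using 1
      rw [map_mul]; group
    rcases Int.units_eq_one_or (Perm.sign σ) with hs | hs
    · have h := key ⟨σ, hs⟩ hσlow u
      rwa [B.conj_eq hF (τ := ν) (by rw [Subgroup.coe_mul, Perm.mul_apply, e3]; exact hσ 3)
        (by rw [Subgroup.coe_mul, Perm.mul_apply, e4']; exact hσ 4)] at h
    · have h34 : Fin.castLE (show 5 ≤ n by omega) 3 ≠ Fin.castLE (show 5 ≤ n by omega) 4 :=
        (Fin.castLE_injective (show 5 ≤ n by omega)).ne (by decide)
      let z : alternatingGroup (Fin n) :=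
        ⟨σ * swap (Fin.castLE (show 5 ≤ n by omega) 3) (Fin.castLE (show 5 ≤ n by omega) 4), by
          rw [Perm.mem_alternatingGroup, map_mul, hs, Perm.sign_swap h34]; rfl⟩
      have hz : ∀ i : Fin 3, z.1 (e4 hn (t0 i)) = e4 hn (t0 i) := fun i => by
        show σ (swap _ _ _) = _
        rw [swap_apply_of_ne_of_ne, hσlow i] <;>
          (intro e; have := congrArg Fin.val e; simp [e4_val, t0] at this; omega)
      have h := key z hz (emb hF sw2 u)
      rw [← flip_pair hF B.cyc u, show ∀ a b c : G, a * (b * c * b⁻¹) * a⁻¹ = a * b * c * (a * b)⁻¹ from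
        fun a b c => by group, ← map_mul,
        B.conj_eq hF (τ := ν)
          (by
            rw [Subgroup.coe_mul, Subgroup.coe_mul, Perm.mul_apply, Perm.mul_apply, extAlt_apply,
              show (flip4.1 0 : Fin 4) = 1 from rfl, e4']
            show σ (swap _ _ _) = _
            rw [swap_apply_right]; exact hσ 3)
          (by
            rw [Subgroup.coe_mul, Subgroup.coe_mul, Perm.mul_apply, Perm.mul_apply, extAlt_apply,
              show (flip4.1 1 : Fin 4) = 0 from rfl, e3]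
            show σ (swap _ _ _) = _
            rw [swap_apply_left]; exact hσ 4)] at h
      exact h
  -- the twisted element is the conjugate by any diagonal element from the first point outwards
  have hDp : ∀ μ : alternatingGroup (Fin n), μ.1 (e4 hn 0) = e4 hn 0 → 3 ≤ (μ.1 (e4 hn 1)).val →
      lam (emb hF t0 g') = rho μ * lam (emb hF p01 (diag2 hF ω)) * (rho μ)⁻¹ * lam (emb hF t0 g) *
        (rho μ * lam (emb hF p01 (diag2 hF ω)) * (rho μ)⁻¹)⁻¹ := by
    have h3 : ∀ μ : alternatingGroup (Fin n), μ.1 (e4 hn 0) = e4 hn 0 → μ.1 (e4 hn 1) = e4 hn 3 →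
        lam (emb hF t0 g') = rho μ * lam (emb hF p01 (diag2 hF ω)) * (rho μ)⁻¹ * lam (emb hF t0 g) *
          (rho μ * lam (emb hF p01 (diag2 hF ω)) * (rho μ)⁻¹)⁻¹ := by
      intro μ m0 m1
      rw [hg', t0, emb_twist_win hF ω g, map_mul, map_mul, map_inv,
        B.blk hF (two (0 : Fin 4) 3 (by decide)) m0 m1]
    intro μ m0 m1
    by_cases hp : μ.1 (e4 hn 1) = e4 hn 3
    · exact h3 μ m0 hp
    obtain ⟨σ, hσ⟩ : ∃ σ : alternatingGroup (Fin n),
        ∀ i : Fin 3, σ.1 (e4 hn (t0 i)) = ![e4 hn 0, e4 hn 3, μ.1 (e4 hn 1)] i :=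
      exists_alt_inj (show 3 + 2 ≤ n by omega) (t0.trans (e4 hn)) ⟨![e4 hn 0, e4 hn 3, μ.1 (e4 hn 1)], by
        intro i j h
        fin_cases i <;> fin_cases j <;>
          first | rfl | (exfalso; simp [Fin.ext_iff, e4_val] at h hp <;> omega)⟩
    obtain ⟨μ3, a0, a1⟩ := exists_alt_two (four_le hn)
      ((e4 hn).injective.ne (show (0 : Fin 4) ≠ 3 by decide))
    rw [pt_eq_e4 hn] at a0 a1
    obtain ⟨ν, b0, b1⟩ := exists_alt_two (four_le hn) (i := e4 hn 3) (j := μ.1 (e4 hn 1))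
      (fun e => hp e.symm)
    rw [pt_eq_e4 hn] at b0 b1
    have hc := congrArg (fun y => rho σ * lam y * (rho σ)⁻¹)
      (emb_diag2_chain hF (show (0 : Fin 4) ≠ 1 by decide) (show (1 : Fin 4) ≠ 2 by decide)
        (show (0 : Fin 4) ≠ 2 by decide) ω)
    simp only [map_mul] at hc
    rw [show ∀ a b c : G, a * (b * c) * a⁻¹ = a * b * a⁻¹ * (a * c * a⁻¹) from fun a b c => by group,
      B.conj_blk hF (two (0 : Fin 4) 2 (by decide)) (μ := μ) (m0.trans (hσ 0).symm) (hσ 2).symm,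
      B.conj_blk hF (two (0 : Fin 4) 1 (by decide)) (μ := μ3) (a0.trans (hσ 0).symm)
        (a1.trans (hσ 1).symm),
      B.conj_blk hF (two (1 : Fin 4) 2 (by decide)) (μ := ν) (b0.trans (hσ 1).symm)
        (b1.trans (hσ 2).symm)] at hc
    have hfix := farg ν (by rw [b0, e4_val]; norm_num) (by rw [b1]; exact m1) (diag2 hF ω)
    rw [hc, h3 μ3 a0 a1]
    set X := rho μ3 * lam (emb hF p01 (diag2 hF ω)) * (rho μ3)⁻¹
    set Y := rho ν * lam (emb hF p01 (diag2 hF ω)) * (rho ν)⁻¹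
    calc X * lam (emb hF t0 g) * X⁻¹ = X * (lam (emb hF t0 g) * Y) * Y⁻¹ * X⁻¹ := by group
      _ = X * Y * lam (emb hF t0 g) * (X * Y)⁻¹ := by rw [hfix.eq]; group
  have hμ : ∀ p : Fin n, 3 ≤ p.val → ∃ μ : alternatingGroup (Fin n),
      μ.1 (e4 hn 0) = e4 hn 0 ∧ μ.1 (e4 hn 1) = p := fun p hp => by
    obtain ⟨μ, h0, h1⟩ := exists_alt_two (four_le hn) (i := e4 hn 0) (j := p) (fun e => by
      rw [← e, e4_val] at hp; simp at hp)
    rw [pt_eq_e4 hn] at h0 h1
    exact ⟨μ, h0, h1⟩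
  have O : OnSet hF hn rho lam {g, g'} := by
    refine ⟨fun K h1 h2 hX => hgen K h1 h2 (hX (Or.inl rfl)) (hX (Or.inr rfl)), ?_, ?_, ?_⟩
    · rintro z hz x (rfl | rfl)
      · exact hstab z hz
      · obtain ⟨μ, m0, m1⟩ := hμ (e4 hn 3) (by rw [e4_val]; norm_num)
        show rho z * _ = _ * rho z
        rw [← mul_inv_eq_iff_eq_mul]
        conv_rhs => rw [hDp (z * μ) (by rw [Subgroup.coe_mul, Perm.mul_apply, m0]; exact hz 0)
          (by rw [Subgroup.coe_mul, Perm.mul_apply, m1]; exact hhigh hz _ (by rw [e4_val]; norm_num))]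
        rw [hDp μ m0 (by rw [m1, e4_val]; norm_num)]
        have hs := (hstab z hz).eq
        set Z := rho z with hZ
        calc Z * (rho μ * lam (emb hF p01 (diag2 hF ω)) * (rho μ)⁻¹ * lam (emb hF t0 g) *
              (rho μ * lam (emb hF p01 (diag2 hF ω)) * (rho μ)⁻¹)⁻¹) * Z⁻¹
            = Z * (rho μ * lam (emb hF p01 (diag2 hF ω)) * (rho μ)⁻¹) * Z⁻¹ *
                (Z * lam (emb hF t0 g) * Z⁻¹) *
                (Z * (rho μ * lam (emb hF p01 (diag2 hF ω)) * (rho μ)⁻¹) * Z⁻¹)⁻¹ := by group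
          _ = _ := by rw [mul_inv_eq_iff_eq_mul.2 hs, map_mul, ← hZ]; group
    · rintro σ hσ x hx
      obtain ⟨σ0, hσ0, he0⟩ := hshift
      have hgs : lam (emb hF t1 g) = rho σ * lam (emb hF t0 g) * (rho σ)⁻¹ := by
        rw [he0]
        have h := (hstab (σ⁻¹ * σ0) (fun i => by simp [Perm.mul_apply, hσ0 i, ← hσ i])).eq
        rw [map_mul, map_inv] at h
        calc rho σ0 * lam (emb hF t0 g) * (rho σ0)⁻¹
            = rho σ * ((rho σ)⁻¹ * rho σ0 * lam (emb hF t0 g)) * (rho σ0)⁻¹ := by group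
          _ = _ := by rw [h]; group
      rcases hx with rfl | rfl
      · exact hgs
      · set p := σ.1⁻¹ (e4 hn 0) with hp
        have hp3 : 3 ≤ p.val := by
          by_contra h
          obtain ⟨j, hj⟩ := hlow p (by omega)
          have h2 := hσ j
          rw [hj, hp, Perm.inv_def, Equiv.apply_symm_apply] at h2
          have := (e4 hn).injective h2
          revert this
          fin_cases j <;> decide
        obtain ⟨μ, m0, m1⟩ := hμ p hp3
        rw [hDp μ m0 (by rw [m1]; exact hp3)]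
        have h1 : emb hF t1 g' = emb hF (two (1 : Fin 4) 0 (by decide)) (diag2 hF ω) * emb hF t1 g *
            (emb hF (two (1 : Fin 4) 0 (by decide)) (diag2 hF ω))⁻¹ := by
          rw [conj_eq_twist hF _ _ (mat_emb_diag2 hF _ ω), twist_emb, hg']
          refine congrArg _ (congrArg (fun d => twist hF d (RingEquiv.refl F) g) (funext fun i => ?_))
          fin_cases i <;> rfl
        rw [h1, map_mul, map_mul, map_inv, hgs,
          B.blk hF (two (1 : Fin 4) 0 (by decide)) (μ := σ * μ)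
            (by rw [Subgroup.coe_mul, Perm.mul_apply, m0]; exact hσ 0)
            (by rw [Subgroup.coe_mul, Perm.mul_apply, m1, hp, Perm.inv_def, Equiv.apply_symm_apply]; rfl),
          map_mul]
        group
    · rintro ν h0 h1 x (rfl | rfl) u
      · exact farg ν h0 h1 u
      · have hne : ν.1 (e4 hn 0) ≠ ν.1 (e4 hn 1) := ν.1.injective.ne ((e4 hn).injective.ne (by decide))
        obtain ⟨μ, m0, m1⟩ := hμ (ν.1 (e4 hn 0)) h0
        obtain ⟨σ, hσ⟩ : ∃ σ : alternatingGroup (Fin n),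
            ∀ i : Fin 3, σ.1 (e4 hn (t0 i)) = ![e4 hn 0, ν.1 (e4 hn 0), ν.1 (e4 hn 1)] i :=
          exists_alt_inj (show 3 + 2 ≤ n by omega) (t0.trans (e4 hn))
            ⟨![e4 hn 0, ν.1 (e4 hn 0), ν.1 (e4 hn 1)], by
              intro i j h
              fin_cases i <;> fin_cases j <;>
                first | rfl | (exfalso; simp [Fin.ext_iff, e4_val] at h hne <;> omega)⟩
        obtain ⟨v, hv⟩ := conj_next hF (conjN hF ω) u
        have hinv : diag2 hF (conjN hF ω) = (diag2 hF ω)⁻¹ := diag2_conjN hF ω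
        have h := congrArg (fun y => rho σ * lam y * (rho σ)⁻¹) hv
        simp only [hinv, map_mul, map_inv, inv_inv] at h
        have hA := B.conj_blk hF (two (0 : Fin 4) 1 (by decide)) (μ := μ) (m0.trans (hσ 0).symm)
          (m1.trans (hσ 1).symm) (diag2 hF ω)
        have hB := fun w => B.conj_blk hF (two (1 : Fin 4) 2 (by decide)) (μ := ν) (hσ 1).symm
          (hσ 2).symm w
        rw [hDp μ m0 (by rw [m1]; exact h0)]
        set D := rho μ * lam (emb hF p01 (diag2 hF ω)) * (rho μ)⁻¹ with hD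
        have h' : D⁻¹ * (rho ν * lam (emb hF p01 u) * (rho ν)⁻¹) * D =
            rho ν * lam (emb hF p01 v) * (rho ν)⁻¹ := by
          rw [← hB v, ← h, ← hA, ← hB u]
          group
        have hc := (farg ν h0 h1 v).map (MulAut.conj D).toMonoidHom
        simp only [MulEquiv.toMonoidHom_eq_coe, MonoidHom.coe_coe, MulAut.conj_apply, ← h'] at hc
        convert hc using 1
        group
  refine OnSet.to_ext hF B O fun _ κ hκ => ?_
  have hn6 : 6 ≤ n := by
    have := hκ 2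
    have := (κ.1 (e4 hn (t0 2))).isLt
    omega
  obtain ⟨κ0, hκ0, h6⟩ := hsix hn6
  have hκhigh : ∀ i : Fin 3, 3 ≤ (κ0.1 (e4 hn (t0 i))).val := fun i => by rw [hκ0 i]; omega
  have hconjeq : ∀ y, rho κ * lam (emb hF t0 y) * (rho κ)⁻¹ = rho κ0 * lam (emb hF t0 y) * (rho κ0)⁻¹ := by
    intro y
    have h := (O.fix3_all hF B (κ0⁻¹ * κ) (fun i => by
      simp only [Subgroup.coe_mul, Subgroup.coe_inv, Perm.mul_apply, Perm.inv_eq_iff_eq]
      exact Fin.ext (by rw [hκ i, hκ0 i])) y).eq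
    rw [map_mul, map_inv] at h
    calc rho κ * lam (emb hF t0 y) * (rho κ)⁻¹
        = rho κ0 * ((rho κ0)⁻¹ * rho κ * lam (emb hF t0 y)) * (rho κ)⁻¹ := by group
      _ = _ := by rw [h]; group
  -- a pair among the first three points against a moved copy
  have hlowblk : ∀ (k : Fin 2 ↪ Fin 3) (v : ↥(SU 2 F q)) (y : ↥(SU 3 F q)),
      Commute (lam (emb hF t0 (emb hF k v))) (rho κ0 * lam (emb hF t0 y) * (rho κ0)⁻¹) := by
    intro k v y
    rw [emb_trans]
    obtain ⟨μ, m0, m1⟩ := exists_alt_two (four_le hn)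
      ((e4 hn).injective.ne ((k.trans t0).injective.ne (show (0 : Fin 2) ≠ 1 by decide)))
    rw [pt_eq_e4 hn] at m0 m1
    have hback : ∀ i : Fin 3, 3 ≤ (κ0.1⁻¹ (e4 hn (t0 i))).val := fun i => by
      by_contra h
      obtain ⟨j, hj⟩ := hlow (κ0.1⁻¹ (e4 hn (t0 i))) (by omega)
      have := hκhigh j
      rw [hj, Perm.inv_def, Equiv.apply_symm_apply, e4_val] at this
      simp [t0] at this
      omega
    have h := (O.far_all hF B (κ0⁻¹ * μ) (by rw [Subgroup.coe_mul, Perm.mul_apply, m0]; exact hback _)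
      (by rw [Subgroup.coe_mul, Perm.mul_apply, m1]; exact hback _) y v).symm.map
      (MulAut.conj (rho κ0)).toMonoidHom
    rw [B.blk hF _ m0 m1 v]
    simp only [MulEquiv.toMonoidHom_eq_coe, MonoidHom.coe_coe, MulAut.conj_apply, map_mul, map_inv] at h
    convert h using 1
    group
  have hall : ∀ y, (∀ x ∈ ({g, g'} : Set ↥(SU 3 F q)),
      Commute (lam (emb hF t0 x)) (rho κ0 * lam (emb hF t0 y) * (rho κ0)⁻¹)) →
      ∀ x, Commute (lam (emb hF t0 x)) (rho κ0 * lam (emb hF t0 y) * (rho κ0)⁻¹) := by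
    intro y hy x
    have h := O.gen ((Subgroup.centralizer {rho κ0 * lam (emb hF t0 y) * (rho κ0)⁻¹}).comap
        (lam.comp (emb hF t0)))
      (by rintro _ ⟨v, rfl⟩; exact Subgroup.mem_centralizer_singleton_iff.2 (hlowblk w01 v y).eq)
      (by rintro _ ⟨v, rfl⟩; exact Subgroup.mem_centralizer_singleton_iff.2 (hlowblk w12 v y).eq)
      (fun x hx => Subgroup.mem_centralizer_singleton_iff.2 (hy x hx).eq)
    have hx := Subgroup.mem_top x
    rw [← h] at hx
    exact Subgroup.mem_centralizer_singleton_iff.1 hx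
  have hg0 := hall g h6
  -- the twisted element in the moved copy
  have hg1 : ∀ x, Commute (lam (emb hF t0 x)) (rho κ0 * lam (emb hF t0 g') * (rho κ0)⁻¹) := by
    intro x
    set p := κ0.1⁻¹ (e4 hn 0) with hp
    have hp3 : 3 ≤ p.val := by
      by_contra h
      obtain ⟨j, hj⟩ := hlow p (by omega)
      have := hκhigh j
      rw [hj, hp, Perm.inv_def, Equiv.apply_symm_apply, e4_val] at this
      simp at this
    obtain ⟨μ, m0, m1⟩ := hμ p hp3
    set e := emb hF (two (3 : Fin 4) 0 (by decide)) (diag2 hF ω) with he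
    have hD : rho (κ0 * μ) * lam (emb hF p01 (diag2 hF ω)) * (rho (κ0 * μ))⁻¹ = lam e := by
      refine (B.blk hF (two (3 : Fin 4) 0 (by decide)) ?_ ?_ _).symm
      · rw [Subgroup.coe_mul, Perm.mul_apply, m0]
        exact Fin.ext (by rw [show e4 hn 0 = e4 hn (t0 0) from rfl, hκ0 0, e4_val]; rfl)
      · rw [Subgroup.coe_mul, Perm.mul_apply, m1, hp, Perm.inv_def, Equiv.apply_symm_apply]; rfl
    have hrw : rho κ0 * lam (emb hF t0 g') * (rho κ0)⁻¹ =
        lam e * (rho κ0 * lam (emb hF t0 g) * (rho κ0)⁻¹) * (lam e)⁻¹ := by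
      rw [hDp μ m0 (by rw [m1]; exact hp3), ← hD, map_mul]
      group
    obtain ⟨x', hx'⟩ : ∃ x', e⁻¹ * emb hF t0 x * e = emb hF t0 x' := by
      have hinv : e⁻¹ = emb hF (two (3 : Fin 4) 0 (by decide)) (diag2 hF (conjN hF ω)) := by
        rw [he, ← map_inv, diag2_conjN]
      have h := conj_eq_twist hF _ _
        (mat_emb_diag2 hF (two (3 : Fin 4) 0 (by decide)) (conjN hF ω)) (emb hF t0 x)
      rw [twist_emb, ← hinv, inv_inv] at h
      exact ⟨_, h⟩
    rw [hrw]
    have h := (hg0 x').map (MulAut.conj (lam e)).toMonoidHom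
    simp only [MulEquiv.toMonoidHom_eq_coe, MonoidHom.coe_coe, MulAut.conj_apply] at h
    convert h using 1
    rw [← hx', map_mul, map_mul, map_inv]
    group
  intro x y
  rw [hconjeq]
  have h := O.gen ((Subgroup.centralizer {lam (emb hF t0 x)}).comap
      ((MulAut.conj (rho κ0)).toMonoidHom.comp (lam.comp (emb hF t0))))
    (by
      rintro _ ⟨v, rfl⟩
      refine Subgroup.mem_centralizer_singleton_iff.2 (Commute.eq (Commute.symm ?_))
      show Commute _ (rho κ0 * lam (emb hF t0 (emb hF w01 v)) * (rho κ0)⁻¹)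
      rw [emb_trans]
      obtain ⟨μ, m0, m1⟩ := exists_alt_two (four_le hn)
        (κ0.1.injective.ne ((e4 hn).injective.ne ((w01.trans t0).injective.ne (show (0 : Fin 2) ≠ 1 by decide))))
      rw [pt_eq_e4 hn] at m0 m1
      rw [B.conj_blk hF _ m0 m1 v]
      exact O.far_all hF B μ (by rw [m0]; exact hκhigh _) (by rw [m1]; exact hκhigh _) x v)
    (by
      rintro _ ⟨v, rfl⟩
      refine Subgroup.mem_centralizer_singleton_iff.2 (Commute.eq (Commute.symm ?_))
      show Commute _ (rho κ0 * lam (emb hF t0 (emb hF w12 v)) * (rho κ0)⁻¹)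
      rw [emb_trans]
      obtain ⟨μ, m0, m1⟩ := exists_alt_two (four_le hn)
        (κ0.1.injective.ne ((e4 hn).injective.ne ((w12.trans t0).injective.ne (show (0 : Fin 2) ≠ 1 by decide))))
      rw [pt_eq_e4 hn] at m0 m1
      rw [B.conj_blk hF _ m0 m1 v]
      exact O.far_all hF B μ (by rw [m0]; exact hκhigh _) (by rw [m1]; exact hκhigh _) x v)
    (by
      rintro y (rfl | rfl)
      · exact Subgroup.mem_centralizer_singleton_iff.2 (hg0 x).symm.eq
      · exact Subgroup.mem_centralizer_singleton_iff.2 (hg1 x).symm.eq)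
  have hy := Subgroup.mem_top y
  rw [← h] at hy
  exact (Subgroup.mem_centralizer_singleton_iff.1 hy :
    rho κ0 * lam (emb hF t0 y) * (rho κ0)⁻¹ * lam (emb hF t0 x) =
      lam (emb hF t0 x) * (rho κ0 * lam (emb hF t0 y) * (rho κ0)⁻¹)).symm

end CfsgLib.SUPres
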