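import Mathlib
import Cfsg.Prelude.Def_Classical
import Cfsg.Agent.SUPres.Bound
import Cfsg.Agent.SpFourPres.Matrix
import Cfsg.Agent.Classical.Unitary.SUTwo

/-!
`SU₄` in a hyperbolic basis: the isometries of the skew-Hermitian form
`u₀ σv₂ + u₁ σv₃ - u₂ σv₀ - u₃ σv₁`, the two rank-one subgroups and their relations.
-/

set_option autoImplicit false
set_option linter.unusedSimpArgs false
set_option linter.unusedTactic false
set_option linter.unreachableTactic false
set_option maxHeartbeats 2000000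

namespace CfsgLib.SUPres

open Matrix
open CfsgLib.SLTwoPres
open CfsgLib.Psl2Unipotent (upperU diagA)

variable {F K : Type*} [Field F] [Field K] (H : HermPair F K)

/-- The skew-Hermitian form. -/
def formS (u v : Fin 4 → F) : F :=
  u 0 * H.σ (v 2) + u 1 * H.σ (v 3) - u 2 * H.σ (v 0) - u 3 * H.σ (v 1)

/-- Its special isometry group. -/
def GS : Subgroup (Matrix.SpecialLinearGroup (Fin 4) F) :=
  Cfsg.preserving (Cfsg.slToMat 4 F) (formS H)

variable {H}

/-- The underlying matrix. -/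
def gsMat (g : GS H) : Matrix (Fin 4) (Fin 4) F := (g : Matrix.SpecialLinearGroup (Fin 4) F).1

theorem gs_ext {g g' : GS H} (e : gsMat g = gsMat g') : g = g' := Subtype.ext (Subtype.ext e)

theorem gsMat_mul (g g' : GS H) : gsMat (g * g') = gsMat g * gsMat g' := rfl

theorem gsMat_one : gsMat (1 : GS H) = 1 := rfl

theorem gs_form (g : GS H) (u v : Fin 4 → F) :
    formS H (gsMat g *ᵥ u) (gsMat g *ᵥ v) = formS H u v := g.2 u v

variable (H)

/-- An element from a matrix. -/
def mkS (M : Matrix (Fin 4) (Fin 4) F) (hd : M.det = 1)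
    (hp : ∀ u v, formS H (M *ᵥ u) (M *ᵥ v) = formS H u v) : GS H :=
  ⟨⟨M, hd⟩, fun u v => hp u v⟩

/-- The matrix of the short root subgroup `SL₂`. -/
def shortMat (g : Matrix.SpecialLinearGroup (Fin 2) F) : Matrix (Fin 4) (Fin 4) F :=
  !![g.1 0 0, g.1 0 1, 0, 0; g.1 1 0, g.1 1 1, 0, 0;
    0, 0, H.σ (g.1 1 1), -H.σ (g.1 1 0); 0, 0, -H.σ (g.1 0 1), H.σ (g.1 0 0)]

/-- The matrix of the long root subgroup `SL₂`. -/
def longMat (g : Matrix.SpecialLinearGroup (Fin 2) K) : Matrix (Fin 4) (Fin 4) F :=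
  !![1, 0, 0, 0; 0, H.ι (g.1 0 0), 0, H.ι (g.1 0 1); 0, 0, 1, 0;
    0, H.ι (g.1 1 0), 0, H.ι (g.1 1 1)]

/-- `SL₂` on the short root. -/
def short : Matrix.SpecialLinearGroup (Fin 2) F →* GS H where
  toFun g := mkS H (shortMat H g)
    (by
      have h := g.det_coe
      rw [Matrix.det_fin_two] at h
      have h' := congrArg H.σ h
      simp only [map_sub, map_mul, map_one] at h'
      simp [shortMat, Matrix.det_succ_row_zero, Fin.sum_univ_succ, Fin.succAbove]
      linear_combination (H.σ (g.1 0 0) * H.σ (g.1 1 1) - H.σ (g.1 0 1) * H.σ (g.1 1 0)) * h + h')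
    (fun u v => by
      have h := g.det_coe
      rw [Matrix.det_fin_two] at h
      have h' := congrArg H.σ h
      simp only [map_sub, map_mul, map_one] at h'
      simp [shortMat, formS, Matrix.mulVec, dotProduct, Fin.sum_univ_four, H.σσ]
      linear_combination (u 0 * H.σ (v 2) + u 1 * H.σ (v 3)) * h -
        (u 2 * H.σ (v 0) + u 3 * H.σ (v 1)) * h')
  map_one' := by
    refine gs_ext ?_
    show shortMat H 1 = 1
    ext i j; fin_cases i <;> fin_cases j <;> simp [shortMat]
  map_mul' a b := by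
    refine gs_ext ?_
    show shortMat H (a * b) = shortMat H a * shortMat H b
    ext i j; fin_cases i <;> fin_cases j <;>
      simp [shortMat, Matrix.mul_apply, Fin.sum_univ_four, Fin.sum_univ_two] <;> ring

/-- `SL₂` of the fixed field on the long root. -/
def long : Matrix.SpecialLinearGroup (Fin 2) K →* GS H where
  toFun g := mkS H (longMat H g)
    (by
      have h := g.det_coe
      rw [Matrix.det_fin_two] at h
      have h' := congrArg H.ι h
      simp only [map_sub, map_mul, map_one] at h'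
      simp [longMat, Matrix.det_succ_row_zero, Fin.sum_univ_succ, Fin.succAbove]
      linear_combination h')
    (fun u v => by
      have h := g.det_coe
      rw [Matrix.det_fin_two] at h
      have h' := congrArg H.ι h
      simp only [map_sub, map_mul, map_one] at h'
      simp [longMat, formS, Matrix.mulVec, dotProduct, Fin.sum_univ_four, H.σι]
      linear_combination (u 1 * H.σ (v 3) - u 3 * H.σ (v 1)) * h')
  map_one' := by
    refine gs_ext ?_
    show longMat H 1 = 1
    ext i j; fin_cases i <;> fin_cases j <;> simp [longMat]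
  map_mul' a b := by
    refine gs_ext ?_
    show longMat H (a * b) = longMat H a * longMat H b
    ext i j; fin_cases i <;> fin_cases j <;>
      simp [longMat, Matrix.mul_apply, Fin.sum_univ_four, Fin.sum_univ_two] <;> ring

@[simp] theorem gsMat_short (g : Matrix.SpecialLinearGroup (Fin 2) F) :
    gsMat (short H g) = shortMat H g := rfl

@[simp] theorem gsMat_long (g : Matrix.SpecialLinearGroup (Fin 2) K) :
    gsMat (long H g) = longMat H g := rfl

/-- The long root element at the other end. -/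
def zEl (a : K) : GS H :=
  mkS H !![1, 0, H.ι a, 0; 0, 1, 0, 0; 0, 0, 1, 0; 0, 0, 0, 1]
    (by simp [Matrix.det_succ_row_zero, Fin.sum_univ_succ, Fin.succAbove])
    (fun u v => by
      simp [formS, Matrix.mulVec, dotProduct, Fin.sum_univ_four, H.σι]
      ring)

/-- The middle root element. -/
def rEl (b : F) : GS H :=
  mkS H !![1, 0, 0, b; 0, 1, H.σ b, 0; 0, 0, 1, 0; 0, 0, 0, 1]
    (by simp [Matrix.det_succ_row_zero, Fin.sum_univ_succ, Fin.succAbove])
    (fun u v => by
      simp [formS, Matrix.mulVec, dotProduct, Fin.sum_univ_four, H.σσ]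
      ring)

@[simp] theorem gsMat_zEl (a : K) :
    gsMat (zEl H a) = !![1, 0, H.ι a, 0; 0, 1, 0, 0; 0, 0, 1, 0; 0, 0, 0, 1] := rfl

@[simp] theorem gsMat_rEl (b : F) :
    gsMat (rEl H b) = !![1, 0, 0, b; 0, 1, H.σ b, 0; 0, 0, 1, 0; 0, 0, 0, 1] := rfl

theorem weyl_y_weyl (a : K) :
    short H weylSL * long H (upperU a) * (short H weylSL)⁻¹ = zEl H a := by
  rw [mul_inv_eq_iff_eq_mul]
  refine gs_ext ?_
  simp only [gsMat_mul, gsMat_short, gsMat_long, gsMat_zEl]
  ext i j; fin_cases i <;> fin_cases j <;>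
    simp [shortMat, longMat, Matrix.mul_apply, Fin.sum_univ_four]

theorem weyl_x_weyl (b : F) :
    long H weylSL * short H (upperU (-b)) * (long H weylSL)⁻¹ = rEl H b := by
  rw [mul_inv_eq_iff_eq_mul]
  refine gs_ext ?_
  simp only [gsMat_mul, gsMat_short, gsMat_long, gsMat_rEl]
  ext i j; fin_cases i <;> fin_cases j <;>
    simp [shortMat, longMat, Matrix.mul_apply, Fin.sum_univ_four]

theorem x_conj_r (s b : F) :
    short H (upperU s) * rEl H b * (short H (upperU s))⁻¹ =
      zEl H (H.tr (s * H.σ b)) * rEl H b := by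
  rw [mul_inv_eq_iff_eq_mul]
  refine gs_ext ?_
  simp only [gsMat_mul, gsMat_short, gsMat_rEl, gsMat_zEl]
  ext i j; fin_cases i <;> fin_cases j <;>
    simp [shortMat, Matrix.mul_apply, Fin.sum_univ_four, H.ι_tr, H.σσ] <;> ring

theorem diagA_pow {E : Type*} [Field E] (u : Eˣ) (n : ℕ) :
    (diagA u) ^ n = diagA (u ^ n) := by
  induction n with
  | zero => exact Subtype.ext (by simp [Matrix.one_fin_two])
  | succ n ih =>
    rw [pow_succ, ih]
    apply Subtype.ext
    simp [Matrix.mul_fin_two, pow_succ, mul_comm]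

/-- The matrices satisfy the relations. -/
theorem su4Data_matrix {ζ : Fˣ} {η : Kˣ} {k : ℕ} (G : HermGen H ζ η k) :
    SU4Data H ζ η k (fun t : F => short H (upperU t)) (short H (diagA ζ)) (short H weylSL)
      (fun t : K => long H (upperU t)) (long H (diagA η)) (long H weylSL) where
  sl := CfsgLib.SpFourPres.slData_map (short H) ζ
  sl' := CfsgLib.SpFourPres.slData_map (long H) η
  conj_hy t := by
    rw [mul_inv_eq_iff_eq_mul]
    refine gs_ext ?_
    simp only [gsMat_mul, gsMat_short, gsMat_long]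
    ext i j; fin_cases i <;> fin_cases j <;>
      simp [shortMat, longMat, Matrix.mul_apply, Fin.sum_univ_four, G.ι_η] <;> field_simp
  rel_hh := by
    refine gs_ext ?_
    simp only [gsMat_mul, gsMat_short, gsMat_long]
    ext i j; fin_cases i <;> fin_cases j <;>
      simp [shortMat, longMat, Matrix.mul_apply, Fin.sum_univ_four] <;> ring
  rel_hx := by
    rw [mul_inv_eq_iff_eq_mul]
    refine gs_ext ?_
    simp only [gsMat_mul, gsMat_short, gsMat_long]
    ext i j; fin_cases i <;> fin_cases j <;>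
      simp [shortMat, longMat, Matrix.mul_apply, Fin.sum_univ_four, H.σι]
  rel_wh := by
    rw [mul_inv_eq_iff_eq_mul, ← map_pow, diagA_pow]
    refine gs_ext ?_
    have hk : ((ζ ^ k : Fˣ) : F) = H.ι (η : K) := by
      rw [Units.val_pow_eq_pow_val]; exact G.pow_k
    simp only [gsMat_mul, gsMat_short, gsMat_long]
    ext i j; fin_cases i <;> fin_cases j <;>
      simp [shortMat, longMat, Matrix.mul_apply, Fin.sum_univ_four, hk, H.σι, G.pow_k,
        G.sigma_pow_k, -Units.val_pow_eq_pow_val]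
  rel_wh' := by
    rw [mul_inv_eq_iff_eq_mul]
    refine gs_ext ?_
    simp only [gsMat_mul, gsMat_short, gsMat_long]
    ext i j; fin_cases i <;> fin_cases j <;>
      simp [shortMat, longMat, Matrix.mul_apply, Fin.sum_univ_four, G.ι_η] <;> field_simp
  rel_wr := by
    have h1 : long H weylSL * short H (upperU 1) * (long H weylSL)⁻¹ = rEl H (-1) := by
      rw [← weyl_x_weyl, neg_neg]
    rw [weyl_x_weyl, h1, mul_inv_eq_iff_eq_mul]
    refine gs_ext ?_
    simp only [gsMat_mul, gsMat_short, gsMat_rEl]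
    ext i j; fin_cases i <;> fin_cases j <;>
      simp [shortMat, Matrix.mul_apply, Fin.sum_univ_four]
  rel_wz := by
    rw [weyl_y_weyl, mul_inv_eq_iff_eq_mul]
    refine gs_ext ?_
    simp only [gsMat_mul, gsMat_long, gsMat_zEl]
    ext i j; fin_cases i <;> fin_cases j <;>
      simp [longMat, Matrix.mul_apply, Fin.sum_univ_four]
  rel_braid := by
    refine gs_ext ?_
    simp only [gsMat_mul, gsMat_short, gsMat_long]
    ext i j; fin_cases i <;> fin_cases j <;>
      simp [shortMat, longMat, Matrix.mul_apply, Fin.sum_univ_four]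
  rel_yz := by
    rw [weyl_y_weyl]
    refine gs_ext ?_
    simp only [gsMat_mul, gsMat_long, gsMat_zEl]
    ext i j; fin_cases i <;> fin_cases j <;>
      simp [longMat, Matrix.mul_apply, Fin.sum_univ_four]
  rel_xz := by
    rw [weyl_y_weyl]
    refine gs_ext ?_
    simp only [gsMat_mul, gsMat_short, gsMat_zEl]
    ext i j; fin_cases i <;> fin_cases j <;>
      simp [shortMat, Matrix.mul_apply, Fin.sum_univ_four]
  rel_xy := by
    rw [weyl_x_weyl, weyl_y_weyl, mul_inv_eq_iff_eq_mul]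
    refine gs_ext ?_
    simp only [gsMat_mul, gsMat_short, gsMat_long, gsMat_rEl, gsMat_zEl]
    ext i j; fin_cases i <;> fin_cases j <;>
      simp [shortMat, longMat, Matrix.mul_apply, Fin.sum_univ_four]
  rel_xy' _ := by
    rw [weyl_x_weyl, weyl_y_weyl, mul_inv_eq_iff_eq_mul]
    refine gs_ext ?_
    simp only [gsMat_mul, gsMat_short, gsMat_long, gsMat_rEl, gsMat_zEl]
    ext i j; fin_cases i <;> fin_cases j <;>
      simp [shortMat, longMat, Matrix.mul_apply, Fin.sum_univ_four, G.ι_η] <;> ring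

/-! ### The change of basis to the standard form -/

section Iso

variable [Fintype F] {q : ℕ} (hF : Fintype.card F = q ^ 2) (hσ : ∀ s, H.σ s = s ^ q)
include hF hσ

theorem exists_basis : ∃ (g : GL (Fin 4) F) (d : F), d ≠ 0 ∧ ∀ u v : Fin 4 → F,
    Cfsg.hermForm 4 F q ((g : Matrix (Fin 4) (Fin 4) F) *ᵥ u)
      ((g : Matrix (Fin 4) (Fin 4) F) *ᵥ v) = d * formS H u v := by
  obtain ⟨-, c, d, lam, δ, hδne, hδq, hc, hd, -, -, hld⟩ :=
    CfsgLib.FreeGroupLaws.exists_hermitian_pair hF
  set σ := H.σ with hσdef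
  have hc0 : c * σ c = -1 := by rw [hσ, ← pow_succ', hc]
  have hd0 : d * σ d = -1 := by rw [hσ, ← pow_succ', hd]
  have hld1 : σ lam * (1 + c * σ d) = δ := by rw [hσ, hσ, hld]
  have hld2 : lam * (1 + σ c * d) = -δ := by
    have := congrArg σ hld1
    rw [map_mul, map_add, map_one, map_mul, hσdef, H.σσ, H.σσ, ← hσdef, hσ δ, hδq] at this
    exact this
  let M : Matrix (Fin 4) (Fin 4) F :=
    !![1, 0, lam, 0; c, 0, lam * d, 0; 0, 1, 0, lam; 0, c, 0, lam * d]
  have hpair : ∀ u v : Fin 4 → F, Cfsg.hermForm 4 F q (M *ᵥ u) (M *ᵥ v) = δ * formS H u v := by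
    intro u v
    simp only [Cfsg.hermForm, Fin.sum_univ_four, ← hσ, formS, ← hσdef]
    simp [M, Matrix.mulVec, dotProduct, Fin.sum_univ_four]
    linear_combination (u 0 * σ (v 0) + u 1 * σ (v 1)) * hc0 +
      (u 0 * σ (v 2) + u 1 * σ (v 3)) * hld1 + (u 2 * σ (v 0) + u 3 * σ (v 1)) * hld2 +
      ((u 2 * σ (v 2) + u 3 * σ (v 3)) * lam * σ lam) * hd0
  have hinj : Function.Injective M.mulVec := by
    intro a b hab
    have h0 : ∀ v, formS H (a - b) v = 0 := fun v => by
      have := hpair (a - b) v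
      rw [Matrix.mulVec_sub, sub_eq_zero.2 hab] at this
      simp [Cfsg.hermForm] at this
      exact this.resolve_left hδne
    have e0 := h0 (Pi.single 2 1)
    have e1 := h0 (Pi.single 3 1)
    have e2 := h0 (Pi.single 0 1)
    have e3 := h0 (Pi.single 1 1)
    simp [formS] at e0 e1 e2 e3
    funext i
    rw [← sub_eq_zero]
    fin_cases i
    · simpa using e0
    · simpa using e1
    · simp; linear_combination -e2
    · simp; linear_combination -e3
  exact ⟨(Matrix.mulVec_injective_iff_isUnit.1 hinj).unit, δ, hδne, fun u v => hpair u v⟩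

theorem exists_iso : ∃ (g : GL (Fin 4) F) (d : F) (e : GS H ≃* ↥(Cfsg.SU 4 F q)), d ≠ 0 ∧
    (∀ u v : Fin 4 → F, Cfsg.hermForm 4 F q ((g : Matrix (Fin 4) (Fin 4) F) *ᵥ u)
      ((g : Matrix (Fin 4) (Fin 4) F) *ᵥ v) = d * formS H u v) ∧
    ∀ A, (e A : Matrix.SpecialLinearGroup (Fin 4) F).1 =
      (g : Matrix (Fin 4) (Fin 4) F) * gsMat A * ((g⁻¹ : GL (Fin 4) F) : Matrix (Fin 4) (Fin 4) F) := by
  obtain ⟨g, d, hd0, hg⟩ := exists_basis H hF hσ
  set G : Matrix (Fin 4) (Fin 4) F := (g : Matrix (Fin 4) (Fin 4) F) with hG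
  set G' : Matrix (Fin 4) (Fin 4) F :=
    ((g⁻¹ : GL (Fin 4) F) : Matrix (Fin 4) (Fin 4) F) with hG'
  have h1 : G * G' = 1 := by rw [hG, hG', ← Units.val_mul, mul_inv_cancel, Units.val_one]
  have h2 : G' * G = 1 := by rw [hG, hG', ← Units.val_mul, inv_mul_cancel, Units.val_one]
  have hinv : ∀ u v, d * formS H (G' *ᵥ u) (G' *ᵥ v) = Cfsg.hermForm 4 F q u v := fun u v => by
    rw [← hg, Matrix.mulVec_mulVec, Matrix.mulVec_mulVec, h1, Matrix.one_mulVec, Matrix.one_mulVec]
  have hd : ∀ A : Matrix (Fin 4) (Fin 4) F, (G * A * G').det = A.det := fun A => by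
    rw [Matrix.det_mul_right_comm, h1, one_mul]
  have hd' : ∀ A : Matrix (Fin 4) (Fin 4) F, (G' * A * G).det = A.det := fun A => by
    rw [Matrix.det_mul_right_comm, h2, one_mul]
  let f : GS H → ↥(Cfsg.SU 4 F q) := fun A =>
    ⟨⟨G * gsMat A * G', (hd _).trans A.1.2⟩, fun u v => by
      show Cfsg.hermForm 4 F q ((G * gsMat A * G') *ᵥ u) ((G * gsMat A * G') *ᵥ v) = _
      rw [← Matrix.mulVec_mulVec, ← Matrix.mulVec_mulVec, ← Matrix.mulVec_mulVec,
        ← Matrix.mulVec_mulVec, hg, gs_form, hinv]⟩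
  let f' : ↥(Cfsg.SU 4 F q) → GS H := fun A =>
    ⟨⟨G' * A.1.1 * G, (hd' _).trans A.1.2⟩, fun u v => mul_left_cancel₀ hd0 (by
      show d * formS H ((G' * A.1.1 * G) *ᵥ u) ((G' * A.1.1 * G) *ᵥ v) = _
      rw [← Matrix.mulVec_mulVec, ← Matrix.mulVec_mulVec, ← Matrix.mulVec_mulVec,
        ← Matrix.mulVec_mulVec, hinv, ← hg]
      exact A.2 _ _)⟩
  refine ⟨g, d,
    { toFun := f, invFun := f', left_inv := fun A => ?_, right_inv := fun A => ?_,
      map_mul' := fun A B => ?_ }, hd0, hg, fun A => rfl⟩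
  · refine gs_ext ?_
    show G' * (G * gsMat A * G') * G = gsMat A
    rw [show G' * (G * gsMat A * G') * G = (G' * G) * gsMat A * (G' * G) by
      simp only [Matrix.mul_assoc], h2, Matrix.one_mul, Matrix.mul_one]
  · refine Subtype.ext (Subtype.ext ?_)
    show G * (G' * A.1.1 * G) * G' = A.1.1
    rw [show G * (G' * A.1.1 * G) * G' = (G * G') * A.1.1 * (G * G') by
      simp only [Matrix.mul_assoc], h1, Matrix.one_mul, Matrix.mul_one]
  · refine Subtype.ext (Subtype.ext ?_)
    show G * (gsMat A * gsMat B) * G' = (G * gsMat A * G') * (G * gsMat B * G')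
    rw [show (G * gsMat A * G') * (G * gsMat B * G') = G * gsMat A * (G' * G) * (gsMat B * G') by
      simp only [Matrix.mul_assoc], h2, Matrix.mul_one]
    simp only [Matrix.mul_assoc]

/-- The bound is the order of the group. -/
theorem card_bound {qK : ℕ} (hK : qK = q) :
    (1 + (qK + (q ^ 2 * qK + qK * (q ^ 2 * qK)))) *
      ((qK * (q ^ 2 * qK)) *
        (Nat.card (Matrix.SpecialLinearGroup (Fin 2) F) * (qK - 1))) ≤ Nat.card (GS H) := by
  subst hK
  obtain ⟨_, _, e, -⟩ := exists_iso H hF hσ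
  rw [Nat.card_congr e.toEquiv, CfsgLib.Psl2Unipotent.card_sl2, hF]
  have hc := CfsgLib.Unitary.card_SU hF 4 (by norm_num)
  have hq := CfsgLib.Unitary.two_le_q hF
  simp only [Finset.prod_range_succ, Finset.prod_range_zero] at hc
  norm_num [show ¬ Even 1 by decide, show ¬ Even 3 by decide, show Even 2 by decide] at hc
  refine Nat.le_of_mul_le_mul_left (le_of_eq ?_) (Nat.succ_pos qK)
  rw [Nat.succ_eq_add_one, hc]
  obtain ⟨m, rfl⟩ : ∃ m, qK = m + 1 := ⟨qK - 1, by omega⟩
  have a1 : (m + 1) ^ 2 - 1 = m ^ 2 + 2 * m := by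
    rw [show (m + 1) ^ 2 = m ^ 2 + 2 * m + 1 by ring, Nat.add_sub_cancel]
  have a2 : (m + 1) ^ 4 - 1 = m ^ 4 + 4 * m ^ 3 + 6 * m ^ 2 + 4 * m := by
    rw [show (m + 1) ^ 4 = m ^ 4 + 4 * m ^ 3 + 6 * m ^ 2 + 4 * m + 1 by ring, Nat.add_sub_cancel]
  have a3 : ((m + 1) ^ 2) ^ 2 - 1 = m ^ 4 + 4 * m ^ 3 + 6 * m ^ 2 + 4 * m := by
    rw [← pow_mul, a2]
  simp only [Nat.add_sub_cancel, a1, a2, a3]
  ring

end Iso

end CfsgLib.SUPres
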