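import Mathlib
import Cfsg.Agent.SUPres.Model
import Cfsg.Agent.Classical.Unitary.Generation

/-!
Four of the six matrices generate `SU₄`.
-/

set_option autoImplicit false
set_option linter.unusedSimpArgs false
set_option maxHeartbeats 1000000

namespace CfsgLib.SUPres

open Matrix
open CfsgLib.SLTwoPres
open CfsgLib.Psl2Unipotent (upperU diagA)
open CfsgLib.SpFourPres (exists_sl_to_one_zero)

variable {F K : Type*} [Field F] [Field K] {H : HermPair F K}

theorem gs_mulVec_mul (A B : GS H) (u : Fin 4 → F) :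
    gsMat (A * B) *ᵥ u = gsMat A *ᵥ (gsMat B *ᵥ u) := by
  rw [gsMat_mul, Matrix.mulVec_mulVec]

theorem gs_inv_cancel (A : GS H) (u : Fin 4 → F) : gsMat A⁻¹ *ᵥ (gsMat A *ᵥ u) = u := by
  rw [← gs_mulVec_mul, inv_mul_cancel, gsMat_one, Matrix.one_mulVec]

theorem gs_ext_vec {A B : GS H} (h : ∀ u, gsMat A *ᵥ u = gsMat B *ᵥ u) : A = B :=
  gs_ext (Matrix.toLin'.injective (LinearMap.ext fun u => by simpa [Matrix.toLin'_apply] using h u))

/-- A non-zero isotropic vector moves to the first basis vector. -/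
theorem exists_move (S : Subgroup (GS H)) (hs : ∀ g, short H g ∈ S) (hl : ∀ g, long H g ∈ S)
    (v : Fin 4 → F) (hv : v ≠ 0) (hiso : formS H v v = 0) :
    ∃ A ∈ S, gsMat A *ᵥ v = Pi.single 0 1 := by
  have fin : ∀ v : Fin 4 → F, v ≠ 0 → v 2 = 0 → v 3 = 0 →
      ∃ A ∈ S, gsMat A *ᵥ v = Pi.single 0 1 := by
    intro v hv c0 c1
    obtain ⟨g, h1, h2⟩ := exists_sl_to_one_zero (v 0) (v 1)
    have h2' := h2 (by
      by_contra hcon
      push Not at hcon
      apply hv
      funext i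
      fin_cases i
      · exact hcon.1
      · exact hcon.2
      · exact c0
      · exact c1)
    refine ⟨short H g, hs g, ?_⟩
    funext i
    fin_cases i <;>
      simp [shortMat, Matrix.mulVec, dotProduct, Fin.sum_univ_four, c0, c1, h1, h2', Pi.single_apply]
  by_cases hlow : v 2 = 0 ∧ v 3 = 0
  · exact fin v hv hlow.1 hlow.2
  obtain ⟨g, h1, h2⟩ := exists_sl_to_one_zero (v 3) (v 2)
  have h2' := h2 (by tauto)
  have hdet := g.det_coe
  rw [Matrix.det_fin_two] at hdet
  let A : Matrix.SpecialLinearGroup (Fin 2) F :=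
    ⟨!![H.σ (g.1 0 0), -H.σ (g.1 0 1); -H.σ (g.1 1 0), H.σ (g.1 1 1)], by
      have h' := congrArg H.σ hdet
      simp only [map_sub, map_mul, map_one] at h'
      simp [Matrix.det_fin_two]
      linear_combination h'⟩
  set v1 := gsMat (short H A) *ᵥ v with hv1
  have b2 : v1 2 = 0 := by
    rw [hv1, gsMat_short]
    simp [A, shortMat, Matrix.mulVec, dotProduct, Fin.sum_univ_four, H.σσ]
    linear_combination h1
  have b3 : v1 3 = 1 := by
    rw [hv1, gsMat_short]
    simp [A, shortMat, Matrix.mulVec, dotProduct, Fin.sum_univ_four, H.σσ]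
    linear_combination h2'
  have biso : formS H v1 v1 = 0 := by rw [hv1, gs_form, hiso]
  obtain ⟨a, ha⟩ := H.fixed (v1 1) (by
    simp [formS, b2, b3] at biso
    linear_combination -biso)
  let B : Matrix.SpecialLinearGroup (Fin 2) K :=
    ⟨!![0, -1; 1, -a], by simp [Matrix.det_fin_two]⟩
  set v2 := gsMat (long H B) *ᵥ v1 with hv2
  have c1' : v2 1 = -1 := by
    rw [hv2, gsMat_long]
    simp [B, longMat, Matrix.mulVec, dotProduct, Fin.sum_univ_four, b3]
  have c2 : v2 2 = 0 := by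
    rw [hv2, gsMat_long]
    simp [B, longMat, Matrix.mulVec, dotProduct, Fin.sum_univ_four, b2]
  have c3 : v2 3 = 0 := by
    rw [hv2, gsMat_long]
    simp [B, longMat, Matrix.mulVec, dotProduct, Fin.sum_univ_four, b3, ha]
  have hne : v2 ≠ 0 := fun h0 => by
    rw [h0] at c1'
    simp at c1'
  obtain ⟨C, hC, hCv⟩ := fin v2 hne c2 c3
  refine ⟨C * (long H B * short H A), S.mul_mem hC (S.mul_mem (hl B) (hs A)), ?_⟩
  rw [gs_mulVec_mul, gs_mulVec_mul, ← hv1, ← hv2, hCv]

variable (H) in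
/-- The four matrices generate. -/
theorem eq_top_of_four [Fintype F] [Fintype K] {q : ℕ} (hF : Fintype.card F = q ^ 2)
    (hσ : ∀ s, H.σ s = s ^ q) {ζ : Fˣ} {η : Kˣ} {k : ℕ} (G : HermGen H ζ η k)
    (S : Subgroup (GS H)) (hx : ∀ t, short H (upperU t) ∈ S) (hh : short H (diagA ζ) ∈ S)
    (hw : short H weylSL ∈ S) (hw' : long H weylSL ∈ S) : S = ⊤ := by
  have hs : ∀ g, short H g ∈ S := fun g => mem_of_generators G.genF (S.comap (short H)) hx hh hw g
  have hr : ∀ b, rEl H b ∈ S := fun b => by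
    rw [← weyl_x_weyl]
    exact S.mul_mem (S.mul_mem hw' (hs _)) (S.inv_mem hw')
  obtain ⟨s0, hs0⟩ : ∃ s0, H.tr s0 ≠ 0 := by
    by_contra hcon
    push Not at hcon
    have h : ∀ s, H.σ s = -s := fun s => by
      have := H.ι_tr s
      rw [hcon, map_zero] at this
      linear_combination -this
    exact G.sq_ne (by rw [h]; ring)
  have hz : ∀ t, zEl H t ∈ S := fun t => by
    set s := H.ι (t / H.tr s0) * s0
    have htr : H.tr (s * H.σ 1) = t := by
      apply H.ι.injective
      rw [H.ι_tr, map_one, mul_one, map_mul, H.σι, ← mul_add, ← H.ι_tr, ← map_mul,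
        div_mul_cancel₀ _ hs0]
    have := x_conj_r H s 1
    rw [htr, ← mul_inv_eq_iff_eq_mul] at this
    rw [← this]
    exact S.mul_mem (S.mul_mem (S.mul_mem (hs _) (hr _)) (S.inv_mem (hs _))) (S.inv_mem (hr _))
  have hy : ∀ t, long H (upperU t) ∈ S := fun t => by
    have := weyl_y_weyl H t
    rw [show long H (upperU t) = (short H weylSL)⁻¹ * zEl H t * short H weylSL by rw [← this]; group]
    exact S.mul_mem (S.mul_mem (S.inv_mem hw) (hz t)) hw
  have hh' : long H (diagA η) ∈ S := by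
    have := (su4Data_matrix H G).sl'.rel_zeta
    rw [show long H (diagA η) = weylWord (fun t => long H (upperU t)) (long H weylSL) (η : K) *
      (long H weylSL)⁻¹ by rw [this]; group]
    exact S.mul_mem (S.mul_mem (S.mul_mem (hy _) (S.mul_mem (S.mul_mem hw' (hy _)) (S.inv_mem hw')))
      (hy _)) (S.inv_mem hw')
  have hl : ∀ g, long H g ∈ S := fun g =>
    mem_of_generators G.genK (S.comap (long H)) hy hh' hw' g
  obtain ⟨g, d, e, hd0, hg, he⟩ := exists_iso H hF hσ
  refine eq_top_iff.2 fun X _ => ?_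
  suffices h : (⊤ : Subgroup ↥(Cfsg.SU 4 F q)) ≤ S.map e.toMonoidHom by
    obtain ⟨Y, hY, hYX⟩ := h (Subgroup.mem_top (e X))
    rwa [← e.injective hYX]
  rw [← CfsgLib.Unitary.transvGroup_eq_top hF (by omega), CfsgLib.Unitary.transvGroup,
    Subgroup.closure_le]
  rintro A ⟨v, c, hv, hA⟩
  refine ⟨e.symm A, ?_, e.apply_symm_apply A⟩
  set T := e.symm A with hT
  set G1 : Matrix (Fin 4) (Fin 4) F := (g : Matrix (Fin 4) (Fin 4) F) with hG1
  set G2 : Matrix (Fin 4) (Fin 4) F :=
    ((g⁻¹ : GL (Fin 4) F) : Matrix (Fin 4) (Fin 4) F) with hG2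
  have h1 : G1 * G2 = 1 := by rw [hG1, hG2, ← Units.val_mul, mul_inv_cancel, Units.val_one]
  have h2 : G2 * G1 = 1 := by rw [hG1, hG2, ← Units.val_mul, inv_mul_cancel, Units.val_one]
  set v' := G2 *ᵥ v with hv'
  have hvv : G1 *ᵥ v' = v := by rw [hv', Matrix.mulVec_mulVec, h1, Matrix.one_mulVec]
  have hTu : ∀ u, gsMat T *ᵥ u = u + (c * d * formS H u v') • v' := by
    intro u
    have e1 : G1 * gsMat T * G2 = CfsgLib.Unitary.rankOne q (c • v) v := by
      rw [← CfsgLib.Unitary.unitaryTransvection_eq, ← hA, hG1, hG2, ← he, hT, e.apply_symm_apply]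
    have e2 : gsMat T = G2 * CfsgLib.Unitary.rankOne q (c • v) v * G1 := by
      rw [← e1, show G2 * (G1 * gsMat T * G2) * G1 = (G2 * G1) * gsMat T * (G2 * G1) by
        simp only [Matrix.mul_assoc], h2, Matrix.one_mul, Matrix.mul_one]
    have e3 : Cfsg.hermForm 4 F q (G1 *ᵥ u) v = d * formS H u v' := by rw [← hg, hvv]
    rw [e2, ← Matrix.mulVec_mulVec, ← Matrix.mulVec_mulVec, CfsgLib.Unitary.rankOne_mulVec,
      Matrix.mulVec_add, Matrix.mulVec_smul, Matrix.mulVec_smul, Matrix.mulVec_mulVec, h2,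
      Matrix.one_mulVec, smul_smul, e3, ← hv']
    congr 2
    ring
  have hiso : formS H v' v' = 0 := by
    have := hg v' v'
    rw [hvv, hv] at this
    exact (mul_eq_zero.1 this.symm).resolve_left hd0
  by_cases h0 : v' = 0
  · have : T = 1 := gs_ext_vec fun u => by
      rw [hTu, h0, smul_zero, add_zero, gsMat_one, Matrix.one_mulVec]
    rw [this]; exact S.one_mem
  obtain ⟨B, hB, hBv⟩ := exists_move S hs hl v' h0 hiso
  set c' := c * d with hc'
  have hconj : ∀ u, gsMat (B * T * B⁻¹) *ᵥ u = u + (c' * formS H u (Pi.single 0 1)) • Pi.single 0 1 := by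
    intro u
    rw [gs_mulVec_mul, gs_mulVec_mul, hTu, Matrix.mulVec_add, Matrix.mulVec_smul, hBv,
      ← gs_mulVec_mul, mul_inv_cancel, gsMat_one, Matrix.one_mulVec]
    have := gs_form B (gsMat B⁻¹ *ᵥ u) v'
    rw [hBv, ← gs_mulVec_mul B B⁻¹, mul_inv_cancel, gsMat_one, Matrix.one_mulVec] at this
    rw [this]
  obtain ⟨a, ha⟩ := H.fixed c' (by
    have := gs_form (B * T * B⁻¹) (Pi.single 2 1) (Pi.single 2 1)
    rw [hconj] at this
    simp [formS, Pi.single_apply] at this
    linear_combination this)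
  have hz' : B * T * B⁻¹ = zEl H (-a) := gs_ext_vec fun u => by
    rw [hconj]
    funext i
    fin_cases i <;>
      simp [formS, Matrix.mulVec, dotProduct, Fin.sum_univ_four, Pi.single_apply, ha]
  rw [show T = B⁻¹ * zEl H (-a) * B by rw [← hz']; group]
  exact S.mul_mem (S.mul_mem (S.inv_mem hB) (hz _)) hB

end CfsgLib.SUPres
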