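import Mathlib
import Cfsg.Agent.SUPres.Gen
import Cfsg.Agent.S2286

/-!
`SU₄(q)` on six generators with at most `27` relations, `21` for even `q`, four of the generators
already generating.
-/

set_option autoImplicit false
set_option linter.style.haveILetI false
set_option maxHeartbeats 2000000

namespace CfsgLib.SUPres

open CfsgLib.SLTwoPres Polynomial
open CfsgLib.Psl2Unipotent (upperU diagA)
open Cfsg.Agent.S2286 (slHom GivesData gU gH gW adjoin_sq_eq_top sl_rels sl_rels_two)

/-- The six generators. -/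
noncomputable def gv (i : Fin 6) : FreeGroup (Fin 6) := FreeGroup.of i

/-- The short root generators among the six. -/
noncomputable def inS : FreeGroup (Fin 3) →* FreeGroup (Fin 6) := FreeGroup.map (Fin.castAdd 3)

theorem inS_U : inS gU = gv 0 := by simp [inS, gU, gv]
theorem inS_H : inS gH = gv 1 := by simp [inS, gH, gv]
theorem inS_W : inS gW = gv 2 := by simp [inS, gW, gv]

variable {F K : Type*} [Field F] [Field K] (H : HermPair F K)

/-- The images of the six generators. -/
noncomputable def hom6 (ζ : Fˣ) (η : Kˣ) : FreeGroup (Fin 6) →* GS H :=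
  FreeGroup.lift ![short H (upperU 1), short H (diagA ζ), short H weylSL,
    long H (upperU 1), long H (diagA η), long H weylSL]

variable (ζ : Fˣ) (η : Kˣ)

theorem hom6_inS (r : FreeGroup (Fin 3)) : hom6 H ζ η (inS r) = short H (slHom ζ r) := by
  have : (hom6 H ζ η).comp inS = (short H).comp (slHom ζ) :=
    FreeGroup.ext_hom _ _ fun i => by
      fin_cases i <;> simp [hom6, inS, slHom, MonoidHom.comp_apply]
  exact DFunLike.congr_fun this r

theorem adjoin_inv_top {p : ℕ} [Fact p.Prime] [Algebra (ZMod p) K] [Fintype K]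
    (hη : ∀ u : Kˣ, u ∈ Subgroup.zpowers η) :
    Algebra.adjoin (ZMod p) {((η : K))⁻¹} = ⊤ := by
  refine eq_top_iff.2 fun t _ => ?_
  rcases eq_or_ne t 0 with rfl | ht
  · exact Subalgebra.zero_mem _
  obtain ⟨n, hn⟩ := (mem_powers_iff_mem_zpowers).2
    (show Units.mk0 t ht ∈ Subgroup.zpowers η⁻¹ by rw [Subgroup.zpowers_inv]; exact hη _)
  rw [show t = ((η : K)⁻¹) ^ n by
    rw [← Units.val_inv_eq_inv_val, ← Units.val_pow_eq_pow_val, show η⁻¹ ^ n = _ from hn,
      Units.val_mk0]]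
  exact pow_mem (Algebra.self_mem_adjoin_singleton _ _) n

section Words

variable {p : ℕ} [Fact p.Prime] [Algebra (ZMod p) F] [Algebra (ZMod p) K] [Fintype F] [Fintype K]

/-- A word for `x(s)`. -/
noncomputable def xW {ζ : Fˣ} (hζ : ∀ u : Fˣ, u ∈ Subgroup.zpowers ζ) (s : F) : FreeGroup (Fin 6) :=
  inS (polyWord (Classical.choose (show ∃ f : (ZMod p)[X], aeval ((ζ : F) ^ 2) f = s from by
    have ht : s ∈ Algebra.adjoin (ZMod p) {(ζ : F) ^ 2} :=
      (adjoin_sq_eq_top (p := p) hζ) ▸ Algebra.mem_top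
    rwa [Algebra.adjoin_singleton_eq_range_aeval] at ht)) gU gH)

theorem xW_map {ζ : Fˣ} (hζ : ∀ u : Fˣ, u ∈ Subgroup.zpowers ζ) (s : F) {G : Type*} [Group G]
    (φ : FreeGroup (Fin 6) →* G) {x : F → G} {w : G} (D : SLData ζ x (φ (gv 1)) w)
    (hu : x 1 = φ (gv 0)) : φ (xW (p := p) hζ s) = x s := by
  rw [xW, ← MonoidHom.comp_apply, map_polyWord, MonoidHom.comp_apply, MonoidHom.comp_apply,
    inS_U, inS_H, ← hu, polyWord_eq D.add D.conj_x]
  congr 1
  exact Classical.choose_spec (show ∃ f : (ZMod p)[X], aeval ((ζ : F) ^ 2) f = s from by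
    have ht : s ∈ Algebra.adjoin (ZMod p) {(ζ : F) ^ 2} :=
      (adjoin_sq_eq_top (p := p) hζ) ▸ Algebra.mem_top
    rwa [Algebra.adjoin_singleton_eq_range_aeval] at ht)

/-- A word for `y(s)`. -/
noncomputable def yW {η : Kˣ} (hη : ∀ u : Kˣ, u ∈ Subgroup.zpowers η) (s : K) : FreeGroup (Fin 6) :=
  polyWord (Classical.choose (show ∃ f : (ZMod p)[X], aeval ((η : K)⁻¹) f = s from by
    have ht : s ∈ Algebra.adjoin (ZMod p) {(η : K)⁻¹} :=
      (adjoin_inv_top (p := p) η hη) ▸ Algebra.mem_top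
    rwa [Algebra.adjoin_singleton_eq_range_aeval] at ht)) (gv 3) (gv 1)

theorem yW_map {η : Kˣ} (hη : ∀ u : Kˣ, u ∈ Subgroup.zpowers η) (s : K) {G : Type*} [Group G]
    (φ : FreeGroup (Fin 6) →* G) {y : K → G} (hadd : ∀ s t, y (s + t) = y s * y t)
    (hA : ∀ t, φ (gv 1) * y t * (φ (gv 1))⁻¹ = y ((η : K)⁻¹ * t))
    (hu : y 1 = φ (gv 3)) : φ (yW (p := p) hη s) = y s := by
  rw [yW, map_polyWord, ← hu, polyWord_eq hadd hA]
  congr 1
  exact Classical.choose_spec (show ∃ f : (ZMod p)[X], aeval ((η : K)⁻¹) f = s from by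
    have ht : s ∈ Algebra.adjoin (ZMod p) {(η : K)⁻¹} :=
      (adjoin_inv_top (p := p) η hη) ▸ Algebra.mem_top
    rwa [Algebra.adjoin_singleton_eq_range_aeval] at ht)

variable {H} {ζ η} {k : ℕ}

theorem long_upper_pow (t : K) : long H (upperU t) ^ p = 1 := by
  rw [← map_pow, Cfsg.Agent.S2286.sl_upper_pow, map_one]

/-- The relators for the long root group. -/
theorem long_root_rels (G : HermGen H ζ η k) :
    ∃ L : List (FreeGroup (Fin 6)), L.length ≤ (if p = 2 then 3 else 4) ∧
      (∀ r ∈ L, hom6 H ζ η r = 1) ∧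
      ∀ {P : Type} [Group P] (φ : FreeGroup (Fin 6) →* P), (∀ r ∈ L, φ r = 1) →
        ∃ y : K → P, (∀ s t, y (s + t) = y s * y t) ∧ y 1 = φ (gv 3) ∧
          ∀ t, φ (gv 1) * y t * (φ (gv 1))⁻¹ = y ((η : K)⁻¹ * t) := by
  set a : K := (η : K)⁻¹ with ha
  have hadj : Algebra.adjoin (ZMod p) {a} = ⊤ := adjoin_inv_top η G.genK
  have M := su4Data_matrix H G
  have hm0 : hom6 H ζ η (gv 1) = short H (diagA ζ) := by simp [hom6, gv]
  have hm3 : hom6 H ζ η (gv 3) = long H (upperU 1) := by simp [hom6, gv]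
  have hconj : ∀ (n : ℕ) (t : K), (short H (diagA ζ)) ^ n * long H (upperU t) *
      ((short H (diagA ζ)) ^ n)⁻¹ = long H (upperU (a ^ n * t)) := fun n t =>
    conj_pow_param (x := fun t : K => long H (upperU t)) M.conj_hy n t
  have hpoly : hom6 H ζ η (polyWord (minpoly (ZMod p) a) (gv 3) (gv 1)) = 1 := by
    rw [map_polyWord, hm0, hm3, polyWord_eq (x := fun t : K => long H (upperU t)) M.sl'.add
      M.conj_hy, minpoly.aeval]
    exact M.sl'.x_zero
  have hint : IsIntegral (ZMod p) a := Algebra.IsIntegral.isIntegral _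
  have hpow : hom6 H ζ η (gv 3 ^ p) = 1 := by rw [map_pow, hm3, long_upper_pow]
  have hcommM : ∀ n, Commute (long H (upperU (1 : K)))
      (short H (diagA ζ) ^ n * long H (upperU 1) * (short H (diagA ζ) ^ n)⁻¹) := fun n => by
    rw [hconj]
    show long H (upperU 1) * long H (upperU _) = long H (upperU _) * long H (upperU 1)
    rw [← M.sl'.add, ← M.sl'.add, add_comm]
  by_cases he : Module.finrank (ZMod p) K ≤ 2
  · refine ⟨[gv 3 ^ p, gv 3 * (gv 1 * gv 3 * (gv 1)⁻¹) * (gv 3)⁻¹ * (gv 1 * gv 3 * (gv 1)⁻¹)⁻¹,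
      polyWord (minpoly (ZMod p) a) (gv 3) (gv 1)], by split_ifs <;> simp, fun r hr => ?_,
      fun {P} _ φ hr => ?_⟩
    · simp only [List.mem_cons, List.not_mem_nil, or_false] at hr
      rcases hr with rfl | rfl | rfl
      · exact hpow
      · have := hcommM 1
        rw [pow_one] at this
        simp only [map_mul, map_inv, hm0, hm3]
        rw [this.eq]; group
      · exact hpoly
    · have h0 : φ (gv 3) ^ p = 1 := by rw [← map_pow]; exact hr _ (by simp)
      have h1 := hr (gv 3 * (gv 1 * gv 3 * (gv 1)⁻¹) * (gv 3)⁻¹ * (gv 1 * gv 3 * (gv 1)⁻¹)⁻¹)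
        (by simp)
      have h2 := hr (polyWord (minpoly (ZMod p) a) (gv 3) (gv 1)) (by simp)
      simp only [map_mul, map_inv] at h1
      rw [mul_inv_eq_one, mul_inv_eq_iff_eq_mul] at h1
      rw [map_polyWord] at h2
      have hc := commute_of_two (φ (gv 3)) (φ (gv 1)) (minpoly.monic hint)
        (minpoly.natDegree_pos hint) ((minpoly.natDegree_le _).trans he) h1 h2
      obtain ⟨y, hy1, hy2, hy3⟩ := exists_param _ _ _ hadj h0 hc h2
      exact ⟨y, hy1, hy2, hy3⟩
  · obtain ⟨β, hβ⟩ : ∃ β : ℕ, a = 1 + a ^ β := by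
      have hne : a - 1 ≠ 0 := by
        intro h
        apply he
        rw [sub_eq_zero] at h
        have h1 : η = 1 := Units.ext (by simpa [ha] using h)
        have h2 : Nat.card Kˣ = 1 := by
          rw [← orderOf_eq_card_of_forall_mem_zpowers G.genK, h1, orderOf_one]
        rw [Nat.card_units, Nat.card_eq_fintype_card] at h2
        have h3 := CfsgLib.SLTwoPres.card_field (p := p) (F := K)
        have h5 : p ^ Module.finrank (ZMod p) K = 2 := by omega
        by_contra h4
        have : 2 ^ 3 ≤ p ^ Module.finrank (ZMod p) K :=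
          (Nat.pow_le_pow_left (Fact.out : p.Prime).two_le 3).trans
            (Nat.pow_le_pow_right (Fact.out : p.Prime).pos (by omega))
        omega
      obtain ⟨n, hn⟩ := (mem_powers_iff_mem_zpowers).2
        (show Units.mk0 _ hne ∈ Subgroup.zpowers η⁻¹ by rw [Subgroup.zpowers_inv]; exact G.genK _)
      refine ⟨n, ?_⟩
      rw [show a ^ n = a - 1 by
        rw [ha, ← Units.val_inv_eq_inv_val, ← Units.val_pow_eq_pow_val,
          show η⁻¹ ^ n = _ from hn, Units.val_mk0, ha, Units.val_inv_eq_inv_val]]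
      ring
    refine ⟨[gv 3 ^ p, gv 1 * gv 3 * (gv 1)⁻¹ * (gv 3 * (gv 1 ^ β * gv 3 * (gv 1 ^ β)⁻¹))⁻¹,
      polyWord (minpoly (ZMod p) a) (gv 3) (gv 1)] ++
        (if p = 2 then [] else [gv 3 * (gv 1 ^ β * gv 3 * (gv 1 ^ β)⁻¹) * (gv 3)⁻¹ *
          (gv 1 ^ β * gv 3 * (gv 1 ^ β)⁻¹)⁻¹]), by split_ifs <;> simp, fun r hr => ?_,
      fun {P} _ φ hr => ?_⟩
    · rw [List.mem_append] at hr
      rcases hr with hr | hr
      · simp only [List.mem_cons, List.not_mem_nil, or_false] at hr
        rcases hr with rfl | rfl | rfl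
        · exact hpow
        · simp only [map_mul, map_inv, map_pow, hm0, hm3]
          rw [mul_inv_eq_one, hconj, mul_one]
          have := hconj 1 1
          rw [pow_one, pow_one, mul_one] at this
          rw [this, ← M.sl'.add, ← hβ]
        · exact hpoly
      · split_ifs at hr
        · simp at hr
        · rw [List.mem_singleton] at hr
          subst hr
          simp only [map_mul, map_inv, map_pow, hm0, hm3]
          rw [(hcommM β).eq]; group
    · have h0 : φ (gv 3) ^ p = 1 := by rw [← map_pow]; exact hr _ (by simp)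
      have h1 := hr (gv 1 * gv 3 * (gv 1)⁻¹ * (gv 3 * (gv 1 ^ β * gv 3 * (gv 1 ^ β)⁻¹))⁻¹)
        (by simp)
      have h2 := hr (polyWord (minpoly (ZMod p) a) (gv 3) (gv 1)) (by simp)
      simp only [map_mul, map_inv, map_pow, mul_inv_eq_one] at h1
      rw [map_polyWord] at h2
      have hB : Commute (φ (gv 3)) (φ (gv 1) ^ β * φ (gv 3) * (φ (gv 1) ^ β)⁻¹) := by
        by_cases hp2 : p = 2
        · subst hp2
          have hv : (φ (gv 1) ^ β * φ (gv 3) * (φ (gv 1) ^ β)⁻¹) ^ 2 = 1 := by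
            rw [conj_pow, h0, mul_one, mul_inv_cancel]
          have hw : (φ (gv 3) * (φ (gv 1) ^ β * φ (gv 3) * (φ (gv 1) ^ β)⁻¹)) ^ 2 = 1 := by
            rw [← h1, conj_pow, h0, mul_one, mul_inv_cancel]
          rw [pow_two, mul_eq_one_iff_eq_inv] at hw hv h0
          rw [mul_inv_rev, ← hv, ← h0] at hw
          exact hw
        · have h3 := hr (gv 3 * (gv 1 ^ β * gv 3 * (gv 1 ^ β)⁻¹) * (gv 3)⁻¹ *
            (gv 1 ^ β * gv 3 * (gv 1 ^ β)⁻¹)⁻¹) (by simp [hp2])
          simp only [map_mul, map_inv, map_pow] at h3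
          rw [mul_inv_eq_one, mul_inv_eq_iff_eq_mul] at h3
          exact h3
      have hc : ∀ n : ℕ, Commute (φ (gv 3)) (φ (gv 1) ^ n * φ (gv 3) * (φ (gv 1) ^ n)⁻¹) :=
        fun n => by
          have := commute_crw (φ (gv 3)) (φ (gv 1)) 1 β (by simpa using h1) hB n
          simpa using this
      obtain ⟨y, hy1, hy2, hy3⟩ := exists_param _ _ _ hadj h0 hc h2
      exact ⟨y, hy1, hy2, hy3⟩

/-- The relations tying the two rank one subgroups. -/
noncomputable def tieRels (p : ℕ) [Fact p.Prime] [Algebra (ZMod p) F] [Algebra (ZMod p) K]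
    (H : HermPair F K) {ζ : Fˣ} {η : Kˣ} {k : ℕ} (G : HermGen H ζ η k) :
    List (FreeGroup (Fin 6) × FreeGroup (Fin 6)) :=
  letI := Classical.dec (IsSquare (ζ : F))
  [(gv 4 * gv 0 * (gv 4)⁻¹, xW (p := p) G.genF (H.ι (η : K))⁻¹),
    (gv 2 * gv 4 * (gv 2)⁻¹, gv 1 ^ k * gv 4),
    (gv 5 * gv 1 * (gv 5)⁻¹, gv 1 * gv 4),
    (gv 2 * (gv 5 * xW (p := p) G.genF (-1) * (gv 5)⁻¹) * (gv 2)⁻¹, gv 5 * gv 0 * (gv 5)⁻¹),
    (gv 5 * (gv 2 * gv 3 * (gv 2)⁻¹) * (gv 5)⁻¹, gv 2 * gv 3 * (gv 2)⁻¹),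
    (gv 5 * gv 2 * gv 5 * gv 2, gv 2 * gv 5 * gv 2 * gv 5),
    (gv 3 * (gv 2 * gv 3 * (gv 2)⁻¹), gv 2 * gv 3 * (gv 2)⁻¹ * gv 3),
    (gv 0 * (gv 2 * gv 3 * (gv 2)⁻¹), gv 2 * gv 3 * (gv 2)⁻¹ * gv 0),
    (gv 0 * gv 3 * (gv 0)⁻¹,
      gv 5 * xW (p := p) G.genF (-1) * (gv 5)⁻¹ * (gv 2 * gv 3 * (gv 2)⁻¹) * gv 3)] ++
  if IsSquare (ζ : F) then [] else
    [(xW (p := p) G.genF (ζ : F) * gv 3 * (xW (p := p) G.genF (ζ : F))⁻¹,
      gv 5 * xW (p := p) G.genF (-(ζ : F)) * (gv 5)⁻¹ *
        (gv 2 * yW (p := p) G.genK (η : K) * (gv 2)⁻¹) * gv 3)]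

theorem isSquare_of_two (hp : p = 2) : IsSquare (ζ : F) := by
  subst hp
  haveI : CharP F 2 := (Algebra.charP_iff (ZMod 2) F 2).1 inferInstance
  exact FiniteField.isSquare_of_char_two (ringChar.eq F 2) _

/-- The presentation in the model. -/
theorem gs_pres {q : ℕ} (hF : Fintype.card F = q ^ 2) (hK : Fintype.card K = q)
    (hσ : ∀ s, H.σ s = s ^ q) (G : HermGen H ζ η k) :
    ∃ rels : Finset (FreeGroup (Fin 6)), rels.card ≤ (if p = 2 then 21 else 27) ∧
      ∃ e : PresentedGroup (↑rels : Set (FreeGroup (Fin 6))) ≃* GS H,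
        Subgroup.closure ({e (PresentedGroup.of 0), e (PresentedGroup.of 1),
          e (PresentedGroup.of 2), e (PresentedGroup.of 5)} : Set (GS H)) = ⊤ := by
  classical
  haveI : CharP K p := (Algebra.charP_iff (ZMod p) K p).1 inferInstance
  obtain ⟨LR, hlenR, hsatR, hgivesR⟩ := long_root_rels (p := p) G
  obtain ⟨LS, hlenS, hsatS, hgivesS⟩ : ∃ L : List (FreeGroup (Fin 3)),
      L.length ≤ (if p = 2 then 5 else 8) ∧ (∀ r ∈ L, slHom ζ r = 1) ∧
      ∀ {P : Type} [Group P] (φ : FreeGroup (Fin 3) →* P), (∀ r ∈ L, φ r = 1) →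
        GivesData ζ P φ := by
    by_cases hp2 : p = 2
    · subst hp2
      obtain ⟨L, h1, h2, h3⟩ := sl_rels_two G.genF
      exact ⟨L, by simpa using h1, h2, h3⟩
    · obtain ⟨L, h1, h2, h3⟩ := sl_rels p G.genF
      exact ⟨L, by rw [if_neg hp2]; exact h1, h2, h3⟩
  set e : K := (η : K)
  let LL : List (FreeGroup (Fin 6) × FreeGroup (Fin 6)) :=
    [(gv 1 * gv 4, gv 4 * gv 1), (gv 4 * gv 3 * (gv 4)⁻¹, yW (p := p) G.genK (e ^ 2)),
      (gv 3 * (gv 5 * gv 3 * (gv 5)⁻¹) * gv 3, gv 5),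
      (yW (p := p) G.genK e * (gv 5 * yW (p := p) G.genK e⁻¹ * (gv 5)⁻¹) * yW (p := p) G.genK e,
        gv 4 * gv 5)] ++
    if p = 2 then [] else [(gv 5 * gv 4 * (gv 5)⁻¹, (gv 4)⁻¹)]
  set T := LL ++ tieRels p H G with hT
  set all : List (FreeGroup (Fin 6)) := LS.map inS ++ LR ++ T.map (fun r => r.1 * r.2⁻¹) with hall
  have hlen : all.length ≤ (if p = 2 then 21 else 27) := by
    simp only [hall, hT, List.length_append, List.length_map]
    have h2 : (tieRels p H G).length ≤ (if p = 2 then 9 else 10) := by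
      by_cases hp2 : p = 2
      · simp [tieRels, hp2, isSquare_of_two (ζ := ζ) hp2]
      · by_cases hsq : IsSquare (ζ : F) <;> simp [tieRels, hp2, hsq]
    have h3 : LL.length ≤ (if p = 2 then 4 else 5) := by
      by_cases hp2 : p = 2 <;> simp [LL, hp2]
    split_ifs at hlenS hlenR h2 h3 ⊢ <;> omega
  refine ⟨all.toFinset, (List.toFinset_card_le all).trans hlen, ?_⟩
  set R : Set (FreeGroup (Fin 6)) := ↑all.toFinset with hR
  have hrel : ∀ r ∈ all, PresentedGroup.mk R r = 1 :=
    fun r hr => PresentedGroup.one_of_mem (by simpa [hR] using hr)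
  set mk := PresentedGroup.mk R with hmk
  have hpair : ∀ r ∈ T, mk r.1 = mk r.2 := fun r hr => by
    have h := hrel (r.1 * r.2⁻¹) (List.mem_append_right _ (List.mem_map.2 ⟨r, hr, rfl⟩))
    rwa [map_mul, map_inv, mul_inv_eq_one] at h
  obtain ⟨x, D, hx1⟩ := hgivesS (mk.comp inS) fun r hr => hrel _
    (List.mem_append_left _ (List.mem_append_left _ (List.mem_map.2 ⟨r, hr, rfl⟩)))
  simp only [MonoidHom.comp_apply, inS_U, inS_H, inS_W] at D hx1
  obtain ⟨y, hadd, hy1, hA⟩ := hgivesR mk fun r hr => hrel _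
    (List.mem_append_left _ (List.mem_append_right _ hr))
  have hxw : ∀ s, mk (xW (p := p) G.genF s) = x s := fun s => xW_map G.genF s mk D hx1
  have hyw : ∀ s, mk (yW (p := p) G.genK s) = y s := fun s => yW_map G.genK s mk hadd hA hy1
  have hLL := fun r hr => hpair r (List.mem_append_left _ hr)
  have hTT := fun r hr => hpair r (List.mem_append_right _ hr)
  simp only [LL, List.forall_mem_append, List.forall_mem_cons, List.not_mem_nil, false_imp_iff,
    implies_true, and_true, map_mul, map_inv, map_pow, hyw, ← hy1] at hLL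
  obtain ⟨⟨a1, a2, a3, a4⟩, a5⟩ := hLL
  have D' : SLData η y (mk (gv 4)) (mk (gv 5)) := by
    have hconj : ∀ t, mk (gv 4) * y t * (mk (gv 4))⁻¹ = y (e ^ 2 * t) :=
      conj_param hadd hA (adjoin_inv_top (p := p) η G.genK) (h := mk (gv 4))
        (Commute.symm a1) a2
    refine ⟨hadd, hconj, ?_, by simpa [weylWord] using a3, a4⟩
    by_cases hp2 : p = 2
    · have hy0 : y 0 = 1 := mul_eq_left.1 (by rw [← hadd, add_zero] : y 0 * y 0 = y 0)
      have h2 : (2 : K) = 0 := by
        have := CharP.cast_eq_zero K p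
        rw [hp2, Nat.cast_ofNat] at this
        exact this
      have hinv : ∀ s, weylWord y (mk (gv 5)) s * weylWord y (mk (gv 5)) s = 1 := fun s => by
        have h : ∀ t, y t * y t = 1 := fun t => by rw [← hadd, ← two_mul, h2, zero_mul, hy0]
        simp only [weylWord, mul_assoc]
        simp only [← mul_assoc (y s) (y s), h, one_mul, inv_mul_cancel_left,
          ← mul_assoc (y s⁻¹) (y s⁻¹), mul_inv_cancel_left]
      have hw := hinv 1
      rw [show weylWord y (mk (gv 5)) 1 = mk (gv 5) by simpa [weylWord] using a3] at hw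
      have hhw := hinv e
      rw [show weylWord y (mk (gv 5)) e = mk (gv 4) * mk (gv 5) from a4] at hhw
      rw [inv_eq_of_mul_eq_one_right hw]
      exact eq_inv_of_mul_eq_one_right (by simpa only [mul_assoc] using hhw)
    · simpa [hp2] using a5
  simp only [tieRels, List.forall_mem_append, List.forall_mem_cons, List.not_mem_nil, false_imp_iff,
    implies_true, and_true, map_mul, map_inv, map_pow, hxw, hyw, ← hy1, ← hx1] at hTT
  obtain ⟨⟨b1, b2, b3, b4, b5, b6, b7, b8, b9⟩, b10⟩ := hTT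
  have E : SU4Data H ζ η k x (mk (gv 1)) (mk (gv 2)) y (mk (gv 4)) (mk (gv 5)) := by
    refine ⟨D, D', hA, a1, b1, b2, b3, b4, b5, b6, b7, b8, b9, fun hns => ?_⟩
    rw [if_neg hns] at b10
    simpa [hxw, hyw, ← hy1] using b10
  have hgen : Subgroup.closure ({x 1, mk (gv 1), mk (gv 2), y 1, mk (gv 4), mk (gv 5)} :
      Set (PresentedGroup R)) = ⊤ := by
    refine eq_top_iff.2 ((PresentedGroup.closure_range_of R).ge.trans (Subgroup.closure_mono ?_))
    rintro _ ⟨i, rfl⟩
    rw [hx1, hy1]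
    fin_cases i <;> simp [hmk, gv, PresentedGroup.of]
  obtain ⟨hfin, hcard⟩ := E.finite_and_card_le G hgen
  have M := su4Data_matrix H G
  set π := hom6 H ζ η with hπ
  have m0 : π (gv 0) = short H (upperU 1) := by simp [hπ, hom6, gv]
  have m1 : π (gv 1) = short H (diagA ζ) := by simp [hπ, hom6, gv]
  have m2 : π (gv 2) = short H weylSL := by simp [hπ, hom6, gv]
  have m3 : π (gv 3) = long H (upperU 1) := by simp [hπ, hom6, gv]
  have m4 : π (gv 4) = long H (diagA η) := by simp [hπ, hom6, gv]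
  have m5 : π (gv 5) = long H weylSL := by simp [hπ, hom6, gv]
  have hXS : ∀ s, π (xW (p := p) G.genF s) = short H (upperU s) := fun s =>
    xW_map G.genF s π (x := fun t => short H (upperU t)) (w := short H weylSL)
      (by rw [m1]; exact M.sl) m0.symm
  have hYS : ∀ s, π (yW (p := p) G.genK s) = long H (upperU s) := fun s =>
    yW_map G.genK s π (y := fun t => long H (upperU t)) M.sl'.add
      (fun t => by rw [m1]; exact M.conj_hy t) m3.symm
  have hsatT : ∀ r ∈ T, π r.1 = π r.2 := by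
    simp only [hT, List.forall_mem_append]
    constructor
    · simp only [LL, List.forall_mem_append, List.forall_mem_cons, List.not_mem_nil,
        false_imp_iff, implies_true, and_true, map_mul, map_inv, hYS, m1, m3, m4, m5]
      refine ⟨⟨M.rel_hh, by simpa using M.sl'.conj_x 1, ?_, M.sl'.rel_zeta⟩, ?_⟩
      · simpa [weylWord] using M.sl'.rel_one
      · split_ifs
        · simp
        · simpa [m4, m5] using M.sl'.conj_h
    · simp only [tieRels, List.forall_mem_append, List.forall_mem_cons, List.not_mem_nil,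
        false_imp_iff, implies_true, and_true, map_mul, map_inv, map_pow, hXS, m0, m1, m2, m3,
        m4, m5]
      refine ⟨⟨M.rel_hx, M.rel_wh, M.rel_wh', M.rel_wr, M.rel_wz, M.rel_braid, M.rel_yz, M.rel_xz,
        M.rel_xy⟩, ?_⟩
      split_ifs with hsq
      · simp
      · simpa [hXS, hYS, m0, m1, m2, m3, m4, m5] using M.rel_xy' hsq
  have hsat6 : ∀ r ∈ R, π r = 1 := by
    intro r hr
    have hr' : r ∈ all := by simpa [hR] using hr
    rw [hall, List.mem_append, List.mem_append] at hr'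
    rcases hr' with (hr' | hr') | hr'
    · obtain ⟨r', hr'', rfl⟩ := List.mem_map.1 hr'
      rw [hπ, hom6_inS, hsatS r' hr'', map_one]
    · exact hsatR r hr'
    · obtain ⟨r', hr'', rfl⟩ := List.mem_map.1 hr'
      rw [map_mul, map_inv, mul_inv_eq_one]
      exact hsatT r' hr''
  let ψ : PresentedGroup R →* GS H :=
    PresentedGroup.toGroup (f := ![short H (upperU 1), short H (diagA ζ), short H weylSL,
      long H (upperU 1), long H (diagA η), long H weylSL]) hsat6
  have hψ : ∀ r, ψ (mk r) = π r := fun r => rfl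
  set S4 := Subgroup.closure ({ψ (PresentedGroup.of 0), ψ (PresentedGroup.of 1),
      ψ (PresentedGroup.of 2), ψ (PresentedGroup.of 5)} : Set (GS H)) with hS4
  have htop : S4 = ⊤ := by
    have hof : ∀ i, ψ (PresentedGroup.of i) = π (gv i) := fun i => hψ (gv i)
    have hu : short H (upperU 1) ∈ S4 := by
      rw [hS4, hof 0, m0]; exact Subgroup.subset_closure (Or.inl rfl)
    have hh : short H (diagA ζ) ∈ S4 := by
      rw [← m1, ← hof 1, hS4]; exact Subgroup.subset_closure (Or.inr (Or.inl rfl))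
    have hw : short H weylSL ∈ S4 := by
      rw [← m2, ← hof 2, hS4]; exact Subgroup.subset_closure (Or.inr (Or.inr (Or.inl rfl)))
    have hw' : long H weylSL ∈ S4 := by
      rw [← m5, ← hof 5, hS4]; exact Subgroup.subset_closure (Or.inr (Or.inr (Or.inr rfl)))
    let A : AddSubgroup F :=
      { carrier := {t | short H (upperU t) ∈ S4}
        add_mem' := fun {a b} ha hb => by
          simp only [Set.mem_ofPred_eq] at ha hb ⊢
          rw [M.sl.add]; exact S4.mul_mem ha hb
        zero_mem' := by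
          simp only [Set.mem_ofPred_eq]; rw [M.sl.x_zero]; exact S4.one_mem
        neg_mem' := fun {a} ha => by
          simp only [Set.mem_ofPred_eq] at ha ⊢
          rw [M.sl.x_neg]; exact S4.inv_mem ha }
    have hx : ∀ t, short H (upperU t) ∈ S4 := fun t =>
      CfsgLib.SLThreePres.all_mem_of_mul_closed G.genF 2 (Or.inl rfl) A (fun s hs => by
        show short H (upperU ((ζ : F) ^ 2 * s)) ∈ S4
        rw [← M.sl.conj_x]
        exact S4.mul_mem (S4.mul_mem hh hs) (S4.inv_mem hh)) hu t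
    exact eq_top_of_four H hF hσ G S4 hx hh hw hw'
  have hsurj : Function.Surjective ψ := by
    rw [← MonoidHom.range_eq_top, eq_top_iff, ← htop, hS4, Subgroup.closure_le]
    intro a ha
    simp only [Set.mem_insert_iff, Set.mem_singleton_iff] at ha
    rcases ha with rfl | rfl | rfl | rfl <;> exact ⟨_, rfl⟩
  haveI := hfin
  haveI := Fintype.ofFinite (PresentedGroup R)
  have hle := Nat.card_le_card_of_surjective ψ hsurj
  have hb : Nat.card (PresentedGroup R) ≤ Nat.card (GS H) := by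
    refine hcard.trans ?_
    rw [Nat.card_eq_fintype_card (α := F), hF, Nat.card_eq_fintype_card (α := K)]
    exact card_bound H hF hσ hK
  exact ⟨MulEquiv.ofBijective ψ ((Nat.bijective_iff_surjective_and_card ψ).2
    ⟨hsurj, le_antisymm hb hle⟩), htop⟩

end Words

/-- `SU₄(q)` has a presentation with six generators, four of which generate. -/
theorem su_four_pres {F : Type*} [Field F] [Fintype F] {q : ℕ} (hF : Fintype.card F = q ^ 2) :
    ∃ rels : Finset (FreeGroup (Fin 6)), rels.card ≤ (if Even q then 21 else 27) ∧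
      ∃ e : PresentedGroup (↑rels : Set (FreeGroup (Fin 6))) ≃* ↥(Cfsg.SU 4 F q),
        Subgroup.closure ({e (PresentedGroup.of 0), e (PresentedGroup.of 1),
          e (PresentedGroup.of 2), e (PresentedGroup.of 5)} : Set ↥(Cfsg.SU 4 F q)) = ⊤ := by
  classical
  obtain ⟨p, n, hp, hc, hn, hq⟩ := CfsgLib.Unitary.exists_char hF
  haveI := hc
  haveI : Fact p.Prime := ⟨hp⟩
  obtain ⟨K, iK, jK, H, ζ, η, hK, hσ, G⟩ := exists_hermPair hF
  letI : Algebra (ZMod p) F := ZMod.algebra F p
  haveI : CharP K p := (RingHom.charP_iff H.ι H.ι.injective p).2 hc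
  letI : Algebra (ZMod p) K := ZMod.algebra K p
  obtain ⟨rels, hcard, e, he⟩ := gs_pres (p := p) hF hK hσ G
  obtain ⟨-, -, E, -⟩ := exists_iso H hF hσ
  have hev : Even q ↔ p = 2 := by
    rw [hq, Nat.even_pow' hn.ne']
    exact ⟨fun h => (hp.even_iff).1 h, fun h => h ▸ even_two⟩
  refine ⟨rels, by simpa only [hev] using hcard, e.trans E, ?_⟩
  have := congrArg (Subgroup.map E.toMonoidHom) he
  rw [MonoidHom.map_closure, Subgroup.map_top_of_surjective _ E.surjective] at this
  simpa [Set.image_insert_eq] using this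

end CfsgLib.SUPres
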